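import Cfsg.Agent.H20.A3a

/-! The action of `C(z)` on a Clifford frame. -/

set_option autoImplicit false
set_option linter.unusedSectionVars false

namespace H20A3
open Subgroup Cfsg H10 Equiv
open H13 (XS XP Cz mem_Cz mem_Cz' mem_Cz_iff self_mem_Cz)
open scoped commutatorElement

variable {G : Type*} [Group G] [Finite G]

theorem exists_perm {ι : Type*} {z : G} {p : ι → G} (zz : z * z = 1)
    (inj : ∀ i j, pm z (p i) (p j) → i = j) (hY : ∀ y ∈ Cz z, ∀ i, ∃ j, pm z (y * p i * y⁻¹) (p j)) :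
    ∃ σ : Cz z →* Perm ι, ∀ (y : Cz z) i, pm z (y * p i * (y : G)⁻¹) (p (σ y i)) := by
  choose f hf using hY
  let F : Cz z →* Function.End ι :=
    { toFun := fun y => f y y.2
      map_one' := funext fun i => inj _ _ (by
        change pm z _ (p i)
        simpa using (hf 1 (one_mem _) i).symm zz)
      map_mul' := fun x y => funext fun i => inj _ _ (by
        refine ((hf _ (x * y).2 i).symm zz).trans zz (pm.trans zz ?_ (hf x x.2 (f y y.2 i)))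
        simpa [mul_assoc] using (hf y y.2 i).conj x.2) }
  exact ⟨F.toHomPerm, fun y i => hf y y.2 i⟩

theorem XM.exists_fr {z : G} {E : Subgroup G} (h : XM z E) : ∃ γ, Fr z E γ := by
  obtain ⟨z', hes, hc⟩ := H3.isES_of_isExtraspecial h.xs.es
  have hz : (z' : G) = z := (h.xs.cen' z'.2 fun y hy =>
    congrArg Subtype.val (mem_center_iff.1 hes.central ⟨y, hy⟩).symm).resolve_left
      fun e => hes.ne_one (Subtype.ext e)
  obtain ⟨n, x, y, ε, hε, hB, hcard, hsq⟩ := hes.exists_basis_two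
  rw [card_top, h.xs.card] at hcard
  obtain rfl : n = 2 := by have := Nat.pow_right_injective le_rfl hcard; omega
  have nc : ∀ i, ¬ Commute (x i : G) (y i) := fun i c => hes.ne_one (by
    rw [← hB.xy i, commutatorElement_eq_one_iff_commute]; exact Subtype.ext c)
  have cxx : Commute (x 0 : G) (x 1) := (hB.xx 0 1).map E.subtype
  have cyy : Commute (y 0 : G) (y 1) := (hB.yy 0 1).map E.subtype
  have c01 : Commute (x 0 : G) (y 1) := (hB.xy' 0 1 (by decide)).map E.subtype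
  have c10 : Commute (x 1 : G) (y 0) := (hB.xy' 1 0 (by decide)).map E.subtype
  have s0 := hsq 0
  have s1 := hsq 1
  simp only [Subtype.ext_iff, pow_two, coe_mul, SubmonoidClass.coe_pow, hz] at s0 s1
  simp only [Fin.val_zero, Fin.val_one, if_true, show ¬ (0 + 1 = 2) by omega, if_false, pow_zero] at s0 s1
  have zx := fun i => h.xs.cz (x i).2
  have zy := fun i => h.xs.cz (y i).2
  obtain rfl : ε = 1 := by
    by_contra e
    obtain rfl : ε = 0 := by omega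
    rcases h.m3 _ (x 0).2 _ (x 1).2 s0.1 (s1.1.trans (pow_zero z)) cxx with k | k | k
    exacts [nc 0 ((k.comm (zy 0)).2 (.one_right _)).symm, nc 1 ((k.comm (zy 1)).2 (.one_right _)).symm,
      nc 1 ((k.comm (zy 1)).2 c01.symm).symm]
  rw [pow_one] at s1
  have m0 := E.mul_mem (x 0).2 (y 0).2
  have q0 : (x 0 : G) * y 0 * (x 0 * y 0) = z := by rw [h.sq_ac (x 0).2 (y 0).2 (nc 0), s0.1, s0.2]; simp
  have q : ∀ w : G, w * w = z → Commute (x 0 : G) w → Commute (y 0 : G) w →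
      x 0 * y 0 * w * (x 0 * y 0 * w) = 1 := fun w w2 a b => by
    rw [mul_assoc, ← mul_assoc w, ← (a.mul_left b).eq, mul_assoc _ w, ← mul_assoc, q0, w2, h.xs.zz]
  have n1 : ∀ w : E, Commute (x 0 : G) w → ¬ Commute (x 0 : G) (x 0 * y 0 * w) := fun w a => by
    rw [h.cmE (x 0).2 m0 w.2, h.cmE (x 0).2 (x 0).2 (y 0).2]; simp [a, nc]
  have n2 : ∀ w : E, Commute (y 0 : G) w → ¬ Commute (y 0 : G) (x 0 * y 0 * w) := fun w a => by
    rw [h.cmE (y 0).2 m0 w.2, h.cmE (y 0).2 (x 0).2 (y 0).2]; simp [a, Commute.symm_iff (a := (y 0 : G)), nc]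
  have n3 : ¬ Commute ((x 0 : G) * y 0 * x 1) (x 0 * y 0 * y 1) := fun c => nc 1 (by
    have a : Commute ((x 0 : G) * y 0 * x 1) (x 0 * y 0) :=
      (Commute.refl _).mul_left (cxx.symm.mul_right c10)
    have b := ((h.cmE (E.mul_mem m0 (x 1).2) m0 (y 1).2).1 c).1 a
    exact (((h.cmE (y 1).2 m0 (x 1).2).1 b.symm).1 (c01.mul_left cyy).symm).symm)
  refine ⟨![x 0, y 0, x 0 * y 0 * x 1, x 0 * y 0 * y 1], h, fun i => ?_, fun i => ?_, fun i j e => ?_⟩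
  · fin_cases i
    exacts [(x 0).2, (y 0).2, E.mul_mem m0 (x 1).2, E.mul_mem m0 (y 1).2]
  · fin_cases i
    exacts [s0.1, s0.2, q _ s1.1 cxx c10.symm, q _ s1.2 c01 cyy]
  · fin_cases i <;> fin_cases j
    exacts [(e rfl).elim, nc 0, n1 _ cxx, n1 _ c01, fun c => nc 0 c.symm, (e rfl).elim, n2 _ c10.symm,
      n2 _ cyy, fun c => n1 _ cxx c.symm, fun c => n2 _ c10.symm c.symm, (e rfl).elim, n3,
      fun c => n1 _ c01 c.symm, fun c => n2 _ cyy c.symm, fun c => n3 c.symm, (e rfl).elim]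

theorem fix5 : ∀ s : Perm (Fin 5), s ^ 4 = 1 → s ^ 2 ≠ 1 → ∃ m, (s ^ 2) m = m ∧ ∀ k, (s ^ 2) k = k → k = m := by
  decide +kernel

theorem nrm4 : ∀ s : Perm (Fin 4), Commute (s * finRotate 4 ^ 2 * s⁻¹) (finRotate 4 ^ 2) := by
  unfold Commute SemiconjBy
  decide +kernel

/-- a frame permuted by `C(z)` as the symmetric group -/
structure Cf (z : G) (E : Subgroup G) (γ : Fin 4 → G) (σ : G → Perm (Fin 4)) : Prop extends Fr z E γ where
  act : ∀ g ∈ Cz z, ∀ i, pm z (g * γ i * g⁻¹) (γ (σ g i))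
  surj : ∀ s, ∃ g ∈ Cz z, σ g = s
  card : Nat.card (Cz z) = 768

theorem XM.exists_cf {z : G} {E : Subgroup G} (h : XM z E) (π : Cz z →* Perm (Fin 4))
    (hπ : Function.Surjective π) (hk : π.ker = E.subgroupOf (Cz z)) : ∃ γ σ, Cf z E γ σ := by
  obtain ⟨γ, h⟩ := h.exists_fr
  have zz := h.zz
  let p : Fin 5 → G := Fin.cons (aa γ) γ
  have pE : ∀ i, p i ∈ E := Fin.cases h.am h.mem
  have p2 : ∀ i, p i * p i = 1 := Fin.cases h.asq h.sq
  have pn : ∀ i j, i ≠ j → ¬ Commute (p i) (p j) :=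
    Fin.cases (Fin.cases (fun e => (e rfl).elim) fun j _ => h.nac j) fun i =>
      Fin.cases (fun _ => h.nca i) fun j e => h.nc i j fun k => e (k ▸ rfl)
  have p1 : ∀ i, ¬ pm z (p i) 1 := Fin.cases h.npa1 h.npg1
  have inj : ∀ i j, pm z (p i) (p j) → i = j := fun i j k => by_contra fun e =>
    pn j i (Ne.symm e) ((k.comm (h.cz (pE j))).2 (.refl _))
  obtain ⟨τ, hτ⟩ := exists_perm zz inj fun y hy i => by
    rcases h.inv (h.xs.nrm y hy _ (pE i)) (by rw [conj_sq, p2, mul_one, mul_inv_cancel]) with k | k | ⟨j, k⟩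
    · exact (p1 i (by simpa [mul_assoc] using k.conj (inv_mem hy))).elim
    exacts [⟨0, k⟩, ⟨j.succ, k⟩]
  have kτ : ∀ y, τ y = 1 ↔ π y = 1 := fun y => by
    rw [← π.mem_ker, hk, mem_subgroupOf]
    exact ⟨fun e => h.mem_of_fix y.2 fun i => by have := hτ y i.succ; rwa [e] at this,
      fun e => Perm.ext fun i => inj _ _ (((hτ y i).symm zz).trans zz (h.xs.conj e (pE i)))⟩
  obtain ⟨c, hc⟩ := hπ (finRotate 4)
  obtain ⟨m, m1, m2⟩ := fix5 (τ c) (by rw [← map_pow, kτ, map_pow, hc]; decide)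
    (by rw [← map_pow, Ne, kτ, map_pow, hc]; decide)
  have fx : ∀ y, τ y m = m := fun y => by
    have c1 : Commute (τ y * τ c ^ 2 * (τ y)⁻¹) (τ c ^ 2) := by
      rw [← commutatorElement_eq_one_iff_commute, ← map_pow, ← map_inv, ← map_mul, ← map_mul,
        ← map_commutatorElement, kτ, map_commutatorElement, commutatorElement_eq_one_iff_commute]
      simpa only [map_mul, map_inv, map_pow, hc] using nrm4 (π y)
    have c2 := m2 _ ((congrArg (fun s : Perm _ => s m) c1.eq).symm.trans (by rw [Perm.mul_apply, m1]))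
    have c3 := m2 ((τ y)⁻¹ m) (by rw [eq_comm, Perm.inv_eq_iff_eq, eq_comm]; exact c2)
    rwa [Perm.inv_eq_iff_eq, eq_comm] at c3
  have h' : Fr z E fun i => p (m.succAbove i) := ⟨h.toXM, fun i => pE _, fun i => p2 _,
    fun i j e => pn _ _ fun k => e (Fin.succAbove_right_injective k)⟩
  obtain ⟨σ, hσ⟩ := exists_perm (p := fun i => p (m.succAbove i)) zz (fun i j => h'.pm_inj) fun y hy i => by
    obtain ⟨j, e⟩ := Fin.exists_succAbove_eq (x := τ ⟨y, hy⟩ (m.succAbove i)) (y := m) fun e =>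
      Fin.succAbove_ne m i ((τ _).injective (e.trans (fx _).symm))
    exact ⟨j, e ▸ hτ ⟨y, hy⟩ _⟩
  have kσ : σ.ker = π.ker := by
    ext y
    rw [hk, mem_subgroupOf, σ.mem_ker]
    exact ⟨fun e => h'.mem_of_fix y.2 fun i => by simpa [e] using hσ y i,
      fun e => Perm.ext fun i => h'.pm_inj (((hσ y i).symm zz).trans zz (h.xs.conj e (pE _)))⟩
  have i24 : π.ker.index = 24 := by
    rw [index_ker, MonoidHom.range_eq_top.2 hπ, card_top, Nat.card_perm, Nat.card_fin]; rfl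
  have hs : σ.range = ⊤ := eq_top_of_card_eq _ (by
    rw [← index_ker, kσ, i24, Nat.card_perm, Nat.card_fin]; rfl)
  classical
  refine ⟨_, fun g => if e : g ∈ Cz z then σ ⟨g, e⟩ else 1, h', fun g hg i => ?_, fun s => ?_, ?_⟩
  · rw [dif_pos hg]; exact hσ ⟨g, hg⟩ i
  · obtain ⟨y, e⟩ := MonoidHom.range_eq_top.1 hs s
    exact ⟨y, y.2, by rw [dif_pos y.2, e]⟩
  · rw [← π.ker.card_mul_index, i24, hk, card_subgroupOf_of_le h.xs.le, h.xs.card]; rfl

/-- the Klein four-group -/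
def Kl (s : Perm (Fin 4)) : Prop := s * s = 1 ∧ Perm.sign s = 1

instance : DecidablePred Kl := fun s => by unfold Kl; infer_instance

theorem kl_fix : ∀ s, Kl s → ∀ i, s i = i → s = 1 := by decide +kernel
theorem kl_mul : ∀ s, Kl s → ∀ t, Kl t → Kl (s * t) ∧ (s 0 = t 0 → s = t) := by decide +kernel
theorem kl_sq : ∀ s : Perm (Fin 4), s * s * (s * s) = 1 → Kl (s * s) := by decide +kernel
theorem kl_conj : ∀ s, Kl s → ∀ t, Kl (t * s * t⁻¹) := by decide +kernel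
theorem kl_inv : ∀ s, Kl s → s⁻¹ = s := fun _ h => inv_eq_of_mul_eq_one_right h.1
theorem kl_of_fpf : ∀ s : Perm (Fin 4), s * s = 1 → (∀ i, s i ≠ i) → Kl s := by decide +kernel
theorem kl_mv : ∀ s, Kl s → s ≠ 1 → ∀ j, j ≠ 0 → ∃ r : Perm (Fin 4), (r * s * r⁻¹) 0 = j := by decide +kernel
theorem kl_dbl : ∀ s, Kl s → s ≠ 1 → ∃ k, 0 ≠ s 0 ∧ 0 ≠ k ∧ 0 ≠ s k ∧ s 0 ≠ k ∧ s 0 ≠ s k ∧ k ≠ s k := by
  decide +kernel
theorem kl_cross : ∀ s, Kl s → s ≠ 1 → ∀ k, k ≠ 0 → s 0 ≠ k →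
    0 ≠ k ∧ 0 ≠ s 0 ∧ 0 ≠ s k ∧ k ≠ s 0 ∧ k ≠ s k ∧ s 0 ≠ s k := by decide +kernel
theorem kl_three : ∀ s, Kl s → ∀ t, Kl t → ∀ j : Fin 4, (s 0 = 0 ∨ s 0 = j) → (t 0 = 0 ∨ t 0 = j) →
    s = 1 ∨ t = 1 ∨ s * t = 1 := by decide +kernel
theorem odd_inv : ∀ s : Perm (Fin 4), s * s = 1 → ¬ Kl s → ∃ i j k l, s = swap i j ∧
    i ≠ j ∧ i ≠ k ∧ i ≠ l ∧ j ≠ k ∧ j ≠ l ∧ k ≠ l := by decide +kernel
theorem kl_of_even : ∀ s : Perm (Fin 4), s ^ 4 = 1 → Perm.sign s = 1 → Kl s := by decide +kernel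
theorem pow12 : ∀ s : Perm (Fin 4), s ^ 12 = 1 := by decide +kernel
theorem odd_adj : ∀ s : Perm (Fin 4), s ^ 4 = 1 → ¬ Kl s → s * s = 1 ∨
    ∃ j, j ≠ 0 ∧ ∀ t, Kl t → t 0 = j → s * t * (s * t) = 1 := by decide +kernel
theorem cen_swap : ∀ i j k l : Fin 4, i ≠ j → i ≠ k → i ≠ l → j ≠ k → j ≠ l → k ≠ l → ∀ s : Perm (Fin 4),
    s * swap i j = swap i j * s → (s k = l ∨ s = 1 ∨ s = swap i j) ∧
      (Kl s → s 0 = 0 ∨ s 0 = (swap i j * swap k l) 0) := by decide +kernel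
theorem two_oth : ∀ m : Fin 4, ∃ u v, u ≠ v ∧ m ≠ u ∧ m ≠ v := by decide

namespace Cf
variable {z : G} {E : Subgroup G} {γ : Fin 4 → G} {σ : G → Perm (Fin 4)} (h : Cf z E γ σ)
include h

theorem le : E ≤ Cz z := h.xs.le
theorem gH (i : Fin 4) : γ i ∈ Cz z := h.le (h.mem i)

theorem mul {x y : G} (hx : x ∈ Cz z) (hy : y ∈ Cz z) : σ (x * y) = σ x * σ y :=
  Perm.ext fun i => h.pm_inj (((h.act _ (mul_mem hx hy) i).symm h.zz).trans h.zz
    (pm.trans h.zz (by simpa [mul_assoc] using (h.act y hy i).conj hx) (h.act x hx (σ y i))))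

theorem ker {g : G} (hg : g ∈ Cz z) : σ g = 1 ↔ g ∈ E :=
  ⟨fun e => h.mem_of_fix hg fun i => by simpa [e] using h.act g hg i, fun e => Perm.ext fun i =>
    h.pm_inj (((h.act g hg i).symm h.zz).trans h.zz (h.xs.conj e (h.mem i)))⟩

theorem one {g : G} (hg : g ∈ E) : σ g = 1 := (h.ker (h.le hg)).2 hg

/-- the action as a homomorphism -/
def hom : Cz z →* Perm (Fin 4) where
  toFun g := σ g
  map_one' := h.one E.one_mem
  map_mul' x y := h.mul x.2 y.2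

theorem inv' {x : G} (hx : x ∈ Cz z) : σ x⁻¹ = (σ x)⁻¹ := map_inv h.hom ⟨x, hx⟩
theorem pow {x : G} (hx : x ∈ Cz z) (n : ℕ) : σ (x ^ n) = σ x ^ n := map_pow h.hom ⟨x, hx⟩ n
theorem cnj {x y : G} (hx : x ∈ Cz z) (hy : y ∈ Cz z) : σ (x * y * x⁻¹) = σ x * σ y * (σ x)⁻¹ := by
  rw [h.mul (mul_mem hx hy) (inv_mem hx), h.mul hx hy, h.inv' hx]
theorem mulE {x y : G} (hx : x ∈ Cz z) (hy : y ∈ E) : σ (x * y) = σ x := by
  rw [h.mul hx (h.le hy), h.one hy, mul_one]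
theorem sq1 {x : G} (hx : x ∈ Cz z) (e : x * x ∈ E) : σ x * σ x = 1 := by rw [← h.mul hx hx, h.one e]

theorem fix {g : G} (hg : g ∈ Cz z) {i : Fin 4} (c : Commute g (γ i)) : σ g i = i :=
  (h.pm_inj (by simpa [c.eq] using h.act g hg i)).symm

theorem act_fix {g : G} (hg : g ∈ Cz z) {i : Fin 4} (e : σ g i = i) : pm z (g * γ i * g⁻¹) (γ i) := by
  simpa [e] using h.act g hg i

theorem act2 {g : G} (hg : g ∈ Cz z) (i j : Fin 4) :
    pm z (g * (γ i * γ j) * g⁻¹) (γ (σ g i) * γ (σ g j)) := by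
  simpa [mul_assoc] using (h.act g hg i).mul h.zz (h.cz (h.mem _)) (h.act g hg j)

theorem act_a {g : G} (hg : g ∈ Cz z) : pm z (g * aa γ * g⁻¹) (aa γ) := by
  have k := fun i j (e : i ≠ j) => (σ g).injective.ne e
  refine pm.trans h.zz ?_ (h.prod4 (k 0 1 (by decide)) (k 0 2 (by decide)) (k 0 3 (by decide))
    (k 1 2 (by decide)) (k 1 3 (by decide)) (k 2 3 (by decide)))
  simpa [aa, mul_assoc] using (h.act2 hg 0 1).mul h.zz (h.cz (h.mem2 _ _)) (h.act2 hg 2 3)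

theorem sq_comm {g x : G} (hg : g ∈ Cz z) (e : pm z (g * x * g⁻¹) x) : Commute (g * g) x := by
  have := e.conj hg
  rw [Commute, SemiconjBy, ← mul_inv_eq_iff_eq_mul, mul_inv_rev,
    show g * g * x * (g⁻¹ * g⁻¹) = g * (g * x * g⁻¹) * g⁻¹ by group]
  rcases e with e | e
  · rw [e, e]
  · rw [e, show g * (x * z) * g⁻¹ = g * x * g⁻¹ * (g * z * g⁻¹) by group, e, mem_Cz'.1 hg, mul_assoc,
      h.zz, mul_one]

/-- the action of an element exchanging two members of the frame on their product -/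
theorem swp {t : G} (ht : t ∈ Cz z) {i : Fin 4} (e : σ t i ≠ i) (e2 : σ t * σ t = 1) :
    Commute t (γ i * γ (σ t i)) ↔ ¬ Commute (t * t) (γ i) := by
  have hu := h.xs.nrm t ht _ (h.mem i)
  have k1 := h.act t ht i
  have k2 : pm z (γ i * (t * γ i * t⁻¹)) (γ i * γ (σ t i)) := pm.mul h.zz (h.cz (h.mem _)) .rfl k1
  have nc : ¬ Commute (t * γ i * t⁻¹) (γ i) := fun c =>
    h.nc _ _ e.symm ((k1.comm (h.cz (h.mem i))).1 c.symm)
  have k3 : pm z (t * t * γ i * (t * t)⁻¹) (γ i) := h.act_fix (mul_mem ht ht) (by rw [h.mul ht ht, e2]; rfl)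
  have k : ∀ u v : G, Commute u v ↔ u * v * u⁻¹ = v := fun u v => mul_inv_eq_iff_eq_mul.symm
  rw [← k2.comm (mem_Cz_iff.1 ht), k, k, show t * (γ i * (t * γ i * t⁻¹)) * t⁻¹ =
      t * γ i * t⁻¹ * (t * t * γ i * (t * t)⁻¹) by group]
  rcases k3 with k | k <;> rw [k]
  · rw [h.ac hu (h.mem i) nc]; simp [h.xs.z_ne]
  · rw [← mul_assoc, h.ac hu (h.mem i) nc, mul_assoc, h.zz]; simp [h.xs.z_ne]

theorem swp1 {t : G} (ht : t ∈ Cz z) (t2 : t * t = 1) {i : Fin 4} (e : σ t i ≠ i) :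
    ¬ Commute t (γ i * γ (σ t i)) := by
  rw [h.swp ht e (h.sq1 ht (t2 ▸ E.one_mem)), t2]; simp

theorem swp_pm {t : G} (ht : t ∈ Cz z) {i : Fin 4} (e : σ t i ≠ i) (e2 : σ t * σ t = 1) :
    pm z (t * (γ i * γ (σ t i)) * t⁻¹) (γ i * γ (σ t i)) := by
  refine (h.act2 ht _ _).trans h.zz ?_
  rw [← Perm.mul_apply, e2]
  exact .inr (h.ac (h.mem _) (h.mem _) (h.nc _ _ e))

theorem conj_of {t x : G} (c : Commute x z) (e : pm z (t * x * t⁻¹) x) (n : ¬ Commute t x) :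
    x⁻¹ * t * x = t * z ∨ ¬ Commute t z := by
  by_cases k : Commute t z
  · refine .inl ?_
    have e := e.resolve_left fun e => n (mul_inv_eq_iff_eq_mul.1 e)
    rw [show x⁻¹ * t * x = x⁻¹ * (t * x * t⁻¹) * t by group, e, k.eq]; group
  · exact .inr k

/-- every involution other than `z` is conjugate to its product with `z` -/
theorem conj_z {t : G} (ht : t ∈ Cz z) (t2 : t * t = 1) (t1 : t ≠ 1) (tz : t ≠ z) : IsConj t (t * z) := by
  by_cases e : t ∈ E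
  · obtain ⟨r, -, k⟩ := h.xs.exists_nc e t1 tz
    exact isConj_iff.2 ⟨r, k⟩
  · obtain ⟨i, hi⟩ : ∃ i, σ t i ≠ i := by
      by_contra k
      exact e ((h.ker ht).1 (Perm.ext fun i => not_not.1 fun n => k ⟨i, n⟩))
    refine isConj_iff.2 ⟨(γ i * γ (σ t i))⁻¹, ?_⟩
    rw [inv_inv]
    exact (h.conj_of (h.cz (h.mem2 _ _)) (h.swp_pm ht hi (h.sq1 ht (t2 ▸ E.one_mem)))
      (h.swp1 ht t2 hi)).resolve_right (not_not.2 (mem_Cz_iff.1 ht))

theorem cm_prod {t : G} (ht : t ∈ Cz z) {i j k l : Fin 4} (h1 : i ≠ j) (h2 : i ≠ k) (h3 : i ≠ l)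
    (h4 : j ≠ k) (h5 : j ≠ l) (h6 : k ≠ l) (e1 : pm z (t * (γ i * γ j) * t⁻¹) (γ i * γ j))
    (e2 : pm z (t * (γ k * γ l) * t⁻¹) (γ k * γ l)) :
    Commute t (aa γ) ↔ (Commute t (γ i * γ j) ↔ Commute t (γ k * γ l)) := by
  rw [← (h.prod4 h1 h2 h3 h4 h5 h6).comm (mem_Cz_iff.1 ht), cm_mul h.xs ht e1 e2 (h.mem2 _ _)]

/-- an involution inducing a double transposition centralizes the fifth involution -/
theorem dbl {t : G} (ht : t ∈ Cz z) (t2 : t * t = 1) (k : Kl (σ t)) (e : t ∉ E) : Commute t (aa γ) := by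
  obtain ⟨l, h1, h2, h3, h4, h5, h6⟩ := kl_dbl _ k (mt (h.ker ht).1 e)
  rw [h.cm_prod ht h1 h2 h3 h4 h5 h6 (h.swp_pm ht h1.symm k.1) (h.swp_pm ht h6.symm k.1)]
  exact iff_of_false (h.swp1 ht t2 h1.symm) (h.swp1 ht t2 h6.symm)

theorem cross {t : G} (ht : t ∈ Cz z) (k : Kl (σ t)) (e : t ∉ E) {j : Fin 4} (j0 : j ≠ 0) (hj : σ t 0 ≠ j) :
    pm z (t * (γ 0 * γ j) * t⁻¹ * (γ 0 * γ j)) (aa γ) := by
  obtain ⟨h1, h2, h3, h4, h5, h6⟩ := kl_cross _ k (mt (h.ker ht).1 e) j j0 hj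
  exact ((h.act2 ht 0 j).mul h.zz (h.cz (h.mem2 _ _)) .rfl).trans h.zz
    (h.prod4 h6 h2.symm h4.symm h3.symm h5.symm h1)

theorem cross' {t : G} (ht : t ∈ Cz z) (k : Kl (σ t)) (e : t ∉ E) {j : Fin 4} (j0 : j ≠ 0) (hj : σ t 0 ≠ j) :
    ¬ pm z (t * (γ 0 * γ j) * t⁻¹) (γ 0 * γ j) := fun c => by
  have := ((h.cross ht k e j0 hj).symm h.zz).trans h.zz (c.mul h.zz (h.cz (h.mem2 _ _)) .rfl)
  rw [h.sq2 j0.symm] at this
  exact h.npa1 (this.trans h.zz (.inr (one_mul z).symm))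

theorem lift (s : Perm (Fin 4)) : ∃ g ∈ Cz z, Commute g (aa γ) ∧ σ g = s := by
  obtain ⟨g, hg, e⟩ := h.surj s
  by_cases c : Commute g (aa γ)
  · exact ⟨g, hg, c, e⟩
  · refine ⟨g * γ 0, mul_mem hg (h.gH 0), ?_, (h.mulE hg (h.mem 0)).trans e⟩
    have k1 := (h.act_a hg).resolve_left fun e => c (mul_inv_eq_iff_eq_mul.1 e)
    rw [Commute, SemiconjBy, mul_assoc, h.ac (h.mem 0) h.am (h.nca 0), h.xs.comm (E.mul_mem h.am (h.mem 0)),
      ← mul_assoc, mem_Cz.1 hg, ← mul_assoc, mul_assoc z, mul_inv_eq_iff_eq_mul.1 k1, h.xs.comm h.am]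
    simp [← mul_assoc, h.zz]

end Cf

end H20A3
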