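import Cfsg.Agent.H20.AS1
import Cfsg.Agent.H21.DZ3
import Cfsg.Agent.H10.Act

/-! Characters fixed by the power map fixing `2`-elements and inverting elements of odd order. -/

set_option autoImplicit false
set_option linter.unusedSectionVars false

namespace H20.AS

open Subgroup H10 Cfsg H17 Finset
open H19 (kk Blk irr B0 Kr IsPElt lam)

variable {O : ValuationSubring ℂ} [CharP (kk O) 2] {G : Type*} [Group G] [Finite G] {k : ℕ}
  {t y : G}

section
variable (h1 : ∀ g : G, (∃ j : ℕ, orderOf g = 2 ^ j) → g ^ k = g)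
  (h2 : ∀ g : G, Odd (orderOf g) → g ^ k = g⁻¹)
include h1 h2

theorem pow_pow (g : G) : (g ^ k) ^ k = g := by
  obtain ⟨x, hx⟩ := H19.exists_isPPart 2 g
  have e1 := h1 x (H19.isPPart_isPElt hx)
  have e2 := h2 _ (Nat.two_dvd_ne_zero.1 (H19.isPPart_preg hx) |> Nat.odd_iff.2)
  have hc : Commute x (x⁻¹ * g) := (Commute.refl x).inv_right.mul_right (H19.isPPart_commute hx)
  have e : g = x * (x⁻¹ * g) := by simp
  generalize x⁻¹ * g = z at e e2 hc
  rw [e, hc.mul_pow, e1, e2, hc.inv_right.mul_pow, e1, inv_pow, e2, inv_inv]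

theorem cop_pow : k.Coprime (Nat.card G) := by
  refine Nat.coprime_of_dvd fun r hr hk hG => ?_
  haveI := Fact.mk hr
  obtain ⟨g, hg⟩ := exists_prime_orderOf_dvd_card' r hG
  have := pow_pow h1 h2 g
  rw [orderOf_dvd_iff_pow_eq_one.1 (hg.dvd.trans hk), one_pow] at this
  exact hr.one_lt.ne (by rw [← hg, ← this, orderOf_one])

theorem pow_invol (χ : IrrCharacter G) : powIrr (cop_pow h1 h2) (powIrr (cop_pow h1 h2) χ) = χ :=
  Subtype.ext (funext fun g => by rw [powIrr_apply, powIrr_apply, pow_pow h1 h2])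

theorem exists_fix_B0 (ht : orderOf t = 2) : ∃ χ ∈ irr (B0 O G), χ ≠ H19.triv G ∧
    ∀ g, (χ : G → ℂ) (g ^ k) = (χ : G → ℂ) g := by
  classical
  by_contra! h
  have h0 : powIrr (cop_pow h1 h2) (H19.triv G) = H19.triv G := Subtype.ext (funext fun g => by
    rw [powIrr_apply, H19.triv_apply, H19.triv_apply])
  have h4 : ∀ χ ∈ univ.filter (· ∈ irr (B0 O G)),
      powIrr (cop_pow h1 h2) χ ∈ univ.filter (· ∈ irr (B0 O G)) := fun χ hχ => by
    have k1 : lam O χ = lam O (H19.triv G) := (mem_filter.1 hχ).2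
    have k2 := lam_powIrr (cop_pow h1 h2) k1
    rw [h0] at k2
    exact mem_filter.2 ⟨mem_univ _, k2⟩
  have h5 : ∀ χ ∈ (univ.filter (· ∈ irr (B0 O G))).filter fun χ => powIrr (cop_pow h1 h2) χ = χ,
      χ = H19.triv G := fun χ hχ => by_contra fun k1 => by
    obtain ⟨g, k2⟩ := h χ (mem_filter.1 (mem_filter.1 hχ).1).2 k1
    exact k2 (by rw [← powIrr_apply (cop_pow h1 h2), (mem_filter.1 hχ).2])
  have h6 : H19.triv G ∈ (univ.filter (· ∈ irr (B0 O G))).filter
      fun χ => powIrr (cop_pow h1 h2) χ = χ :=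
    mem_filter.2 ⟨mem_filter.2 ⟨mem_univ _, H19.triv_mem_B0⟩, h0⟩
  have h3 := congrArg (H19.res O) (H19.Kr_weak' (p := 2) (B0 O G) ht.symm.dvd H19.preg_one)
  rw [H19.Kr_eq, H19.res_sum _ (fun χ _ => mul_mem (H19.irr_mem O χ _) (H19.irr_mem O χ _)),
    H19.res_zero, H21.sum_invol_two _ _ h4 (fun χ _ => pow_invol h1 h2 χ) _ (fun χ _ => by
      rw [powIrr_apply, powIrr_apply, inv_one, one_pow, h1 t ⟨1, ht⟩]),
    sum_eq_single_of_mem (H19.triv G) h6 fun χ hχ k1 => (k1 (h5 χ hχ)).elim,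
    H19.triv_apply, H19.triv_apply, mul_one, H19.res_one] at h3
  exact one_ne_zero h3

theorem exists_fix_even (hy : y ≠ 1) (hr : IsConj y y⁻¹)
    (ho : ¬ 2 ∣ Nat.card (centralizer ({y} : Set G))) : ∃ χ : IrrCharacter G,
      Even (charDegree (χ : G → ℂ)) ∧ ∀ g, (χ : G → ℂ) (g ^ k) = (χ : G → ℂ) g := by
  classical
  obtain ⟨O, _⟩ := H19.exists_val 2
  by_contra! h
  have e1 := h2 y (Nat.odd_iff.2 (Nat.two_dvd_ne_zero.1 fun k => ho (k.trans
    (orderOf_dvd_natCard _ (mem_centralizer_singleton_iff.2 rfl)))))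
  have e2 : ∀ χ : IrrCharacter G, (χ : G → ℂ) y⁻¹ = (χ : G → ℂ) y := fun χ =>
    (χ.2.isClassFunction.of_isConj hr).symm
  have h3 := congrArg (H19.res O) (sum_irr_one_mul_of_ne hy)
  have h4 := congrArg (H19.res O) (H19.Kr_univ y y)
  rw [H19.res_sum _ (fun χ _ => mul_mem (H19.irr_mem O χ _) (H19.irr_mem O χ _)), H19.res_zero,
    H21.sum_invol_two _ _ (fun _ _ => mem_univ _) (fun χ _ => pow_invol h1 h2 χ) _ (fun χ _ => by
      rw [powIrr_apply, powIrr_apply, one_pow, e1, e2])] at h3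
  rw [H19.Kr_eq, if_pos (IsConj.refl y), filter_true_of_mem fun _ _ => Set.mem_univ _,
    H19.res_sum _ (fun χ _ => mul_mem (H19.irr_mem O χ _) (H19.irr_mem O χ _)), H19.res_natCast,
    H21.natCast_odd_two (Nat.odd_iff.2 (Nat.two_dvd_ne_zero.1 ho)),
    H21.sum_invol_two _ _ (fun _ _ => mem_univ _) (fun χ _ => pow_invol h1 h2 χ) _ (fun χ _ => by
      rw [powIrr_apply, powIrr_apply, inv_pow, e1, inv_inv, e2])] at h4
  have h5 := congrArg (· ^ 2) h3
  simp only [CharTwo.sum_sq] at h5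
  refine one_ne_zero (h4.symm.trans (Eq.trans (sum_congr rfl fun χ hχ => ?_)
    (h5.trans (zero_pow two_ne_zero))))
  have h6 : Odd (charDegree (χ : G → ℂ)) := Nat.not_even_iff_odd.1 fun k1 => by
    obtain ⟨g, k2⟩ := h χ k1
    exact k2 (by rw [← powIrr_apply (cop_pow h1 h2), (mem_filter.1 hχ).2])
  rw [e2, H19.res_mul (H19.irr_mem O χ _) (H19.irr_mem O χ _),
    H19.res_mul (H19.irr_mem O χ _) (H19.irr_mem O χ _), ← H19.cast_deg, H19.res_natCast,
    H21.natCast_odd_two h6, one_mul, sq]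

end

theorem exists_comm_invol {s : G} (ht : orderOf t = 2) (hs : s * s = 1)
    (h : 2 ∣ Nat.card (centralizer ({t * s} : Set G))) :
    ∃ u, orderOf u = 2 ∧ u * t = t * u ∧ u * s = s * u := by
  have h2 : t * t = 1 := by rw [← sq, ← ht, pow_orderOf_eq_one]
  have hn : zpowers t ≤ nrm (centralizer {t * s}) := zpowers_le.2 (mem_normalizer_fintype fun c hc => by
    have h3 := mem_centralizer_singleton_iff.1 hc
    have h4 : t * s = t * (t * s)⁻¹ * t⁻¹ := by
      rw [mul_inv_rev, inv_eq_of_mul_eq_one_right hs, inv_eq_of_mul_eq_one_right h2, mul_assoc,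
        mul_assoc, h2, mul_one]
    refine mem_centralizer_singleton_iff.2 ?_
    rw [h4]
    have h5 : c * (t * s)⁻¹ = (t * s)⁻¹ * c := (Commute.inv_right h3).eq
    generalize (t * s)⁻¹ = z at h5
    calc _ = t * (c * z) * t⁻¹ := by group
      _ = _ := by rw [h5]; group)
  obtain ⟨T, hT, h3⟩ := exists_isSylowIn_ge (L := centralizer {t * s} ⊔ zpowers t)
    (isPGroup_zpowers_of_orderOf_eq ht) le_sup_right
  have h4 := hT.inf_normal le_sup_left (sup_le le_normalizer hn)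
  obtain ⟨u, hu, h5⟩ := exists_orderOf_eq_of_ne_bot (hT.isPGroup.to_le (inf_le_left.trans inf_le_left))
    (inf_CC_ne_bot hT.isPGroup inf_le_left h3 (le_NN_inf (h3.trans le_normalizer) hn) (h4.ne_bot h))
  have h6 := mem_CC.1 hu.2 t (mem_zpowers t)
  refine ⟨u, h5, h6.symm, mul_left_cancel (a := t) ?_⟩
  rw [← mul_assoc, h6, mul_assoc, mem_centralizer_singleton_iff.1 hu.1.2, mul_assoc]

theorem exists_real (ht : orderOf t = 2) (hc : ∀ s : G, orderOf s = 2 → IsConj t s)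
    (h : {u : G | orderOf u = 2 ∧ u * t = t * u}.ncard ^ 2 < (centralizer ({t} : Set G)).index) :
    ∃ y : G, y ≠ 1 ∧ IsConj y y⁻¹ ∧ ¬ 2 ∣ Nat.card (centralizer ({y} : Set G)) := by
  classical
  by_contra! h0
  have := Fintype.ofFinite G
  have h2 : ∀ s : G, orderOf s = 2 → s * s = 1 := fun s hs => by rw [← sq, ← hs, pow_orderOf_eq_one]
  have h1 : univ.filter (fun s => s ∈ cls ⊤ t) ⊆ (univ.filter fun u => orderOf u = 2 ∧ u * t = t * u).biUnion
      fun u => univ.filter fun s => orderOf s = 2 ∧ s * u = u * s := fun s hs => by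
    obtain ⟨g, -, rfl⟩ := (mem_filter.1 hs).2
    have hs := (H19.orderOf_conj' g t).trans ht
    generalize g * t * g⁻¹ = s at hs
    simp only [mem_biUnion, mem_filter, mem_univ, true_and]
    by_cases h3 : t * s = 1
    · exact ⟨t, ⟨ht, rfl⟩, hs, by rw [h3, mul_eq_one_comm.1 h3]⟩
    obtain ⟨u, k1, k2, k3⟩ := exists_comm_invol ht (h2 s hs) (h0 _ h3 (isConj_iff.2 ⟨t, by
      rw [mul_inv_rev, inv_eq_of_mul_eq_one_right (h2 s hs), inv_eq_of_mul_eq_one_right (h2 t ht),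
        ← mul_assoc, h2 t ht, one_mul]⟩))
    exact ⟨u, ⟨k1, k2⟩, hs, k3.symm⟩
  have h3 := (card_le_card h1).trans (card_biUnion_le_card_mul _ _
    #{u | orderOf u = 2 ∧ u * t = t * u} fun u hu => by
      obtain ⟨g, rfl⟩ := isConj_iff.1 (hc u (mem_filter.1 hu).2.1)
      refine card_le_card_of_injOn (fun s => g⁻¹ * s * g) (fun s hs => ?_) fun a _ b _ e => by simpa using e
      simp only [coe_filter, mem_univ, true_and, Set.mem_setOf_eq] at hs ⊢
      refine ⟨by simpa [hs.1] using H19.orderOf_conj' g⁻¹ s, ?_⟩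
      calc _ = g⁻¹ * (s * (g * t * g⁻¹)) * g := by group
        _ = _ := by rw [hs.2]; group)
  rw [← relIndex_top_right, ← ncard_cls, Set.ncard_eq_toFinset_card', Set.ncard_eq_toFinset_card',
    Set.toFinset_setOf, sq] at h
  exact h.not_ge (le_of_eq_of_le (congrArg _ (by ext; simp)) h3)

end H20.AS
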