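import Cfsg.Agent.H20.A3a
import Cfsg.Agent.H10.Spe
import Cfsg.Agent.H3.PComp

/-! Partial transfers evaluated by repeated pairing. -/

set_option autoImplicit false
set_option linter.unusedSectionVars false

namespace H20Tp
open Subgroup Cfsg H10
open scoped Pointwise

section Coc
variable {G X A : Type*} [Group G] [MulAction G X] [CommGroup A]

/-- cocycle identity -/
def Coc (c : G → X → A) : Prop := ∀ g h ξ, c (g * h) ξ = c g (h • ξ) * c h ξ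

theorem Coc.one {c : G → X → A} (hc : Coc c) (ξ : X) : c 1 ξ = 1 := by
  have := hc 1 1 ξ
  rw [one_mul, one_smul] at this
  exact mul_eq_left.mp this.symm

theorem Coc.cnj {c : G → X → A} (hc : Coc c) {a y : G} {ξ : X} (h : a • y • ξ = y • ξ) :
    c a (y • ξ) = c (y⁻¹ * a * y) ξ := by
  have h1 := hc y (y⁻¹ * a * y) ξ
  rw [show y * (y⁻¹ * a * y) = a * y by group, hc, mul_smul, mul_smul, h, inv_smul_smul, mul_comm] at h1
  exact mul_left_cancel h1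

theorem prod_smul_eq {Y : Finset X} {g : G} (hg : ∀ ξ ∈ Y, g • ξ ∈ Y) (f : X → A) :
    ∏ ξ ∈ Y, f (g • ξ) = ∏ ξ ∈ Y, f ξ := by
  classical
  have h1 : Y.image (g • ·) = Y := Finset.eq_of_subset_of_card_le
    (fun η hη => by obtain ⟨ξ, hξ, rfl⟩ := Finset.mem_image.mp hη; exact hg ξ hξ)
    (Finset.card_image_of_injective _ (MulAction.injective g)).ge
  conv_rhs => rw [← h1]
  rw [Finset.prod_image (MulAction.injective g).injOn]

/-- the partial transfer along the orbit of `ξ` is trivial -/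
def TT (c : G → X → A) (Z : Subgroup G) (ξ : X) : Prop :=
  ∀ O : Finset X, (∀ η, η ∈ O ↔ ∃ g ∈ Z, g • ξ = η) → ∀ g ∈ Z, ∏ η ∈ O, c g η = 1

theorem prod_of_tt {c : G → X → A} {Z : Subgroup G} {g : G} (hg : g ∈ Z) (Y : Finset X) :
    (∀ g ∈ Z, ∀ ξ ∈ Y, g • ξ ∈ Y) → (∀ ξ ∈ Y, TT c Z ξ) → ∏ ξ ∈ Y, c g ξ = 1 := by
  classical
  induction Y using Finset.strongInduction with
  | _ Y ih =>
  intro hY h
  rcases Y.eq_empty_or_nonempty with rfl | ⟨ξ, hξ⟩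
  · rfl
  have hO : (Y.filter fun η => ∃ g ∈ Z, g • ξ = η) ⊆ Y := Finset.filter_subset _ _
  rw [← Finset.prod_sdiff hO, h ξ hξ _ (fun η => Finset.mem_filter.trans
    ⟨fun k => k.2, fun ⟨g, hg, e⟩ => ⟨e ▸ hY g hg ξ hξ, g, hg, e⟩⟩) g hg, mul_one]
  refine ih _ (Finset.sdiff_ssubset hO ⟨ξ, Finset.mem_filter.mpr ⟨hξ, 1, Z.one_mem, one_smul _ _⟩⟩)
    (fun g hg η hη => ?_) fun η hη => h η (Finset.mem_sdiff.mp hη).1
  obtain ⟨h2, h3⟩ := Finset.mem_sdiff.mp hη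
  refine Finset.mem_sdiff.mpr ⟨hY g hg η h2, fun h4 => h3 ?_⟩
  obtain ⟨-, u, hu, e⟩ := Finset.mem_filter.mp h4
  exact Finset.mem_filter.mpr ⟨h2, g⁻¹ * u, Z.mul_mem (Z.inv_mem hg) hu, by rw [mul_smul, e, inv_smul_smul]⟩

theorem Coc.tt0 {c : G → X → A} (hc : Coc c) {Z : Subgroup G} {ξ : X}
    (h : ∀ a ∈ Z, a • ξ = ξ → c a ξ = 1) : TT c Z ξ := fun O hO g hg => by
  classical
  choose! k hk hk' using fun η hη => (hO η).1 hη
  have hY : ∀ η ∈ O, g • η ∈ O := fun η hη =>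
    (hO _).2 ⟨g * k η, Z.mul_mem hg (hk η hη), by rw [mul_smul, hk' η hη]⟩
  have key : ∀ η ∈ O, c (k (g • η)) ξ = c g η * c (k η) ξ := fun η hη => by
    have h1 : ((g * k η)⁻¹ * k (g • η)) • ξ = ξ := by
      rw [mul_smul, inv_smul_eq_iff, mul_smul, hk' η hη, hk' _ (hY η hη)]
    have h4 := hc (g * k η) ((g * k η)⁻¹ * k (g • η)) ξ
    rwa [h _ (Z.mul_mem (Z.inv_mem (Z.mul_mem hg (hk η hη))) (hk _ (hY η hη))) h1, h1, mul_one,
      mul_inv_cancel_left, hc, hk' η hη] at h4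
  have h1 := prod_smul_eq hY fun η => c (k η) ξ
  rw [Finset.prod_congr rfl key, Finset.prod_mul_distrib] at h1
  exact mul_eq_right.mp h1

variable [DecidableEq X]

/-- the cocycle on blocks -/
def bk (c : G → X → A) (g : G) (β : Finset X) : A := ∏ η ∈ β, c g η

theorem Coc.bk {c : G → X → A} (hc : Coc c) : Coc (bk c) := fun g h β => by
  rw [H20Tp.bk, H20Tp.bk, H20Tp.bk, Finset.smul_finset_def, Finset.prod_image (MulAction.injective h).injOn,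
    ← Finset.prod_mul_distrib]
  exact Finset.prod_congr rfl fun η _ => hc g h η

theorem smul_pr (g : G) (ξ η : X) : g • ({ξ, η} : Finset X) = {g • ξ, g • η} := by
  simp [Finset.smul_finset_def]

/-- a pairing element -/
structure Pr (Z : Subgroup G) (ξ : X) (y : G) : Prop where
  mem : y ∈ Z
  ne : y • ξ ≠ ξ
  sq : (y * y) • ξ = ξ
  nm : ∀ a ∈ Z, a • ξ = ξ → a • y • ξ = y • ξ

theorem Pr.tt {c : G → X → A} {Z : Subgroup G} {ξ : X} {y : G} (h : Pr Z ξ y)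
    (k : TT (bk c) Z ({ξ, y • ξ} : Finset X)) : TT c Z ξ := fun O hO g hg => by
  classical
  choose! r hr hr' using fun η hη => (hO η).1 hη
  have wd : ∀ u ∈ Z, ∀ v ∈ Z, u • ξ = v • ξ → u • y • ξ = v • y • ξ := fun u hu v hv e => by
    have := h.nm (v⁻¹ * u) (Z.mul_mem (Z.inv_mem hv) hu) (by rw [mul_smul, e, inv_smul_smul])
    rwa [mul_smul, inv_smul_eq_iff] at this
  have mO : ∀ u ∈ Z, u • ξ ∈ O := fun u hu => (hO _).2 ⟨u, hu, rfl⟩
  have p1 : ∀ u ∈ Z, r (u • ξ) • ({ξ, y • ξ} : Finset X) = u • {ξ, y • ξ} := fun u hu => by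
    rw [smul_pr, smul_pr, hr' _ (mO u hu), wd _ (hr _ (mO u hu)) u hu (hr' _ (mO u hu))]
  rw [← Finset.prod_fiberwise_of_maps_to (g := fun η => r η • ({ξ, y • ξ} : Finset X))
    (fun η hη => Finset.mem_image_of_mem _ hη), ← k (O.image fun η => r η • ({ξ, y • ξ} : Finset X)) (fun β => by
      rw [Finset.mem_image]
      exact ⟨fun ⟨η, hη, e⟩ => ⟨_, hr η hη, e⟩, fun ⟨u, hu, e⟩ => ⟨_, mO u hu, (p1 u hu).trans e⟩⟩) g hg]
  refine Finset.prod_congr rfl fun β hβ => Finset.prod_congr ?_ fun _ _ => rfl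
  obtain ⟨η, hη, rfl⟩ := Finset.mem_image.1 hβ
  ext θ
  rw [Finset.mem_filter]
  refine ⟨fun ⟨a, b⟩ => by rw [← b, smul_pr, hr' θ a]; exact Finset.mem_insert_self _ _, fun a => ?_⟩
  rw [smul_pr, Finset.mem_insert, Finset.mem_singleton] at a
  have hy := Z.mul_mem (hr η hη) h.mem
  rcases a with rfl | rfl
  · exact ⟨mO _ (hr η hη), p1 _ (hr η hη)⟩
  · rw [← mul_smul]
    refine ⟨mO _ hy, (p1 _ hy).trans ?_⟩
    rw [mul_smul, smul_pr y, ← mul_smul y, h.sq, Finset.pair_comm]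

theorem Pr.bk1 {c : G → X → A} (hc : Coc c) {Z : Subgroup G} {ξ : X} {y : G} (h : Pr Z ξ y) {a : G} (ha : a ∈ Z)
    (e : a • ξ = ξ) : bk c a {ξ, y • ξ} = c a ξ * c (y⁻¹ * a * y) ξ := by
  rw [bk, Finset.prod_pair h.ne.symm, hc.cnj (h.nm a ha e)]

theorem Pr.bk_one {c : G → X → A} (hc : Coc c) {Z W : Subgroup G} {ξ : X} {y : G} (h : Pr Z ξ y) (hW : W ≤ Z)
    (hy : y ∈ W) (h1 : c (y * y) ξ = 1) (h2 : ∀ a ∈ W, a • ξ = ξ → c a ξ * c (y⁻¹ * a * y) ξ = 1) (a : G)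
    (ha : a ∈ W) (e : a • ({ξ, y • ξ} : Finset X) = {ξ, y • ξ}) : bk c a {ξ, y • ξ} = 1 := by
  have k : a • ξ ∈ ({ξ, y • ξ} : Finset X) := by rw [← e, smul_pr]; exact Finset.mem_insert_self _ _
  rw [Finset.mem_insert, Finset.mem_singleton] at k
  rcases k with k | k
  · rw [h.bk1 hc (hW ha) k, h2 a ha k]
  have ha' := W.mul_mem (W.inv_mem hy) ha
  have k' : (y⁻¹ * a) • ξ = ξ := by rw [mul_smul, k, inv_smul_smul]
  have := hc.bk y (y⁻¹ * a) {ξ, y • ξ}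
  rw [mul_inv_cancel_left, h.bk1 hc (hW ha') k', h2 _ ha' k', smul_pr, k', h.nm _ (hW ha') k', mul_one] at this
  rw [this, bk, Finset.prod_pair h.ne.symm, mul_comm, ← hc, h1]

end Coc

/-- the abstract situation -/
structure St {G : Type*} [Group G] (Z E : Subgroup G) (z : G) : Prop where
  pg : IsPGroup 2 Z
  le : E ≤ Z
  nm : Z ≤ NN(E)
  zm : z ∈ E
  zz : z * z = 1
  cz : ∀ g ∈ Z, g * z = z * g
  sq : ∀ x ∈ E, x * x = 1 ∨ x * x = z
  cj : ∀ x ∈ E, ∀ y ∈ E, y⁻¹ * x * y = x ∨ y⁻¹ * x * y = x * z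

namespace St
variable {G A : Type*} [Group G] [Finite G] [CommGroup A] {Z E : Subgroup G} {z : G} (h : St Z E z)
  (hA : ∀ a : A, a * a = 1)
include h

theorem exists_pr {X : Type*} [MulAction G X] {ξ : X} (hz : z • ξ = ξ) (m : ∃ e ∈ E, e • ξ ≠ ξ) :
    ∃ y ∈ E, Pr Z ξ y := by
  by_contra k
  obtain ⟨e, he, m⟩ := m
  have h1 : Z ⊓ MulAction.stabilizer G ξ ⊔ E ≤ Z := sup_le inf_le_left h.le
  have := eq_of_inf_NN_le (h.pg.to_le h1) (le_sup_left (a := Z ⊓ MulAction.stabilizer G ξ)) fun x hx => by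
    obtain ⟨a, ha, y, hy, rfl⟩ := (mem_sup_of_NN (inf_le_left.trans h.nm)).1 hx.1
    have hn := (mul_mem_cancel_left (le_NN_self _ ha)).1 hx.2
    refine mul_mem ha ⟨h.le hy, by_contra fun n => k ⟨y, hy, h.le hy, n, ?_, fun b hb e => ?_⟩⟩
    · rcases h.sq y hy with e | e <;> rw [e]
      exacts [one_smul _ _, hz]
    · have : (y⁻¹ * b * y) • ξ = ξ := (conj_mem_of_mem_NN' hn (⟨hb, e⟩ : b ∈ Z ⊓ MulAction.stabilizer G ξ)).2
      rwa [mul_smul, mul_smul, inv_smul_eq_iff] at this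
  exact m (this.ge (mem_sup_right he)).2

include hA

theorem ta {X : Type*} [MulAction G X] {c : G → X → A} (hc : Coc c) {ξ : X} (hz : z • ξ ≠ ξ) : TT c Z ξ := by
  classical
  have p : Pr Z ξ z := ⟨h.le h.zm, hz, by rw [h.zz, one_smul], fun a ha e => by
    rw [← mul_smul, h.cz a ha, mul_smul, e]⟩
  exact p.tt (hc.bk.tt0 (p.bk_one hc le_rfl p.mem (by rw [h.zz, hc.one]) fun a ha _ => by
    rw [mul_assoc, h.cz a ha, inv_mul_cancel_left, hA]))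

theorem tb {X : Type*} [MulAction G X] {c : G → X → A} (hc : Coc c) {ξ : X}
    (h1 : ∀ e ∈ E, e • ξ = ξ → c e ξ = 1) (m : ∃ e ∈ E, e • ξ ≠ ξ) : TT c Z ξ := by
  classical
  by_cases hz : z • ξ = ξ
  swap
  · exact h.ta hA hc hz
  obtain ⟨y, hy, p⟩ := h.exists_pr hz m
  refine p.tt (hc.bk.tt0 (p.bk_one hc le_rfl p.mem (h1 _ (E.mul_mem hy hy) p.sq) fun a ha e => ?_))
  have e1 : (a⁻¹ * y⁻¹ * a * y) • ξ = ξ := by
    rw [mul_smul, mul_smul, p.nm a ha e, mul_smul, inv_smul_smul, inv_smul_eq_iff, e]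
  rw [show y⁻¹ * a * y = a * (a⁻¹ * y⁻¹ * a * y) by group, hc, e1,
    h1 _ (E.mul_mem (conj_mem_of_mem_NN' (h.nm ha) (E.inv_mem hy)) hy) e1, mul_one, hA]

theorem tc {X : Type*} [MulAction G X] {c : G → X → A} (hc : Coc c) {ξ : X} (hz : z • ξ = ξ)
    (h1 : c z ξ = 1) (m : ∀ y ∈ E, ∃ e ∈ E, e • ξ ≠ ξ ∧ e • ξ ≠ y • ξ) : TT c Z ξ := by
  classical
  obtain ⟨y, hy, p⟩ := h.exists_pr hz ((m 1 E.one_mem).imp fun e k => ⟨k.1, k.2.1⟩)
  obtain ⟨e, he, m1, m2⟩ := m y hy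
  refine p.tt (h.tb hA hc.bk (p.bk_one hc h.le hy ?_ fun a ha _ => ?_) ⟨e, he, fun k => ?_⟩)
  · rcases h.sq y hy with k | k <;> rw [k]
    exacts [hc.one ξ, h1]
  · rcases h.cj a ha y hy with k | k <;> rw [k]
    exacts [hA _, by rw [hc, hz, h1, mul_one, hA]]
  · have : e • ξ ∈ ({ξ, y • ξ} : Finset X) := by rw [← k, smul_pr]; exact Finset.mem_insert_self _ _
    simp [m1, m2] at this

theorem td {X : Type*} [MulAction G X] {c : G → X → A} (hc : Coc c) {ξ : X} (hz : z • ξ = ξ)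
    (m : ∀ y₁ ∈ E, ∀ y₂ ∈ E, ∀ y₃ ∈ E, ∃ e ∈ E, e • ξ ∉ ({ξ, y₁ • ξ, y₂ • ξ, y₃ • ξ} : Set X)) : TT c Z ξ := by
  classical
  obtain ⟨y, hy, p⟩ := h.exists_pr hz ((m 1 E.one_mem 1 E.one_mem 1 E.one_mem).imp fun e k =>
    ⟨k.1, fun a => k.2 (.inl a)⟩)
  refine p.tt (h.tc hA hc.bk (by rw [smul_pr, hz, p.nm z (h.le h.zm) hz]) (by
    rw [p.bk1 hc (h.le h.zm) hz, mul_assoc, ← h.cz y p.mem, inv_mul_cancel_left, hA]) fun v hv => ?_)
  obtain ⟨e, he, k⟩ := m y hy v hv (v * y) (E.mul_mem hv hy)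
  have : e • ξ ∈ e • ({ξ, y • ξ} : Finset X) := by rw [smul_pr]; exact Finset.mem_insert_self _ _
  refine ⟨e, he, fun a => k ?_, fun a => k ?_⟩ <;> rw [a] at this
  · rcases Finset.mem_insert.1 this with b | b
    exacts [.inl b, .inr (.inl (Finset.mem_singleton.1 b))]
  · rw [smul_pr, ← mul_smul] at this
    rcases Finset.mem_insert.1 this with b | b
    exacts [.inr (.inr (.inl b)), .inr (.inr (.inr (Finset.mem_singleton.1 b)))]

end St

section App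
open H13 (XS Cz mem_Cz mem_Cz' mem_Cz_iff self_mem_Cz)
open H20A3 (cm_mul comm_conj conj_sq)
variable {G A : Type*} [Group G] [Finite G] [CommGroup A] {E : Subgroup G} {z : G} {w : ℕ}

theorem out_mem {H : Subgroup G} (g : G) (ξ : G ⧸ H) : (g • ξ).out⁻¹ * g * ξ.out ∈ H := by
  rw [mul_assoc, ← QuotientGroup.eq, QuotientGroup.out_eq']
  conv_lhs => rw [← QuotientGroup.out_eq' ξ]
  rfl

/-- the transfer cocycle -/
noncomputable def trc {H : Subgroup G} (χ : H →* A) (g : G) (ξ : G ⧸ H) : A := χ ⟨_, out_mem g ξ⟩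

theorem coc_trc {H : Subgroup G} (χ : H →* A) : Coc (trc χ) := fun g h ξ => by
  rw [trc, trc, trc, ← map_mul]
  congr 1
  ext
  simp [mul_smul, mul_assoc]

theorem smul_eq_iff (ξ : G ⧸ Cz z) (a b : G) :
    a • ξ = b • ξ ↔ a * (ξ.out * z * ξ.out⁻¹) * a⁻¹ = b * (ξ.out * z * ξ.out⁻¹) * b⁻¹ := by
  conv_lhs => rw [← QuotientGroup.out_eq' ξ, MulAction.Quotient.smul_mk, MulAction.Quotient.smul_mk,
    QuotientGroup.eq, mem_Cz', smul_eq_mul, smul_eq_mul]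
  generalize ξ.out = r
  refine ⟨fun e => ?_, fun e => ?_⟩
  · nth_rw 1 [← e]; group
  · rw [show (a * r)⁻¹ * (b * r) * z * ((a * r)⁻¹ * (b * r))⁻¹ =
      (a * r)⁻¹ * (b * (r * z * r⁻¹) * b⁻¹) * (a * r) by group, ← e]; group

theorem fix_iff (ξ : G ⧸ Cz z) (a : G) : a • ξ = ξ ↔ Commute a (ξ.out * z * ξ.out⁻¹) := by
  simpa [mul_inv_eq_iff_eq_mul, Commute, SemiconjBy] using smul_eq_iff ξ a 1

theorem three (h : XS z E w) {t : G} (ht : t ∈ Cz z) (t2 : t * t = 1) (tE : t ∉ E) {s : G}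
    (k : ∀ e ∈ E, e * t * e⁻¹ = t ∨ e * t * e⁻¹ = s) : False := by
  have ti := inv_eq_of_mul_eq_one_right t2
  obtain ⟨e, he, n⟩ : ∃ e ∈ E, e * t * e⁻¹ ≠ t := by
    by_contra! a
    exact tE (h.self fun y hy => mul_inv_eq_iff_eq_mul.1 (a y hy))
  have k1 : ∀ u ∈ E, u * t * u⁻¹ ≠ t → u * t * u⁻¹ = e * t * e⁻¹ := fun u hu a =>
    ((k u hu).resolve_left a).trans ((k e he).resolve_left n).symm
  have k2 : ∀ u ∈ E, Commute u t ∨ Commute (e⁻¹ * u) t := fun u hu => by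
    refine or_iff_not_imp_left.2 fun a => mul_inv_eq_iff_eq_mul.1 ?_
    rw [show e⁻¹ * u * t * (e⁻¹ * u)⁻¹ = e⁻¹ * (u * t * u⁻¹) * e by group,
      k1 u hu fun b => a (mul_inv_eq_iff_eq_mul.1 b)]; group
  have he' := h.nrm t ht e he
  have hw := E.mul_mem (E.inv_mem he) he'
  have c1 : Commute (e⁻¹ * (t * e * t⁻¹)) t := (k2 _ he').resolve_left fun a => n (mul_inv_eq_iff_eq_mul.2
    (comm_conj.1 (show Commute (t * e * t⁻¹) (t * t * t⁻¹) by rwa [mul_inv_cancel_right])))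
  have c2 : ∀ u ∈ E, Commute u t → Commute u (e⁻¹ * (t * e * t⁻¹)) := fun u hu a => by
    rw [cm_mul h (h.le hu) (h.conj hu (E.inv_mem he)) (h.conj hu he') he', Commute.inv_right_iff,
      ← comm_conj (g := t) (x := u), ← a.eq, mul_inv_cancel_right]
  have c3 : e⁻¹ * (t * e * t⁻¹) * (e⁻¹ * (t * e * t⁻¹)) = 1 := by
    nth_rw 1 [← mul_inv_eq_iff_eq_mul.2 c1.symm.eq]
    rw [ti, show t * (e⁻¹ * (t * e * t)) * t * (e⁻¹ * (t * e * t)) =
      t * e⁻¹ * t * e * (t * t) * e⁻¹ * t * e * t by group, t2]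
    simp [mul_assoc, t2, ← mul_assoc t t]
  have c4 : Commute e (e⁻¹ * (t * e * t⁻¹)) := by
    by_contra a
    have b := (h.com hw he).resolve_left fun b => a (Commute.symm b)
    have d : e * (e⁻¹ * (t * e * t⁻¹)) * (e * (e⁻¹ * (t * e * t⁻¹))) = e * e := by
      rw [mul_inv_cancel_left, conj_sq]
      rcases h.sq he with a | a <;> rw [a]
      exacts [by group, mem_Cz'.1 ht]
    generalize e⁻¹ * (t * e * t⁻¹) = v at b c3 d hw
    rw [mul_assoc, ← mul_assoc v, b, mul_assoc _ z, ← h.comm hw,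
      show e * (e * v * (v * z)) = e * e * (v * v) * z by group, c3, mul_one] at d
    exact h.ne_mul _ d
  have c5 := h.cen' hw fun u hu => ((k2 u hu).elim (c2 u hu) fun a => by
    simpa using c4.mul_left (c2 _ (E.mul_mem (E.inv_mem he) hu) a)).symm
  refine tE (h.mem_of_triv ht fun x hx => (k2 x hx).elim (fun a => .inl (mul_inv_eq_iff_eq_mul.2 a.symm))
    fun a => ?_)
  have d : t * x * t⁻¹ = e * (e⁻¹ * (t * e * t⁻¹)) * (e⁻¹ * x) := by
    rw [← mul_inv_eq_iff_eq_mul.2 a.symm.eq]; group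
  rcases c5 with b | b <;> rw [d, b]
  exacts [.inl (by group), .inr (by rw [mul_assoc, ← h.comm (E.mul_mem (E.inv_mem he) hx)]; group)]

theorem five (h : XS z E w) (hw : 3 ≤ w) {t : G} (ht : t ∈ Cz z)
    (c : ∀ x ∈ E ⊓ Cz t, ∀ y ∈ E ⊓ Cz t, x * y = y * x) {a b d : G}
    (k : ∀ e ∈ E, e * t * e⁻¹ ∈ ({t, a, b, d} : Set G)) : False := by
  have h1 := h.card_le_of_comm inf_le_left ⟨h.zm, mem_Cz_iff.2 (mem_Cz_iff.1 ht).symm⟩ c
  have h2 := card_inf_mul_relIndex (Cz t) E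
  have h3 : (Cz t).relIndex E ≤ 4 := by
    refine le_trans (Nat.card_le_card_of_injective (β := ({t, a, b, d} : Set G))
      (fun q => ⟨_, k _ q.out.2⟩) fun p q e => ?_) ?_
    · rw [← QuotientGroup.out_eq' p, ← QuotientGroup.out_eq' q, QuotientGroup.eq, mem_subgroupOf, mem_Cz']
      have e : (p.out : G) * t * (p.out : G)⁻¹ = q.out * t * (q.out : G)⁻¹ := congrArg Subtype.val e
      rw [coe_mul, coe_inv, show (p.out : G)⁻¹ * q.out * t * ((p.out : G)⁻¹ * q.out)⁻¹ =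
        (p.out : G)⁻¹ * (q.out * t * (q.out : G)⁻¹) * p.out by group, ← e]; group
    · rw [Nat.card_coe_set_eq]
      exact (Set.ncard_insert_le _ _).trans (Nat.succ_le_succ ((Set.ncard_insert_le _ _).trans
        (Nat.succ_le_succ ((Set.ncard_insert_le _ _).trans (by simp)))))
  rw [inf_comm, h.card] at h2
  obtain ⟨m, rfl⟩ := Nat.exists_eq_add_of_le hw
  have := Nat.mul_le_mul h1 h3
  rw [h2, show 4 = 2 ^ 2 by rfl, ← pow_add, Nat.pow_le_pow_iff_right (by omega)] at this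
  omega

theorem core (h : XS z E w) (hG : pResidual 2 G = ⊤) (hA : ∀ a : A, a * a = 1) (ψ : Cz z →* A)
    (h1 : ∀ r : G, r * z * r⁻¹ ≠ z → r * z * r⁻¹ ∈ E → ∀ x ∈ E, ∀ hx : r⁻¹ * x * r ∈ Cz z, ψ ⟨_, hx⟩ = 1)
    (h2 : 3 ≤ w ∨ ∀ x : Cz z, x * x = 1 → ψ x = 1) (u : Cz z) : ψ u = 1 := by
  classical
  obtain ⟨T, hT, hE, hH⟩ := h.exists_syl (N := ⊤) le_top
  have s : St T E z := ⟨hT.isPGroup, hE, hH.trans h.le_norm, h.zm, h.zz, fun g hg => mem_Cz.1 (hH hg),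
    fun x => h.sq, fun x hx y hy => by simpa using h.conj (E.inv_mem hy) hx⟩
  have hc := coc_trc ψ
  have fx : ∀ {a : G} {ξ : G ⧸ Cz z}, a • ξ = ξ → ∃ hx : ξ.out⁻¹ * a * ξ.out ∈ Cz z, trc ψ a ξ = ψ ⟨_, hx⟩ :=
    fun {a ξ} e => ⟨by simpa [e] using out_mem a ξ, by simp [trc, e]⟩
  have := Fintype.ofFinite (G ⧸ Cz z)
  let τ : G →* A := MonoidHom.mk' (fun g => ∏ ξ, trc ψ g ξ) fun g k => by
    rw [← prod_smul_eq (g := k) (fun _ _ => Finset.mem_univ _) (trc ψ g), ← Finset.prod_mul_distrib]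
    exact Finset.prod_congr rfl fun ξ _ => hc _ _ _
  have hA' : IsPGroup 2 A := fun a => ⟨1, by rw [pow_one, pow_two, hA]⟩
  have o : ((1 : G) : G ⧸ Cz z).out ∈ Cz z := by
    simpa using QuotientGroup.eq.1 (QuotientGroup.out_eq' ((1 : G) : G ⧸ Cz z)).symm
  have f1 : ∀ g, g • ((1 : G) : G ⧸ Cz z) = (1 : G) ↔ g ∈ Cz z := fun g => by
    rw [fix_iff, mem_Cz'.1 o, mem_Cz_iff]
  have key : ∀ g : Cz z, (g : G) ∈ T → ψ g = 1 := fun g hg => by
    have e : ∏ ξ, trc ψ g ξ = 1 := H3.pResidual_le_ker hA' τ (hG.ge (mem_top (g : G)))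
    rw [← Finset.mul_prod_erase _ _ (Finset.mem_univ ((1 : G) : G ⧸ Cz z)), prod_of_tt hg _ (fun a ha ξ hξ =>
      Finset.mem_erase.2 ⟨fun e => (Finset.mem_erase.1 hξ).1 (by
        rw [← (f1 _).2 (inv_mem (hH ha)), ← e, inv_smul_smul]), Finset.mem_univ _⟩) fun ξ hξ => ?_, mul_one] at e
    · obtain ⟨hx, e'⟩ := fx ((f1 g).2 g.2)
      rwa [e', show (⟨_, hx⟩ : Cz z) = (⟨_, o⟩ : Cz z)⁻¹ * g * ⟨_, o⟩ from rfl, map_mul, map_mul, map_inv,
        inv_mul_cancel_comm] at e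
    by_cases hz : z • ξ = ξ
    swap
    · exact s.ta hA hc hz
    have ht : ξ.out * z * ξ.out⁻¹ ∈ Cz z := mem_Cz_iff.2 ((fix_iff ξ z).1 hz).symm
    have tz : ξ.out * z * ξ.out⁻¹ ≠ z := fun e => (Finset.mem_erase.1 hξ).1 (by
      rw [← QuotientGroup.out_eq' ξ, eq_comm, QuotientGroup.eq]; simpa using mem_Cz'.2 e)
    have t2 : ξ.out * z * ξ.out⁻¹ * (ξ.out * z * ξ.out⁻¹) = 1 := by rw [conj_sq, h.zz]; group
    by_cases tE : ξ.out * z * ξ.out⁻¹ ∈ E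
    · obtain ⟨e, he, k⟩ := h.exists_nc tE (fun e => h.z_ne (conj_eq_one_iff.1 e)) tz
      refine s.tb hA hc (fun x hx e => ?_) ⟨e, he, fun a => h.not_commute k ((fix_iff ξ e).1 a)⟩
      obtain ⟨hx', e'⟩ := fx e
      exact e'.trans (h1 _ tz tE x hx hx')
    by_cases cz : trc ψ z ξ = 1
    · refine s.tc hA hc hz cz fun y _ => by_contra fun k => three h ht t2 tE
        (s := y * (ξ.out * z * ξ.out⁻¹) * y⁻¹) fun e he => ?_
      by_contra! n
      exact k ⟨e, he, fun a => n.1 (mul_inv_eq_iff_eq_mul.2 ((fix_iff ξ e).1 a)),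
        fun a => n.2 ((smul_eq_iff ξ e y).1 a)⟩
    obtain ⟨hx, e'⟩ := fx hz
    refine s.td hA hc hz fun a _ b _ d _ => by_contra fun k => five h (h2.resolve_right fun k => cz
      (e'.trans (k _ (Subtype.ext (by simpa [h.zz] using conj_sq ξ.out⁻¹ z))))) ht (fun x hx y hy => ?_)
      (a := a * (ξ.out * z * ξ.out⁻¹) * a⁻¹) (b := b * (ξ.out * z * ξ.out⁻¹) * b⁻¹)
      (d := d * (ξ.out * z * ξ.out⁻¹) * d⁻¹) fun e he => ?_
    · refine (h.com hx.1 hy.1).resolve_right fun n => cz ?_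
      have a := (fix_iff ξ x).2 (mem_Cz_iff.1 hx.2)
      have b := (fix_iff ξ y).2 (mem_Cz_iff.1 hy.2)
      have := congrArg (trc ψ · ξ) n
      simp only [hc _ _ ξ, a, b, hz] at this
      rw [mul_comm] at this
      exact mul_eq_left.1 this.symm
    · rcases not_not.1 fun n => k ⟨e, he, n⟩ with n | n | n | n
      exacts [.inl (mul_inv_eq_iff_eq_mul.2 ((fix_iff ξ e).1 n)), .inr (.inl ((smul_eq_iff ξ e a).1 n)),
        .inr (.inr (.inl ((smul_eq_iff ξ e b).1 n))), .inr (.inr (.inr ((smul_eq_iff ξ e d).1 n)))]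
  have k := H3.pResidual_sup_sylow (hT.of_le hH le_top).toSylow
  exact (sup_le (H3.pResidual_le_ker hA' ψ) fun g hg => key g hg : _ ≤ ψ.ker) (k.ge (mem_top u))

theorem xs_of_hyp (hz : orderOf z = 2) (hE : E = (pCore 2 (Cz z)).map (Cz z).subtype)
    (es : IsExtraspecial 2 E) (hc : CC(E) ≤ E) : ∃ w, 1 ≤ w ∧ XS z E w := by
  have le : E ≤ Cz z := hE ▸ map_subtype_le _
  have zc : z ∈ CC(E) := fun y hy => mem_Cz.1 (le hy)
  exact H13.xs_of es (eq_of_le_of_card_ge (zpowers_le.2 (mem_inf.2 ⟨hc zc, zc⟩))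
    (by rw [H7.extraspecial_card_center es, Nat.card_zpowers, hz])).symm hc (hE ▸ le_NN_map_subtype _)

end App

end H20Tp
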