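import Mathlib

/-!
Groups with a Sylow subgroup of prime order `p`, modules on which its generator `x` has only
small Jordan blocks: endomorphisms over the normalizer extend to the whole group on fixed points.
-/

set_option autoImplicit false
set_option linter.unusedSectionVars false

namespace H20.Tu

open Subgroup Finset Polynomial

section Grp

variable {G : Type*} [Group G] [Finite G] {p : ℕ} [hp : Fact p.Prime] {x : G}

/-- `x` generates a Sylow subgroup of order `p`. -/
structure SY (p : ℕ) (x : G) : Prop where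
  ord : orderOf x = p
  sq : ¬ p ^ 2 ∣ Nat.card G

theorem SY.ne_one (h : SY p x) : x ≠ 1 := fun h1 => hp.out.ne_one (by rw [← h.ord, h1, orderOf_one])

theorem SY.pow (h : SY p x) : x ^ p = 1 := by rw [← h.ord, pow_orderOf_eq_one]

theorem SY.card (h : SY p x) : Nat.card (zpowers x) = p := by rw [Nat.card_zpowers, h.ord]

theorem SY.isP (h : SY p x) : IsPGroup p (zpowers x) := IsPGroup.of_card (n := 1) (by rw [h.card, pow_one])

theorem SY.eq_of_le (h : SY p x) {Q : Subgroup G} (hQ : IsPGroup p Q) (hx : zpowers x ≤ Q) :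
    Q = zpowers x := by
  obtain ⟨n, hn⟩ := IsPGroup.iff_card.1 hQ
  have h1 : n ≤ 1 := by
    by_contra h2
    exact h.sq ((pow_dvd_pow p (by omega)).trans (hn ▸ Q.card_subgroup_dvd_card))
  refine (eq_of_le_of_card_ge hx ?_).symm
  rw [hn, h.card]
  exact (Nat.pow_le_pow_right hp.out.pos h1).trans (pow_one p).le

/-- The Sylow subgroup generated by `x`. -/
def SY.syl (h : SY p x) : Sylow p G := ⟨zpowers x, h.isP, fun hQ hx => h.eq_of_le hQ hx⟩

theorem SY.mem_of_norm (h : SY p x) {z : G} (hz : z ^ p = 1)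
    (hN : z ∈ normalizer (zpowers x : Set G)) : z ∈ zpowers x := by
  have h1 : IsPGroup p (zpowers z) := by
    rintro ⟨_, j, rfl⟩
    refine ⟨1, Subtype.ext ?_⟩
    change (z ^ j) ^ p ^ 1 = 1
    rw [pow_one, ← zpow_natCast, ← zpow_mul, mul_comm j, zpow_mul, zpow_natCast, hz, one_zpow]
  have h2 := IsPGroup.to_sup_of_normal_right' h1 h.isP (zpowers_le.2 hN)
  rw [← h.eq_of_le h2 le_sup_right]
  exact mem_sup_left (mem_zpowers z)

theorem mem_norm_of_conj {g : G} (hg : g * x * g⁻¹ ∈ zpowers x) :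
    g ∈ normalizer (zpowers x : Set G) := by
  refine mem_normalizer_fintype ?_
  rintro _ ⟨j, rfl⟩
  rw [← conj_zpow]
  exact zpow_mem hg j

theorem conj_mem_of_norm {g : G} (hg : g ∈ normalizer (zpowers x : Set G)) :
    g * x * g⁻¹ ∈ zpowers x := (mem_normalizer_iff.1 hg x).1 (mem_zpowers x)

theorem SY.not_dvd_pow (h : SY p x) (g : G) : ¬ p ∣ orderOf (g ^ p) := by
  intro h1
  by_cases h2 : p ∣ orderOf g
  · rw [orderOf_pow_of_dvd hp.out.ne_zero h2] at h1
    refine h.sq (Dvd.dvd.trans ?_ (orderOf_dvd_natCard g))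
    obtain ⟨m, hm⟩ := h2
    rw [hm, Nat.mul_div_cancel_left _ hp.out.pos] at h1
    rw [hm, pow_two]
    exact Nat.mul_dvd_mul_left p h1
  · exact h2 (h1.trans (orderOf_pow_dvd p))

theorem SY.zpowers_eq (h : SY p x) {z : G} (hz : z ∈ zpowers x) (h1 : z ≠ 1) :
    zpowers z = zpowers x := by
  have : Fact (Nat.card (zpowers x)).Prime := ⟨h.card ▸ hp.out⟩
  refine eq_of_le_of_card_ge (zpowers_le.2 hz) ?_
  rw [Nat.card_zpowers z, h.card]
  have h2 : orderOf z ∣ p := h.card ▸ Subgroup.orderOf_dvd_natCard _ hz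
  rcases (Nat.dvd_prime hp.out).1 h2 with h3 | h3
  · exact (h1 (orderOf_eq_one_iff.1 h3)).elim
  · exact h3.ge

/-- The `p`-regular elements of the centralizer form a subgroup. -/
theorem SY.exists_reg (h : SY p x) : ∃ V : Subgroup G, ¬ p ∣ Nat.card V ∧
    ∀ g, g ∈ V ↔ g * x = x * g ∧ ¬ p ∣ orderOf g := by
  have hx : x ∈ centralizer ({x} : Set G) := mem_centralizer_singleton_iff.2 rfl
  have h' : SY p (⟨x, hx⟩ : centralizer ({x} : Set G)) :=
    ⟨by rw [← orderOf_coe]; exact h.ord, fun h1 => h.sq (h1.trans (card_subgroup_dvd_card _))⟩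
  have hN : normalizer (h'.syl : Set (centralizer ({x} : Set G))) ≤
      centralizer (h'.syl : Set (centralizer ({x} : Set G))) := by
    rintro g - _ ⟨j, rfl⟩
    have : Commute (⟨x, hx⟩ : centralizer ({x} : Set G)) g :=
      Subtype.ext (mem_centralizer_singleton_iff.1 g.2).symm
    exact this.zpow_left j
  have h1 := MonoidHom.not_dvd_card_ker_transferSylow h'.syl hN
  refine ⟨(MonoidHom.transferSylow h'.syl hN).ker.map (Subgroup.subtype _), ?_, fun g => ⟨?_, ?_⟩⟩
  · rwa [card_map_of_injective (subtype_injective _)]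
  · rintro ⟨c, hc, rfl⟩
    exact ⟨mem_centralizer_singleton_iff.1 c.2, fun h2 => h1 (by
      rw [coe_subtype, orderOf_coe] at h2
      exact h2.trans (Subgroup.orderOf_dvd_natCard _ hc))⟩
  · rintro ⟨h2, h3⟩
    refine ⟨⟨g, mem_centralizer_singleton_iff.2 h2⟩, ?_, rfl⟩
    have h4 := orderOf_map_dvd (MonoidHom.transferSylow h'.syl hN) ⟨g, mem_centralizer_singleton_iff.2 h2⟩
    have h5 := orderOf_dvd_natCard
      (MonoidHom.transferSylow h'.syl hN ⟨g, mem_centralizer_singleton_iff.2 h2⟩)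
    have h6 : Nat.card (h'.syl : Subgroup (centralizer ({x} : Set G))) = p := h'.card
    rw [h6] at h5
    rw [← orderOf_coe (⟨g, _⟩ : centralizer ({x} : Set G))] at h4
    rcases (Nat.dvd_prime hp.out).1 h5 with h7 | h7
    · exact orderOf_eq_one_iff.1 h7
    · exact (h3 (h7 ▸ h4)).elim

end Grp

section Transfer

variable {k A G : Type*} [Field k] [AddCommGroup A] [Module k A] [Group G] [Finite G]
  {p : ℕ} [hp : Fact p.Prime] [CharP k p] {x : G}

theorem sum_free {P X M : Type*} [Group P] [Fintype P] [MulAction P X] [AddCommGroup M]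
    (T : P → M →+ M) (hT : ∀ m, ∑ g, T g m = 0) (φ : X → M) (hφ : ∀ g q, φ (g • q) = T g (φ q))
    (S : Finset X) (hS : ∀ (g : P), ∀ q ∈ S, g • q ∈ S) (hf : ∀ (g : P), ∀ q ∈ S, g • q = q → g = 1) :
    ∑ q ∈ S, φ q = 0 := by
  classical
  induction S using Finset.strongInduction with
  | H S ih =>
    rcases S.eq_empty_or_nonempty with rfl | ⟨q, hq⟩
    · simp
    have h1 : univ.image (fun g : P => g • q) ⊆ S := by
      intro z hz
      obtain ⟨g, -, rfl⟩ := mem_image.1 hz
      exact hS g q hq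
    rw [← sum_sdiff h1, ih _ (sdiff_ssubset h1 ⟨q, mem_image.2 ⟨1, mem_univ _, one_smul _ _⟩⟩),
      zero_add, sum_image]
    · simp only [hφ, hT]
    · intro g _ g' _ h2
      have := hf (g'⁻¹ * g) q hq (by rw [mul_smul]; exact inv_smul_eq_iff.2 h2)
      exact (inv_mul_eq_one.1 this).symm
    · intro g z hz
      rw [mem_sdiff] at hz ⊢
      refine ⟨hS g z hz.1, fun h2 => hz.2 ?_⟩
      obtain ⟨g', -, h3⟩ := mem_image.1 h2
      exact mem_image.2 ⟨g⁻¹ * g', mem_univ _, by rw [mul_smul, h3, inv_smul_smul]⟩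
    · intro g z hz
      exact hf g z (mem_sdiff.1 hz).1

theorem geom_sum_char {R : Type*} [Ring R] [Algebra k R] (a : R) :
    ∑ j ∈ range p, a ^ j = (a - 1) ^ (p - 1) := by
  have h1 : (∑ j ∈ range p, (X : k[X]) ^ j) = (X - 1) ^ (p - 1) := by
    have h2 : (X - 1 : k[X]) ≠ 0 := X_sub_C_ne_zero 1
    refine mul_right_cancel₀ h2 ?_
    rw [geom_sum_mul, ← pow_succ, Nat.sub_add_cancel hp.out.one_le, sub_pow_char, one_pow]
  simpa using congrArg (aeval a) h1

theorem sum_zpowers [Fintype (zpowers x)] {M : Type*} [AddCommMonoid M] (h : orderOf x = p) (F : G → M) :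
    ∑ g : zpowers x, F g = ∑ j ∈ range p, F (x ^ j) := by
  rw [← h, Finset.sum_range, ← (finEquivZPowers (isOfFinOrder_of_finite x)).sum_comp]
  rfl

theorem exists_transfer (τ : Representation k G A) (h : SY p x) (hn : (τ x - 1) ^ (p - 1) = 0)
    (π : Module.End k A) (hπ : ∀ g ∈ normalizer (zpowers x : Set G), τ g * π = π * τ g) :
    ∃ σ : Module.End k A, (∀ g, τ g * σ = σ * τ g) ∧ ∀ a, τ x a = a → σ a = π a := by
  classical
  obtain ⟨N, hN⟩ : ∃ N, N = normalizer (zpowers x : Set G) := ⟨_, rfl⟩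
  have := Fintype.ofFinite (G ⧸ N)
  have := Fintype.ofFinite (zpowers x)
  let F : G ⧸ N → Module.End k A := fun q => Quotient.liftOn' q (fun c => τ c * π * τ c⁻¹)
    fun c d hcd => by
      rw [QuotientGroup.leftRel_apply] at hcd
      obtain ⟨n, rfl⟩ : ∃ n, d = c * n := ⟨c⁻¹ * d, by simp⟩
      rw [inv_mul_cancel_left, hN] at hcd
      rw [map_mul, mul_assoc (τ c) (τ n), hπ n hcd, mul_inv_rev, map_mul]
      simp only [mul_assoc]
      rw [← mul_assoc (τ n), ← map_mul, mul_inv_cancel, map_one, one_mul]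
  have hF : ∀ (g : G) q, F (g • q) = τ g * F q * τ g⁻¹ := by
    intro g q
    induction q using QuotientGroup.induction_on with
    | H c =>
      change τ (g * c) * π * τ (g * c)⁻¹ = τ g * (τ c * π * τ c⁻¹) * τ g⁻¹
      simp only [mul_inv_rev, map_mul, mul_assoc]
  refine ⟨∑ q, F q, fun g => ?_, fun a ha => ?_⟩
  · conv_rhs => rw [← Equiv.sum_comp (MulAction.toPerm g)]
    simp only [MulAction.toPerm_apply, hF, Finset.mul_sum, Finset.sum_mul, mul_assoc]
    simp only [← map_mul, inv_mul_cancel, map_one, mul_one]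
  have ha' : ∀ g : zpowers x, τ g a = a := by
    rintro ⟨g, hg⟩
    obtain ⟨j, rfl⟩ := (mem_powers_iff_mem_zpowers.2 hg)
    change τ (x ^ j) a = a
    rw [map_pow, Module.End.pow_apply, Function.iterate_fixed ha j]
  rw [LinearMap.sum_apply, ← add_sum_erase _ _ (mem_univ ((1 : G) : G ⧸ N)),
    sum_free (P := zpowers x) (fun g => (τ g).toAddMonoidHom) _ (fun q => F q a), add_zero]
  · change (τ 1 * π * τ 1⁻¹) a = _
    simp
  · intro g q
    change F ((g : G) • q) a = τ g (F q a)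
    rw [hF, Module.End.mul_apply, Module.End.mul_apply]
    exact congrArg (fun z => τ g (F q z)) (ha' g⁻¹)
  · intro g q hq
    rw [mem_erase] at hq ⊢
    refine ⟨fun h1 => hq.1 ?_, mem_univ _⟩
    rw [← inv_smul_smul g q, h1]
    change (((g⁻¹ : zpowers x) * 1 : G) : G ⧸ N) = _
    rw [QuotientGroup.eq, hN]
    simpa using le_normalizer g.2
  · intro g q hq h1
    by_contra h2
    induction q using QuotientGroup.induction_on with
    | H c =>
      refine (mem_erase.1 hq).1 ?_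
      change (((g : G) * c : G) : G ⧸ N) = _ at h1
      rw [eq_comm, QuotientGroup.eq, hN, ← mul_assoc] at h1
      have h3 : (g : G) ^ p = 1 := by
        rw [← h.card]; exact congrArg Subtype.val (pow_card_eq_one' (x := g))
      have h4 := h.mem_of_norm (z := c⁻¹ * g * c) (by
        have := conj_pow (a := c⁻¹) (b := (g : G)) (i := p)
        rw [inv_inv, h3] at this
        simpa using this) h1
      have h5 : x ∈ zpowers (g : G) := by
        rw [h.zpowers_eq g.2 fun h5 => h2 (Subtype.ext h5)]; exact mem_zpowers x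
      obtain ⟨j, hj⟩ := h5
      rw [QuotientGroup.eq, hN, mul_one]
      refine mem_norm_of_conj ?_
      have h6 := zpow_mem h4 j
      have h7 := conj_zpow (a := c⁻¹) (b := (g : G)) (i := j)
      beta_reduce at hj
      rw [hj] at h7
      rwa [← h7, inv_inv]
  · intro m
    change ∑ g : zpowers x, τ g m = 0
    rw [sum_zpowers h.ord (fun g => τ g m)]
    simp only [map_pow]
    rw [← LinearMap.sum_apply, geom_sum_char (k := k), hn, LinearMap.zero_apply]

theorem exists_fixed {T : Module.End k A} {n : ℕ} (hn : (T - 1) ^ n = 0) {K : Submodule k A}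
    (hK : ∀ a ∈ K, T a ∈ K) {m : A} (hm : m ∈ K) (h0 : m ≠ 0) : ∃ a ∈ K, a ≠ 0 ∧ T a = a := by
  have key : ∀ n : ℕ, ∀ m ∈ K, m ≠ 0 → ((T - 1) ^ n) m = 0 → ∃ a ∈ K, a ≠ 0 ∧ T a = a := by
    intro n
    induction n with
    | zero => exact fun m _ h0 h1 => (h0 h1).elim
    | succ n ih =>
      intro m hm h0 h1
      by_cases h2 : T m = m
      · exact ⟨m, hm, h0, h2⟩
      · exact ih (T m - m) (K.sub_mem (hK m hm) hm) (sub_ne_zero.2 h2) (by rwa [pow_succ] at h1)
  exact key n m hm h0 (by rw [hn]; rfl)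

theorem exists_M (τ : Representation k G A) (h : SY p x) (hn : (τ x - 1) ^ (p - 1) = 0)
    (π : Module.End k A) (hπ : ∀ g ∈ normalizer (zpowers x : Set G), τ g * π = π * τ g) :
    ∃ M : Submodule k A, (∀ g, ∀ m ∈ M, τ g m ∈ M) ∧ (∀ a, τ x a = a → π a = a → a ∈ M) ∧
      ∀ m ∈ M, π m = 0 → m = 0 := by
  obtain ⟨σ, h1, h2⟩ := exists_transfer τ h hn π hπ
  have h3 : ∀ g, ∀ m ∈ σ.maxGenEigenspace 1, τ g m ∈ σ.maxGenEigenspace 1 := fun g m hm =>
    Module.End.mapsTo_maxGenEigenspace_of_comm (h1 g).symm 1 hm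
  refine ⟨σ.maxGenEigenspace 1, h3, fun a ha h4 => ?_, fun m hm h4 => ?_⟩
  · rw [Module.End.mem_maxGenEigenspace]
    exact ⟨1, by simp [h2 a ha, h4]⟩
  by_contra h0
  obtain ⟨a, ⟨ha, h5⟩, h6, h7⟩ := exists_fixed hn (K := σ.maxGenEigenspace 1 ⊓ LinearMap.ker π)
    (fun a ha => ⟨h3 x a ha.1, by
      have h8 : π a = 0 := ha.2
      have := LinearMap.congr_fun (hπ x (le_normalizer (mem_zpowers x))) a
      simp only [Module.End.mul_apply, h8, map_zero] at this
      exact this.symm⟩) ⟨hm, h4⟩ h0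
  have h8 : σ a = 0 := (h2 a h7).trans h5
  obtain ⟨j, hj⟩ := (Module.End.mem_maxGenEigenspace _ _ _).1 ha
  have h9 : ∀ j : ℕ, ((σ - (1 : k) • 1) ^ j) a = (-1 : k) ^ j • a := by
    intro j
    induction j with
    | zero => simp
    | succ j ih => rw [pow_succ', Module.End.mul_apply, ih, map_smul]; simp [h8, pow_succ, mul_smul]
  rw [h9] at hj
  exact h6 ((smul_eq_zero.1 hj).resolve_left (by simp))

end Transfer

section Conj

variable {k L G : Type*} [Field k] [AddCommGroup L] [Module k L] [FiniteDimensional k L] [Group G]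
  [Finite G] {p : ℕ} [hp : Fact p.Prime] [CharP k p] {x : G} (ρ : Representation k G L)

/-- Conjugation action on endomorphisms. -/
noncomputable def cjr : Representation k G (Module.End k L) := ρ.linHom ρ

theorem cjr_apply (g : G) (a : Module.End k L) : cjr ρ g a = ρ g * a * ρ g⁻¹ := rfl

theorem rho_inv_mul (g : G) : ρ g⁻¹ * ρ g = 1 := by rw [← map_mul, inv_mul_cancel, map_one]

theorem rho_mul_inv (g : G) : ρ g * ρ g⁻¹ = 1 := by rw [← map_mul, mul_inv_cancel, map_one]

theorem cjr_eq_iff {g : G} {a b : Module.End k L} : cjr ρ g a = b ↔ ρ g * a = b * ρ g := by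
  rw [cjr_apply]
  refine ⟨fun h => ?_, fun h => ?_⟩
  · rw [← h, mul_assoc, rho_inv_mul, mul_one]
  · rw [h, mul_assoc, rho_mul_inv, mul_one]

theorem trace_cjr (g : G) (a b : Module.End k L) :
    LinearMap.trace k L (cjr ρ g a * b) = LinearMap.trace k L (a * cjr ρ g⁻¹ b) := by
  rw [cjr_apply, cjr_apply, inv_inv, mul_assoc, mul_assoc, LinearMap.trace_mul_comm]
  simp only [mul_assoc]

theorem pow_finrank_of_nil {a : Module.End k L} (h : IsNilpotent a) :
    a ^ Module.finrank k L = 0 := by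
  have := a.aeval_self_charpoly
  rwa [h.charpoly_eq_X_pow_finrank, map_pow, aeval_X] at this

theorem nil_rho (h : SY p x) : (ρ x - 1) ^ Module.finrank k L = 0 := by
  refine pow_finrank_of_nil ⟨p - 1 + 1, ?_⟩
  rw [pow_succ, ← geom_sum_char (k := k), geom_sum_mul, ← map_pow, h.pow, map_one, sub_self]

theorem nil_rho' (h : SY p x) (hd : 2 * Module.finrank k L ≤ p) : (ρ x - 1) ^ (p - 1) = 0 :=
  pow_eq_zero_of_le (by have := hp.out.two_le; omega) (nil_rho ρ h)

theorem nil_cjr (h : SY p x) (hd : 2 * Module.finrank k L ≤ p) : (cjr ρ x - 1) ^ (p - 1) = 0 := by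
  have h1 : cjr ρ x - 1 = (LinearMap.mulLeft k (ρ x - 1) + LinearMap.mulRight k (1 - ρ x)) *
      LinearMap.mulRight k (ρ x⁻¹) := by
    refine LinearMap.ext fun a => ?_
    simp [cjr_apply, sub_mul, mul_sub, mul_assoc, rho_inv_mul]
  have h2 : Commute (LinearMap.mulLeft k (ρ x - 1) + LinearMap.mulRight k (1 - ρ x))
      (LinearMap.mulRight k (ρ x⁻¹)) := by
    refine LinearMap.ext fun a => ?_
    simp [sub_mul, mul_sub, mul_assoc, rho_inv_mul, rho_mul_inv, add_mul]
  rw [h1, h2.mul_pow, Commute.add_pow_eq_zero_of_add_le_succ_of_pow_eq_zero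
    (m := Module.finrank k L) (n := Module.finrank k L), zero_mul]
  · exact LinearMap.commute_mulLeft_right _ _
  · rw [LinearMap.pow_mulLeft, nil_rho ρ h, LinearMap.mulLeft_zero_eq_zero]
  · rw [LinearMap.pow_mulRight, ← neg_sub, neg_pow, nil_rho ρ h, mul_zero,
      LinearMap.mulRight_zero_eq_zero]
  · have := hp.out.two_le; omega

/-- The `p`-regular elements of `C(x)` commute with all conjugates of `x` on a small module. -/
theorem comm_conj (h : SY p x) (hd : 2 * Module.finrank k L ≤ p) {v : G} (hv : v * x = x * v)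
    (hr : ¬ p ∣ orderOf v) (g : G) : ρ (v * (g * x * g⁻¹)) = ρ (g * x * g⁻¹ * v) := by
  classical
  obtain ⟨V, hV, hV'⟩ := h.exists_reg
  have := Fintype.ofFinite V
  have hc : (Nat.card V : k) ≠ 0 := fun h0 => hV ((CharP.cast_eq_zero_iff k p _).1 h0)
  have hN : ∀ n ∈ normalizer (zpowers x : Set G), ∀ w ∈ V, n * w * n⁻¹ ∈ V := by
    intro n hn w hw
    obtain ⟨h1, h2⟩ := (hV' w).1 hw
    obtain ⟨j, hj⟩ := conj_mem_of_norm (inv_mem hn)
    refine (hV' _).2 ⟨?_, by rwa [← MulAut.conj_apply, MulEquiv.orderOf_eq]⟩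
    have h3 : w * x ^ j = x ^ j * w := (Commute.zpow_right h1 j)
    beta_reduce at hj
    rw [hj, inv_inv] at h3
    calc n * w * n⁻¹ * x = n * (w * (n⁻¹ * x * n)) * n⁻¹ := by group
      _ = _ := by rw [h3]; group
  obtain ⟨π, hπ⟩ : ∃ π : Module.End k (Module.End k L), π = (Nat.card V : k)⁻¹ • ∑ w : V, cjr ρ w :=
    ⟨_, rfl⟩
  obtain ⟨M, h1, h2, h3⟩ := exists_M (cjr ρ) h (nil_cjr ρ h hd) π (fun n hn => by
    let e : V ≃ V := ⟨fun w => ⟨n * w * n⁻¹, hN n hn w w.2⟩,
      fun w => ⟨n⁻¹ * w * n⁻¹⁻¹, hN _ (inv_mem hn) w w.2⟩,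
      fun w => Subtype.ext (by simp [mul_assoc]), fun w => Subtype.ext (by simp [mul_assoc])⟩
    rw [hπ, mul_smul_comm, smul_mul_assoc, Finset.mul_sum, Finset.sum_mul]
    congr 1
    refine Fintype.sum_equiv e _ _ fun w => ?_
    change _ = cjr ρ (n * w * n⁻¹) * _
    rw [← map_mul, ← map_mul, inv_mul_cancel_right])
  have h4 : ρ x ∈ M := by
    refine h2 _ ((cjr_eq_iff ρ).2 rfl) ?_
    have : ∀ w : V, cjr ρ w (ρ x) = ρ x := fun w =>
      (cjr_eq_iff ρ).2 (by rw [← map_mul, ← map_mul, ((hV' w).1 w.2).1])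
    rw [hπ, LinearMap.smul_apply, LinearMap.sum_apply]
    simp only [this, sum_const, card_univ, ← Nat.card_eq_fintype_card, ← Nat.cast_smul_eq_nsmul k,
      smul_smul, inv_mul_cancel₀ hc, one_smul]
  have h5 : π * cjr ρ v = π := by
    rw [hπ, smul_mul_assoc, Finset.sum_mul]
    congr 1
    exact Fintype.sum_equiv (Equiv.mulRight (⟨v, (hV' v).2 ⟨hv, hr⟩⟩ : V)) _ _ fun w => by
      rw [← map_mul]; rfl
  have h6 := h1 g _ h4
  have h7 := h3 _ (M.sub_mem (h1 v _ h6) h6) (by
    rw [map_sub, ← Module.End.mul_apply, h5, sub_self])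
  rw [sub_eq_zero, cjr_eq_iff, cjr_apply] at h7
  simpa only [map_mul] using h7

end Conj

end H20.Tu
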