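import Cfsg.Agent.H20.Tu1

/-!
The logarithm of an element of order `p` and an `sl₂`-triple adapted to the normalizer.
-/

set_option autoImplicit false
set_option linter.unusedSectionVars false

namespace H20.Tu

open Subgroup Finset Polynomial

section Log

variable (k : Type*) [Field k] (p : ℕ) [hp : Fact p.Prime] [CharP k p] {R : Type*} [Ring R]
  [Algebra k R]

/-- The truncated logarithm. -/
noncomputable def lg (X : R) : R :=
  -∑ j : ZMod p, ZMod.castHom (dvd_refl p) k j⁻¹ • X ^ j.val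

variable {k p} {T Y : R}

theorem pow_val_mul (hT : T ^ p = 1) (a : ℕ) (j : ZMod p) :
    T ^ ((a : ZMod p) * j).val = T ^ (a * j.val) := by
  have h1 : ∀ n, T ^ (n % p) = T ^ n := fun n => by
    conv_rhs => rw [← Nat.mod_add_div n p, pow_add, pow_mul, hT, one_pow, mul_one]
  rw [ZMod.val_mul, h1, ZMod.val_natCast, pow_mul, h1, ← pow_mul]

theorem lg_conj (hT : T ^ p = 1) {a : ℕ} (ha : (a : ZMod p) ≠ 0) (h : Y * T = T ^ a * Y) :
    Y * lg k p T = (a : k) • (lg k p T * Y) := by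
  have h1 : ∀ j : ℕ, Y * T ^ j = T ^ (a * j) * Y := fun j => by
    rw [pow_mul]; exact SemiconjBy.pow_right h j
  rw [lg, mul_neg, neg_mul, smul_neg, neg_inj, Finset.mul_sum, Finset.sum_mul, Finset.smul_sum]
  refine Fintype.sum_equiv (Equiv.mulLeft₀ _ ha) _ _ fun j => ?_
  rw [Equiv.mulLeft₀_apply, pow_val_mul hT, mul_smul_comm, h1, smul_mul_assoc, smul_smul]
  congr 1
  rw [mul_inv, map_mul, ← mul_assoc, ← map_natCast (ZMod.castHom (dvd_refl p) k), ← map_mul,
    mul_inv_cancel₀ ha, map_one, one_mul]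

theorem sum_zmod_val {M : Type*} [AddCommMonoid M] (F : ℕ → M) :
    ∑ j : ZMod p, F j.val = ∑ j ∈ range p, F j := by
  refine Finset.sum_bij (fun j _ => j.val) (fun j _ => mem_range.2 j.val_lt)
    (fun _ _ _ _ h => ZMod.val_injective p h) (fun b hb => ⟨b, mem_univ _, ?_⟩) fun _ _ => rfl
  exact ZMod.val_cast_of_lt (mem_range.1 hb)

theorem inv_mul_val (j : ZMod p) :
    ZMod.castHom (dvd_refl p) k j⁻¹ * (j.val : k) = if j = 0 then 0 else 1 := by
  rw [← map_natCast (ZMod.castHom (dvd_refl p) k), ← map_mul, ZMod.natCast_zmod_val]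
  split_ifs with h
  · simp [h]
  · rw [inv_mul_cancel₀ h, map_one]

theorem exists_lg (h3 : 3 ≤ p) (T : R) :
    ∃ q : k[X], lg k p T = aeval (T - 1) (X * (1 + X * q)) := by
  have h1 : ∀ j : ℕ, ∃ q : k[X], (1 + X) ^ j = 1 + C (j : k) * X + X ^ 2 * q := by
    intro j
    induction j with
    | zero => exact ⟨0, by simp⟩
    | succ j ih =>
      obtain ⟨q, hq⟩ := ih
      exact ⟨q + C (j : k) + X * q, by rw [pow_succ, hq]; push_cast; rw [C_add, C_1]; ring⟩
  choose q hq using h1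
  have h2 : ∑ j : ZMod p, ZMod.castHom (dvd_refl p) k j⁻¹ = 0 := by
    have h0 : ∑ j : ZMod p, j⁻¹ = ∑ j : ZMod p, j := Equiv.sum_comp (Equiv.inv (ZMod p)) (fun j => j)
    rw [← map_sum, h0]
    have := FiniteField.sum_pow_lt_card_sub_one (ZMod p) 1 (by rw [ZMod.card]; omega)
    simp only [pow_one] at this
    rw [this, map_zero]
  have h4 : ∑ j : ZMod p, ZMod.castHom (dvd_refl p) k j⁻¹ * (j.val : k) = -1 := by
    simp only [inv_mul_val]
    rw [← add_sum_erase _ _ (mem_univ 0), if_pos rfl, zero_add,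
      sum_congr rfl fun j hj => if_neg (mem_erase.1 hj).1, sum_const, card_erase_of_mem (mem_univ _),
      card_univ, ZMod.card, nsmul_eq_mul, Nat.cast_sub hp.out.one_le, CharP.cast_eq_zero]
    simp
  refine ⟨-∑ j : ZMod p, C (ZMod.castHom (dvd_refl p) k j⁻¹) * q j.val, ?_⟩
  have h5 : (X * (1 + X * -∑ j : ZMod p, C (ZMod.castHom (dvd_refl p) k j⁻¹) * q j.val) : k[X]) =
      -∑ j : ZMod p, C (ZMod.castHom (dvd_refl p) k j⁻¹) * (1 + X) ^ j.val := by
    simp only [hq, mul_add, sum_add_distrib, mul_one, ← mul_assoc, ← C_mul]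
    rw [← map_sum, h2, ← Finset.sum_mul, ← map_sum, h4]
    simp only [mul_comm _ (X ^ 2 : k[X]), mul_assoc, ← Finset.mul_sum, map_neg, C_1, C_0]
    ring
  rw [h5, lg]
  simp [Algebra.smul_def]

theorem mem_adjoin_of_nil {u : R} {n : ℕ} (hu : u ^ n = 0) (q : k[X]) :
    u ∈ Algebra.adjoin k {aeval u (X * (1 + X * q))} := by
  have key : ∀ i m, m + i = n → ∀ r : k[X], aeval u (X ^ m * r) ∈
      Algebra.adjoin k {aeval u (X * (1 + X * q))} := by
    intro i
    induction i with
    | zero => intro m hm r; rw [add_zero] at hm; simp [hm, hu]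
    | succ i ih =>
      intro m hm r
      obtain ⟨t, ht⟩ : X ∣ r - C (r.coeff 0) * (1 + X * q) ^ m := by
        rw [X_dvd_iff, coeff_zero_eq_eval_zero]
        simp [coeff_zero_eq_eval_zero]
      have h1 : X ^ m * r = X ^ (m + 1) * t + C (r.coeff 0) * (X * (1 + X * q)) ^ m := by
        rw [pow_succ, mul_assoc, ← ht, mul_pow]; ring
      rw [h1, map_add]
      refine add_mem (ih _ (by omega) t) ?_
      rw [map_mul _ (C _), map_pow, aeval_C]
      exact mul_mem (algebraMap_mem _ _) (pow_mem (Algebra.self_mem_adjoin_singleton k _) _)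
  simpa using key n 0 (zero_add n) X

theorem mem_adjoin_lg (h3 : 3 ≤ p) (h : IsNilpotent (T - 1)) : T ∈ Algebra.adjoin k {lg k p T} := by
  obtain ⟨q, hq⟩ := exists_lg (k := k) h3 T
  obtain ⟨n, hn⟩ := h
  have := add_mem (mem_adjoin_of_nil hn q) (one_mem _)
  rwa [← hq, sub_add_cancel] at this

theorem exists_unit_lg (h3 : 3 ≤ p) (h : IsNilpotent (T - 1)) :
    ∃ w : R, IsUnit w ∧ Commute w (T - 1) ∧ lg k p T = w * (T - 1) := by
  obtain ⟨q, hq⟩ := exists_lg (k := k) h3 T
  have h1 : Commute (T - 1) (aeval (T - 1) q) := by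
    simpa using (Commute.all X q).map (aeval (T - 1))
  refine ⟨1 + (T - 1) * aeval (T - 1) q, (h1.isNilpotent_mul_right h).isUnit_one_add,
    (Commute.one_left _).add_left ((Commute.refl _).mul_left h1.symm), ?_⟩
  rw [hq, mul_comm, map_mul]
  simp

theorem nil_lg (h3 : 3 ≤ p) (h : IsNilpotent (T - 1)) : IsNilpotent (lg k p T) := by
  obtain ⟨w, -, h1, h2⟩ := exists_unit_lg (k := k) h3 h
  exact h2 ▸ h1.isNilpotent_mul_left h

theorem lg_comm (T : R) : Commute T (lg k p T) :=
  (Commute.sum_right _ _ _ fun j _ => ((Commute.refl T).pow_right _).smul_right _).neg_right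

theorem der_lg (h3 : 3 ≤ p) (h : (T - 1) ^ (p - 1) = 0) {D : R}
    (hD : D * lg k p T - lg k p T * D = lg k p T) : D * T - T * D = T * lg k p T := by
  have h1 : ∀ z ∈ Algebra.adjoin k {lg k p T}, D * z - z * D ∈ Algebra.adjoin k {lg k p T} := by
    intro z hz
    induction hz using Algebra.adjoin_induction with
    | mem z hz => rw [Set.mem_singleton_iff.1 hz, hD]; exact Algebra.self_mem_adjoin_singleton k _
    | algebraMap r => rw [Algebra.commutes, sub_self]; exact zero_mem _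
    | add a b _ _ ha hb => convert add_mem ha hb using 1; noncomm_ring
    | mul a b ha' hb' ha hb => convert add_mem (mul_mem ha hb') (mul_mem ha' hb) using 1; noncomm_ring
  obtain ⟨w, hw⟩ : ∃ w, w = D * T - T * D := ⟨_, rfl⟩
  have h2 : Commute T w := by
    rw [hw]
    exact (Algebra.commute_of_mem_adjoin_singleton_of_commute
      (h1 T (mem_adjoin_lg h3 ⟨_, h⟩)) (lg_comm T))
  have h4 : ∀ j : ℕ, T * (D * T ^ j - T ^ j * D) = (j : k) • (T ^ j * w) := by
    intro j
    induction j with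
    | zero => simp
    | succ j ih =>
      have h5 : T * (D * T ^ (j + 1) - T ^ (j + 1) * D) =
          T * (D * T ^ j - T ^ j * D) * T + T ^ (j + 1) * w := by
        rw [hw, pow_succ]
        have := (Commute.refl T).pow_right j
        calc _ = T * (D * T ^ j - T ^ j * D) * T + T * T ^ j * (D * T - T * D) := by noncomm_ring
          _ = _ := by rw [this.eq]
      rw [h5, ih, smul_mul_assoc, mul_assoc, ← h2.eq, ← mul_assoc, ← pow_succ, Nat.cast_succ,
        add_smul, one_smul]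
  rw [← hw, ← hD]
  have h6 : T * (D * lg k p T - lg k p T * D) =
      -∑ j : ZMod p, ZMod.castHom (dvd_refl p) k j⁻¹ • (T * (D * T ^ j.val - T ^ j.val * D)) := by
    simp only [lg, mul_neg, neg_mul, Finset.mul_sum, Finset.sum_mul, mul_sub, mul_smul_comm,
      smul_mul_assoc, smul_sub, sum_sub_distrib]
    abel
  have h7 : ∑ j : ZMod p, T ^ j.val * w = 0 := by
    rw [← Finset.sum_mul, sum_zmod_val (fun j => T ^ j), geom_sum_char (k := k), h, zero_mul]
  rw [h6]
  simp only [h4, smul_smul, inv_mul_val]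
  rw [← add_sum_erase _ _ (mem_univ 0)] at h7 ⊢
  rw [if_pos rfl, zero_smul, zero_add, sum_congr rfl fun j hj => by
    rw [if_neg (mem_erase.1 hj).1, one_smul]]
  rw [ZMod.val_zero, pow_zero, one_mul] at h7
  exact eq_neg_of_add_eq_zero_left h7

end Log

section Norm

variable {G : Type*} [Group G] [Finite G] {p : ℕ} [hp : Fact p.Prime] {x : G}

theorem SY.mem_of_pow (h : SY p x) {K : Subgroup G} (hx : x ∈ K) {g : G}
    (hg : g ∈ normalizer (zpowers x : Set G)) (h1 : g ^ p ∈ K) : g ∈ K := by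
  have h2 : g ^ orderOf (g ^ p) ∈ K := zpowers_le.2 hx (h.mem_of_norm
    (by rw [← pow_mul, mul_comm, pow_mul, pow_orderOf_eq_one]) (pow_mem hg _))
  have h3 : IsCoprime (p : ℤ) (orderOf (g ^ p)) :=
    Nat.isCoprime_iff_coprime.2 ((Nat.Prime.coprime_iff_not_dvd hp.out).2 (h.not_dvd_pow g))
  obtain ⟨a, b, hab⟩ := h3
  rw [← zpow_one g, ← hab, zpow_add, mul_comm a, mul_comm b, zpow_mul, zpow_mul, zpow_natCast,
    zpow_natCast]
  exact mul_mem (zpow_mem h1 a) (zpow_mem h2 b)

theorem SY.exists_pow (h : SY p x) {g : G} (hg : g ∈ normalizer (zpowers x : Set G)) :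
    ∃ a : ℕ, (a : ZMod p) ≠ 0 ∧ g * x = x ^ a * g := by
  obtain ⟨a, ha⟩ := mem_powers_iff_mem_zpowers.2 (conj_mem_of_norm hg)
  beta_reduce at ha
  refine ⟨a, fun h0 => h.ne_one ?_, by rw [ha, inv_mul_cancel_right]⟩
  rw [ZMod.natCast_eq_zero_iff, ← h.ord, orderOf_dvd_iff_pow_eq_one, ha] at h0
  simpa using h0

theorem SY.exists_gen (h : SY p x) : ∃ y ∈ normalizer (zpowers x : Set G), ¬ p ∣ orderOf y ∧
    ∀ K : Subgroup G, x ∈ K → y ∈ K → (∀ v, v * x = x * v → ¬ p ∣ orderOf v → v ∈ K) →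
      normalizer (zpowers x : Set G) ≤ K := by
  have h1 : IsCyclic (ZMod (Nat.card (zpowers x)))ˣ := by rw [h.card]; infer_instance
  have h2 : IsCyclic (MulAut (zpowers x)) :=
    isCyclic_of_injective (IsCyclic.mulAutMulEquiv (zpowers x)).toMonoidHom
      (IsCyclic.mulAutMulEquiv (zpowers x)).injective
  obtain ⟨⟨_, y, rfl⟩, hy⟩ := IsCyclic.exists_generator (α := (zpowers x).normalizerMonoidHom.range)
  refine ⟨y ^ p, pow_mem y.2 p, h.not_dvd_pow y, fun K hx h3 h4 n hn => ?_⟩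
  obtain ⟨i, hi⟩ := hy ⟨_, ⟨n, hn⟩, rfl⟩
  have h5 : ⟨n, hn⟩ * (y ^ i)⁻¹ ∈ (zpowers x).normalizerMonoidHom.ker := by
    rw [MonoidHom.mem_ker, map_mul, map_inv, map_zpow, mul_inv_eq_one]
    exact (congrArg Subtype.val hi).symm
  rw [normalizerMonoidHom_ker, mem_subgroupOf] at h5
  have h6 : Commute (n * ((y : G) ^ i)⁻¹) x := (h5 x (mem_zpowers x)).symm
  have h7 := h.mem_of_pow hx (mul_mem hn (inv_mem (zpow_mem y.2 i)))
    (h4 _ (h6.pow_left p) (h.not_dvd_pow _))
  simpa using mul_mem h7 (zpow_mem (h.mem_of_pow hx y.2 h3) i)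

end Norm

section Lin

variable {k L : Type*} [Field k] [AddCommGroup L] [Module k L] [FiniteDimensional k L]

theorem exists_eigen_ne [IsAlgClosed k] {L' : Type*} [AddCommGroup L'] [Module k L']
    {Y : Module.End k L} {m : ℕ} (hY : Y ^ m = 1) (hm : (m : k) ≠ 0) {T : L →ₗ[k] L'} (hT : T ≠ 0) :
    ∃ v c, Y v = (c : k) • v ∧ T v ≠ 0 := by
  have h1 : Y.IsSemisimple := Module.End.isSemisimple_of_squarefree_aeval_eq_zero
    (p := X ^ m - 1) (X_pow_sub_one_separable_iff.2 hm).squarefree (by simp [hY])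
  by_contra h2
  push Not at h2
  refine hT (LinearMap.ker_eq_top.1 (eq_top_iff.2 ?_))
  rw [← h1.iSup_eigenspace_eq_top]
  exact iSup_le fun c v hv => h2 v c (Module.End.mem_eigenspace_iff.1 hv)

theorem dualMap_pow (Y : Module.End k L) (m : ℕ) :
    (Y.dualMap : Module.End k (Module.Dual k L)) ^ m = (Y ^ m).dualMap := by
  induction m with
  | zero => rfl
  | succ m ih => rw [pow_succ, ih, pow_succ']; rfl

theorem li_pow {e : Module.End k L} {s : ℕ} (he : e ^ (s + 1) = 0) {v : L} (hv : (e ^ s) v ≠ 0) :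
    LinearIndependent k fun j : Fin (s + 1) => (e ^ (j : ℕ)) v := by
  rw [Fintype.linearIndependent_iff]
  intro c hc j
  induction j using Fin.strong_induction_on with
  | h j ih =>
    have h1 := congrArg (e ^ (s - j)) hc
    rw [map_sum, map_zero, Finset.sum_eq_single j] at h1
    · rw [map_smul, ← Module.End.mul_apply, ← pow_add, Nat.sub_add_cancel (Nat.lt_succ_iff.1 j.2)] at h1
      exact (smul_eq_zero.1 h1).resolve_right hv
    · intro i _ hij
      rcases lt_or_gt_of_ne hij with h2 | h2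
      · rw [ih i h2, zero_smul, map_zero]
      · rw [map_smul, ← Module.End.mul_apply, ← pow_add, pow_eq_zero_of_le _ he]
        · simp
        · have := Fin.lt_def.1 h2; have := j.2; omega
    · simp

theorem three_mul_sum (n : ℕ) (c : k) : 3 * ∑ j ∈ range n, (2 * (j : k) - c) ^ 2 =
    2 * n * (n - 1) * (2 * n - 1) - 6 * c * n * (n - 1) + 3 * n * c ^ 2 := by
  induction n with
  | zero => simp
  | succ n ih => rw [sum_range_succ, mul_add, ih]; push_cast; ring

end Lin

end H20.Tu
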