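import Cfsg.Agent.H20.Tu2

/-!
A small simple module: the generator `x` has a single Jordan block; the `sl₂`-triple.
-/

set_option autoImplicit false
set_option linter.unusedSectionVars false

namespace H20.Tu

open Subgroup Finset Polynomial

variable {k L G : Type*} [Field k] [IsAlgClosed k] [AddCommGroup L] [Module k L]
  [FiniteDimensional k L] [Group G] [Finite G] {p : ℕ} [hp : Fact p.Prime] [CharP k p] {x y : G}
  {ρ : Representation k G L}

/-- The standing hypotheses on the module. -/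
structure SM (p : ℕ) (x : G) (ρ : Representation k G L) : Prop where
  sy : SY p x
  five : 5 ≤ p
  dim : 2 * Module.finrank k L < p
  gen : ∀ K : Subgroup G, K.Normal → x ∈ K → K = ⊤
  schur : ∀ a : Module.End k L, (∀ g, ρ g * a = a * ρ g) → ∃ c : k, a = c • 1
  ne : ρ x ≠ 1

/-- The elements commuting with an endomorphism. -/
def cmm {A : Type*} [AddCommGroup A] [Module k A] (τ : Representation k G A) (a : Module.End k A) :
    Subgroup G where
  carrier := {g | τ g * a = a * τ g}
  one_mem' := by simp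
  mul_mem' {g h} hg hh := by
    change τ (g * h) * a = a * τ (g * h)
    rw [map_mul, mul_assoc, hh, ← mul_assoc, hg, mul_assoc]
  inv_mem' {g} hg := by
    change τ g⁻¹ * a = a * τ g⁻¹
    have h1 : τ g * a = a * τ g := hg
    have h2 : τ g⁻¹ * τ g = 1 := by rw [← map_mul, inv_mul_cancel, map_one]
    have h3 : τ g * τ g⁻¹ = 1 := by rw [← map_mul, mul_inv_cancel, map_one]
    calc τ g⁻¹ * a = τ g⁻¹ * a * (τ g * τ g⁻¹) := by rw [h3, mul_one]
      _ = τ g⁻¹ * (τ g * a) * τ g⁻¹ := by rw [h1]; simp only [mul_assoc]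
      _ = _ := by rw [← mul_assoc, h2, one_mul]

theorem gen_conj (h : ∀ K : Subgroup G, K.Normal → x ∈ K → K = ⊤) {K : Subgroup G}
    (hK : ∀ g, g * x * g⁻¹ ∈ K) : K = ⊤ := by
  rw [eq_top_iff, ← h K.normalCore inferInstance hK]
  exact normalCore_le K

namespace SM

variable (h : SM p x ρ)
include h

theorem three : 3 ≤ p := by have := h.five; omega

theorem nil : (ρ x - 1) ^ (p - 1) = 0 := nil_rho' ρ h.sy h.dim.le

theorem scal {v : G} (hv : v * x = x * v) (hr : ¬ p ∣ orderOf v) : ∃ c : k, ρ v = c • 1 := by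
  refine h.schur _ fun g => ?_
  have : cmm ρ (ρ v) = ⊤ := gen_conj h.gen fun g => by
    change ρ _ * ρ v = ρ v * ρ _
    rw [← map_mul, ← map_mul, comm_conj ρ h.sy h.dim.le hv hr]
  exact (this.ge (mem_top g) :)

theorem fix_of {m : L} (hm : lg k p (ρ x) m = 0) : ρ x m = m := by
  obtain ⟨w, h1, -, h2⟩ := exists_unit_lg (k := k) h.three ⟨_, h.nil⟩
  rw [h2, Module.End.mul_apply] at hm
  have := (Module.End.isUnit_iff w).1 h1
  simpa [sub_eq_zero] using this.1 (hm.trans (map_zero w).symm)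

theorem lg_ne : lg k p (ρ x) ≠ 0 := fun h0 =>
  h.ne (LinearMap.ext fun m => h.fix_of (by rw [h0]; rfl))

theorem comm_x {a : Module.End k L} (ha : lg k p (ρ x) * a = a * lg k p (ρ x)) :
    ρ x * a = a * ρ x :=
  (Algebra.commute_of_mem_adjoin_singleton_of_commute
    (mem_adjoin_lg (k := k) h.three ⟨_, h.nil⟩) ha.symm).symm

theorem exists_cyc {a : ℕ} (ha : (a : ZMod p) ≠ 0) (hy : y * x = x ^ a * y) (hr : ¬ p ∣ orderOf y)
    (hK : ∀ K : Subgroup G, x ∈ K → y ∈ K → (∀ v, v * x = x * v → ¬ p ∣ orderOf v → v ∈ K) →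
      normalizer (zpowers x : Set G) ≤ K) :
    ∃ (s : ℕ) (v : L) (c : k) (b : Module.Basis (Fin (s + 1)) k L), lg k p (ρ x) ^ (s + 1) = 0 ∧
      ρ y v = c • v ∧ ∀ j, b j = (lg k p (ρ x) ^ (j : ℕ)) v := by
  classical
  obtain ⟨e, he⟩ : ∃ e, e = lg k p (ρ x) := ⟨_, rfl⟩
  have hye : ρ y * e = (a : k) • (e * ρ y) := by
    rw [he]
    exact lg_conj (by rw [← map_pow, h.sy.pow, map_one]) ha (by rw [← map_pow, ← map_mul, hy, map_mul])
  have hyj : ∀ (j : ℕ) m, ρ y ((e ^ j) m) = (a : k) ^ j • (e ^ j) (ρ y m) := by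
    intro j m
    induction j with
    | zero => simp
    | succ j ih =>
      rw [pow_succ', Module.End.mul_apply, ← Module.End.mul_apply (ρ y), hye, LinearMap.smul_apply,
        Module.End.mul_apply, ih, map_smul, smul_smul, ← pow_succ']
      rfl
  have hn : ∃ n, e ^ n = 0 := he ▸ nil_lg h.three ⟨_, h.nil⟩
  obtain ⟨s, hs⟩ : ∃ s, Nat.find hn = s + 1 := Nat.exists_eq_succ_of_ne_zero fun h0 => by
    have := Nat.find_spec hn
    rw [h0, pow_zero] at this
    exact h.lg_ne (by rw [← he, ← mul_one e, this, mul_zero])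
  have h1 : e ^ (s + 1) = 0 := hs ▸ Nat.find_spec hn
  have h2 : e ^ s ≠ 0 := Nat.find_min hn (by omega)
  have hm : ρ y ^ orderOf y = 1 := by rw [← map_pow, pow_orderOf_eq_one, map_one]
  have hm' : (orderOf y : k) ≠ 0 := fun h0 => hr ((CharP.cast_eq_zero_iff k p _).1 h0)
  obtain ⟨v, c, hv, h3⟩ := exists_eigen_ne hm hm' h2
  obtain ⟨φ, μ, hφ, h4⟩ := exists_eigen_ne (Y := (ρ y).dualMap) (by rw [dualMap_pow, hm]; rfl) hm'
    (T := Module.Dual.eval k L ((e ^ s) v)) (fun h0 => h3 ((Module.eval_apply_eq_zero_iff k _).1 h0))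
  rw [Module.Dual.eval_apply] at h4
  have hφ' : ∀ m, φ (ρ y m) = μ * φ m := fun m => LinearMap.congr_fun hφ m
  have hμ : μ = (a : k) ^ s * c := by
    refine mul_right_cancel₀ h4 ?_
    rw [← hφ', hyj, hv, map_smul, map_smul, map_smul, smul_eq_mul, smul_eq_mul, mul_assoc]
  obtain ⟨π, hπ⟩ : ∃ π : Module.End k L, ∀ m,
      π m = ∑ ij ∈ antidiagonal s, φ ((e ^ ij.1) m) • (e ^ ij.2) v :=
    ⟨∑ ij ∈ antidiagonal s, (φ ∘ₗ (e ^ ij.1)).smulRight ((e ^ ij.2) v), fun m => by
      simp [LinearMap.sum_apply]⟩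
  have h5 : e * π = π * e := by
    refine LinearMap.ext fun m => ?_
    have h6 := Finset.Nat.sum_antidiagonal_succ (n := s)
      (f := fun ij => φ ((e ^ ij.1) m) • (e ^ ij.2) v)
    rw [Finset.Nat.sum_antidiagonal_succ', h1] at h6
    simp only [LinearMap.zero_apply, smul_zero, map_zero, zero_smul, zero_add] at h6
    rw [Module.End.mul_apply, Module.End.mul_apply, hπ, hπ, map_sum]
    simp only [map_smul, ← Module.End.mul_apply, ← pow_succ, ← pow_succ']
    exact h6
  have ha' : (a : k) ≠ 0 := fun h0 =>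
    ha ((ZMod.natCast_eq_zero_iff _ _).2 ((CharP.cast_eq_zero_iff k p _).1 h0))
  have h6 : ρ y * π = π * ρ y := by
    refine LinearMap.ext fun m => ?_
    rw [Module.End.mul_apply, Module.End.mul_apply, hπ, hπ, map_sum]
    refine sum_congr rfl fun ij hij => ?_
    have h7 := hφ' ((e ^ ij.1) m)
    rw [hyj, map_smul, smul_eq_mul, hμ, ← mem_antidiagonal.1 hij, pow_add, mul_assoc, mul_assoc,
      mul_right_inj' (pow_ne_zero _ ha')] at h7
    rw [map_smul, hyj, hv, map_smul, h7, smul_smul, smul_smul]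
    congr 1; ring
  have h7 : ∀ g ∈ normalizer (zpowers x : Set G), ρ g * π = π * ρ g :=
    hK (cmm ρ π) (h.comm_x (he ▸ h5)) h6 fun v h7 h8 => by
      obtain ⟨c, hc⟩ := h.scal h7 h8
      change ρ v * π = π * ρ v
      simp [hc]
  obtain ⟨σ, h8, h9⟩ := exists_transfer ρ h.sy h.nil π h7
  obtain ⟨d, rfl⟩ := h.schur σ h8
  have h10 : π ((e ^ s) v) = φ ((e ^ s) v) • (e ^ s) v := by
    rw [hπ, Finset.sum_eq_single (0, s)]
    · simp
    · rintro ⟨i, j⟩ hij h10
      rw [HasAntidiagonal.mem_antidiagonal] at hij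
      have : i ≠ 0 := by rintro rfl; simp at hij h10; exact h10 hij
      rw [← Module.End.mul_apply, ← pow_add, pow_eq_zero_of_le (by dsimp only; omega) h1]
      simp
    · simp
  have h11 : d ≠ 0 := by
    rintro rfl
    have := h9 ((e ^ s) v) (h.fix_of (by rw [← he, ← Module.End.mul_apply, ← pow_succ', h1]; rfl))
    rw [h10] at this
    exact smul_ne_zero h4 h3 (by simpa using this.symm)
  have h12 : Function.Injective π := by
    rw [← LinearMap.ker_eq_bot, Submodule.eq_bot_iff]
    intro m hm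
    by_contra h0
    obtain ⟨z, h12, h13, h14⟩ := exists_fixed h.nil (K := LinearMap.ker π) (fun z hz => by
      rw [LinearMap.mem_ker] at hz ⊢
      rw [← Module.End.mul_apply, ← h7 x (le_normalizer (mem_zpowers x)), Module.End.mul_apply, hz,
        map_zero]) hm h0
    have := h9 z h14
    rw [LinearMap.mem_ker.1 h12] at this
    exact smul_ne_zero h11 h13 (by simpa using this)
  refine ⟨s, v, c, Module.Basis.mk (li_pow h1 h3) fun m _ => ?_, he ▸ h1, hv, fun j => by
    rw [Module.Basis.mk_apply, he]⟩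
  obtain ⟨m, rfl⟩ := LinearMap.injective_iff_surjective.1 h12 m
  rw [hπ]
  refine Submodule.sum_mem _ fun ij hij => Submodule.smul_mem _ _ (Submodule.subset_span ?_)
  exact ⟨⟨ij.2, by have := mem_antidiagonal.1 hij; omega⟩, rfl⟩

end SM

/-- An `sl₂`-triple adapted to `x` and `y`. -/
structure TR (x y : G) (ρ : Representation k G L) (a : k) (e t f : Module.End k L) : Prop where
  te : t * e - e * t = 2 • e
  ef : e * f - f * e = t
  tf : t * f - f * t = -(2 • f)
  tr : LinearMap.trace k L (t * t) ≠ 0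
  xe : cjr ρ x e = e
  xt : cjr ρ x t = t - 2 • e
  xf : cjr ρ x f = f + t - e
  ye : cjr ρ y e = a • e
  yt : cjr ρ y t = t
  yf : cjr ρ y f = a⁻¹ • f

theorem cjr_mul (g : G) (a b : Module.End k L) : cjr ρ g (a * b) = cjr ρ g a * cjr ρ g b := by
  simp only [cjr_apply, mul_assoc]
  rw [← mul_assoc (ρ g⁻¹), rho_inv_mul, one_mul]

theorem cast_ne {n : ℕ} (h0 : 0 < n) (h1 : n < p) : (n : k) ≠ 0 := fun h =>
  (Nat.le_of_dvd h0 ((CharP.cast_eq_zero_iff k p _).1 h)).not_gt h1

theorem SM.exists_tr (h : SM p x ρ) {a : ℕ} (ha : (a : ZMod p) ≠ 0) (hy : y * x = x ^ a * y)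
    (hr : ¬ p ∣ orderOf y)
    (hK : ∀ K : Subgroup G, x ∈ K → y ∈ K → (∀ v, v * x = x * v → ¬ p ∣ orderOf v → v ∈ K) →
      normalizer (zpowers x : Set G) ≤ K) : ∃ t f, TR x y ρ (a : k) (lg k p (ρ x)) t f := by
  obtain ⟨s, v, c, b, h1, hv, hb⟩ := h.exists_cyc ha hy hr hK
  have hye := lg_conj (k := k) (T := ρ x) (Y := ρ y) (by rw [← map_pow, h.sy.pow, map_one]) ha
    (by rw [← map_pow, ← map_mul, hy, map_mul])
  have hne := h.lg_ne
  have hder := fun D => der_lg (k := k) (D := D) h.three h.nil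
  have hxe := (lg_comm (k := k) (p := p) (ρ x)).eq
  generalize lg k p (ρ x) = e at *
  obtain ⟨w, hw⟩ : ∃ w : ℕ → L, ∀ j, w j = (e ^ j) v := ⟨_, fun _ => rfl⟩
  have hd : 2 * (s + 1) < p := by
    have := h.dim
    rwa [Module.finrank_eq_card_basis b, Fintype.card_fin] at this
  have hs : 0 < s := Nat.pos_of_ne_zero (by rintro rfl; exact hne (by simpa using h1))
  have hw0 : ∀ j, s < j → w j = 0 := fun j hj => by rw [hw, pow_eq_zero_of_le hj h1]; rfl
  have hew : ∀ j, e (w j) = w (j + 1) := fun j => by rw [hw, hw, pow_succ']; rfl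
  have hbw : ∀ j, b j = w j := fun j => by rw [hb, hw]
  have ext : ∀ A B : Module.End k L, (∀ j, A (w j) = B (w j)) → A = B := fun A B hAB =>
    b.ext fun j => by rw [hbw, hAB]
  have hyw : ∀ j, ρ y (w j) = ((a : k) ^ j * c) • w j := by
    intro j
    induction j with
    | zero => simpa [hw] using hv
    | succ j ih =>
      rw [← hew, ← Module.End.mul_apply, hye, LinearMap.smul_apply, Module.End.mul_apply, ih,
        map_smul, smul_smul, pow_succ', mul_assoc]
  obtain ⟨D, hD⟩ : ∃ D : Module.End k L, ∀ j, D (w j) = (j : k) • w j := by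
    refine ⟨b.constr k fun j => ((j : ℕ) : k) • w j, fun j => ?_⟩
    by_cases hj : s < j
    · simp [hw0 j hj]
    · exact (congrArg _ (hbw ⟨j, by omega⟩).symm).trans (b.constr_basis k _ _)
  obtain ⟨f, hf⟩ : ∃ f : Module.End k L, ∀ j, f (w j) = ((j : k) * (s + 1 - j)) • w (j - 1) := by
    refine ⟨b.constr k fun j => (((j : ℕ) : k) * (s + 1 - (j : ℕ))) • w (j - 1), fun j => ?_⟩
    by_cases hj : s < j
    · rw [hw0 j hj, map_zero]
      by_cases hj' : j = s + 1
      · simp [hj']
      · rw [hw0 _ (by omega), smul_zero]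
    · exact (congrArg _ (hbw ⟨j, by omega⟩).symm).trans (b.constr_basis k _ _)
  obtain ⟨t, ht'⟩ : ∃ t : Module.End k L, t = 2 • D - (s : k) • 1 := ⟨_, rfl⟩
  have ht : ∀ j, t (w j) = (2 * (j : k) - s) • w j := fun j => by
    simp [ht', hD, sub_smul, two_mul, add_smul, two_smul]
  have hte : t * e - e * t = 2 • e := ext _ _ fun j => by
    simp only [LinearMap.sub_apply, Module.End.mul_apply, hew, ht, map_smul, LinearMap.smul_apply]
    push_cast; module
  have hef : e * f - f * e = t := ext _ _ fun j => by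
    simp only [LinearMap.sub_apply, Module.End.mul_apply, hew, ht, map_smul, hf]
    rcases j with _ | j
    · simp
    · simp only [Nat.add_sub_cancel]; push_cast; module
  have htf : t * f - f * t = -(2 • f) := ext _ _ fun j => by
    simp only [LinearMap.sub_apply, Module.End.mul_apply, ht, map_smul, hf, LinearMap.neg_apply,
      LinearMap.smul_apply]
    rcases j with _ | j
    · simp
    · simp only [Nat.add_sub_cancel]; push_cast; module
  have hrep : ∀ m j, b.repr (t m) j = (2 * ((j : ℕ) : k) - s) * b.repr m j := by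
    intro m j
    have : b.coord j ∘ₗ t = (2 * ((j : ℕ) : k) - s) • b.coord j := b.ext fun i => by
      rw [LinearMap.comp_apply, hbw, ht, ← hbw, map_smul, LinearMap.smul_apply,
        Module.Basis.coord_apply, Module.Basis.repr_self, Finsupp.single_apply]
      split_ifs with hij
      · rw [hij]
      · simp
    exact LinearMap.congr_fun this m
  have hxt : cjr ρ x t = t - 2 • e := by
    have h2 := hder D (ext _ _ fun j => by
      simp only [LinearMap.sub_apply, Module.End.mul_apply, hew, hD, map_smul]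
      push_cast; module)
    rw [cjr_eq_iff, ht']
    rw [hxe, sub_eq_iff_eq_add] at h2
    simp only [mul_sub, sub_mul, smul_mul_assoc, mul_smul_comm, mul_one, one_mul, h2]
    module
  have hxe' : cjr ρ x e = e := (cjr_eq_iff ρ).2 hxe
  have ha' : (a : k) ≠ 0 := fun h0 =>
    ha ((ZMod.natCast_eq_zero_iff _ _).2 ((CharP.cast_eq_zero_iff k p _).1 h0))
  refine ⟨t, f, hte, hef, htf, fun h0 => ?_, hxe', hxt, ?_, (cjr_eq_iff ρ).2 (by simp [hye]),
    (cjr_eq_iff ρ).2 (ext _ _ fun j => ?_), (cjr_eq_iff ρ).2 (ext _ _ fun j => ?_)⟩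
  · classical
    have h2 : LinearMap.trace k L (t * t) = ∑ j ∈ range (s + 1), (2 * (j : k) - s) ^ 2 := by
      rw [LinearMap.trace_eq_matrix_trace k b, Matrix.trace, Finset.sum_range]
      refine sum_congr rfl fun j _ => ?_
      rw [Matrix.diag_apply, LinearMap.toMatrix_apply, Module.End.mul_apply, hrep, hrep]
      simp [sq]
    have h3 := three_mul_sum (s + 1) (s : k)
    rw [← h2, h0] at h3
    have h4 : (s : k) * (s + 1 : ℕ) * (s + 2 : ℕ) = 0 := by
      push_cast at h3 ⊢; linear_combination -h3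
    exact mul_ne_zero (mul_ne_zero (cast_ne hs (by omega)) (cast_ne (by omega) (by omega)))
      (cast_ne (by omega) (by omega)) h4
  · obtain ⟨F, hF⟩ : ∃ F, F = cjr ρ x f := ⟨_, rfl⟩
    have h2 : e * F - F * e = t - 2 • e := by
      rw [← hxt, ← hef, map_sub, cjr_mul, cjr_mul, hxe', hF]
    have h3 : (t - 2 • e) * F - F * (t - 2 • e) = -(2 • F) := by
      rw [← hxt, hF, ← cjr_mul, ← cjr_mul, ← map_sub, htf, map_neg, map_nsmul]
    obtain ⟨f', hf'⟩ : ∃ f', f' = F - (f + t - e) := ⟨_, rfl⟩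
    have h4 : e * f' = f' * e := by
      rw [hf']; linear_combination (norm := noncomm_ring) h2 - hef + hte
    have h5 : t * f' = f' * t - 2 • f' := by
      rw [hf']
      linear_combination (norm := noncomm_ring) h3 + 2 • h2 - htf + hte
    have h6 : f' (w 0) = 0 := by
      refine b.ext_elem fun j => ?_
      have h6 := congrArg (fun z => b.repr (z (w 0)) j) h5
      simp only [Module.End.mul_apply, LinearMap.sub_apply, ht, hrep, map_smul, map_sub, two_smul,
        LinearMap.add_apply, map_add, Finsupp.coe_sub, Pi.sub_apply, Finsupp.smul_apply,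
        smul_eq_mul, Finsupp.coe_add, Pi.add_apply] at h6
      have h7 : ((2 * (j + 1) : ℕ) : k) * b.repr (f' (w 0)) j = 0 := by
        push_cast at h6 ⊢; linear_combination h6
      simpa using (mul_eq_zero.1 h7).resolve_left (cast_ne (by omega) (by omega))
    rw [← hF, ← sub_eq_zero, ← hf']
    refine ext _ _ fun j => ?_
    induction j with
    | zero => exact h6
    | succ j ih => rw [← hew, ← Module.End.mul_apply, ← h4, Module.End.mul_apply, ih]; simp
  · simp only [Module.End.mul_apply, ht, hyw, map_smul, smul_smul, mul_comm]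
  · simp only [Module.End.mul_apply, hf, hyw, map_smul, smul_smul, LinearMap.smul_apply]
    rcases j with _ | j
    · simp
    · simp only [Nat.add_sub_cancel]
      congr 1
      field_simp
      ring

end H20.Tu
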