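import Cfsg.Agent.H20.Tu3

/-!
From a small simple module to a homomorphism into `PSL₂`.
-/

set_option autoImplicit false
set_option linter.unusedSectionVars false

namespace H20.Tu

open Subgroup Finset Matrix
open scoped MatrixGroups

section SO3

variable {k : Type*} [Field k]

/-- The symmetric square of a `2 × 2` matrix. -/
def R3 (s : SL(2, k)) : Matrix (Fin 3) (Fin 3) k :=
  !![s.1 0 0 ^ 2, 2 * s.1 0 0 * s.1 0 1, s.1 0 1 ^ 2;
    s.1 0 0 * s.1 1 0, s.1 0 0 * s.1 1 1 + s.1 0 1 * s.1 1 0, s.1 0 1 * s.1 1 1;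
    s.1 1 0 ^ 2, 2 * s.1 1 0 * s.1 1 1, s.1 1 1 ^ 2]

theorem R3_one : R3 (1 : SL(2, k)) = 1 := by
  ext i j; fin_cases i <;> fin_cases j <;> simp [R3]

theorem R3_mul (s t : SL(2, k)) : R3 (s * t) = R3 s * R3 t := by
  ext i j; fin_cases i <;> fin_cases j <;>
    simp [R3, Matrix.mul_apply, Fin.sum_univ_succ] <;> ring

theorem mem_center_two {s : SL(2, k)} :
    s ∈ center SL(2, k) ↔ s.1 0 1 = 0 ∧ s.1 1 0 = 0 ∧ s.1 0 0 = s.1 1 1 := by
  have hd : s.1 0 0 * s.1 1 1 - s.1 0 1 * s.1 1 0 = 1 := by rw [← det_fin_two]; exact s.2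
  rw [Matrix.SpecialLinearGroup.mem_center_iff]
  constructor
  · rintro ⟨r, -, h⟩
    simp [← h]
  · rintro ⟨h1, h2, h3⟩
    refine ⟨s.1 0 0, by rw [Fintype.card_fin]; linear_combination hd + s.1 0 0 * h3 + s.1 1 0 * h1, ?_⟩
    ext i j; fin_cases i <;> fin_cases j <;> simp [h1, h2, h3]

theorem R3_eq_one {s : SL(2, k)} : R3 s = 1 ↔ s ∈ center SL(2, k) := by
  have hd : s.1 0 0 * s.1 1 1 - s.1 0 1 * s.1 1 0 = 1 := by rw [← det_fin_two]; exact s.2
  rw [mem_center_two]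
  constructor
  · intro h
    have h1 : s.1 0 1 ^ 2 = 0 := congrFun (congrFun h 0) 2
    have h2 : s.1 1 0 ^ 2 = 0 := congrFun (congrFun h 2) 0
    have h3 : s.1 0 0 ^ 2 = 1 := congrFun (congrFun h 0) 0
    rw [pow_eq_zero_iff two_ne_zero] at h1 h2
    refine ⟨h1, h2, ?_⟩
    rw [h1] at hd
    linear_combination -s.1 0 0 * hd + s.1 1 1 * h3
  · rintro ⟨h1, h2, h3⟩
    rw [h1, h3, zero_mul, sub_zero] at hd
    ext i j; fin_cases i <;> fin_cases j <;> simp [R3, h1, h2, h3, sq, hd]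

/-- The polar form of the determinant of a symmetric matrix. -/
def b3 (v w : Fin 3 → k) : k := v 0 * w 2 + v 2 * w 0 - 2 * v 1 * w 1

theorem exists_sq_pair [IsAlgClosed k] {u v w : k} (h : u * w = v ^ 2) :
    ∃ a c, u = a ^ 2 ∧ v = a * c ∧ w = c ^ 2 := by
  obtain ⟨a, ha⟩ := IsAlgClosed.exists_eq_mul_self u
  by_cases h0 : a = 0
  · obtain ⟨c, hc⟩ := IsAlgClosed.exists_eq_mul_self w
    rw [ha, h0, zero_mul, zero_mul, eq_comm, pow_eq_zero_iff two_ne_zero] at h
    exact ⟨0, c, by simp [ha, h0], by simp [h], by rw [hc, sq]⟩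
  · refine ⟨a, v / a, by rw [ha, sq], by field_simp, ?_⟩
    rw [ha] at h
    field_simp
    linear_combination h

theorem exists_R3 [IsAlgClosed k] (h2 : (2 : k) ≠ 0) {T : Matrix (Fin 3) (Fin 3) k}
    (h : ∀ v w, b3 (T *ᵥ v) (T *ᵥ w) = b3 v w) : ∃ s, T = R3 s ∨ T = -R3 s := by
  have h' := fun i j => h (Pi.single i 1) (Pi.single j 1)
  have h00 := h' 0 0
  have h01 := h' 0 1
  have h02 := h' 0 2
  have h11 := h' 1 1
  have h12 := h' 1 2
  have h22 := h' 2 2
  simp [b3] at h00 h01 h02 h11 h12 h22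
  obtain ⟨a, c, ha, hac, hc⟩ := exists_sq_pair (u := T 0 0) (v := T 1 0) (w := T 2 0)
    (mul_left_cancel₀ h2 (by linear_combination h00))
  obtain ⟨b, d, hb, hbd, hd, hdet⟩ : ∃ b d, T 0 2 = b ^ 2 ∧ T 1 2 = b * d ∧ T 2 2 = d ^ 2 ∧
      a * d - b * c = 1 := by
    obtain ⟨b, d, hb, hbd, hd⟩ := exists_sq_pair (u := T 0 2) (v := T 1 2) (w := T 2 2)
      (mul_left_cancel₀ h2 (by linear_combination h22))
    rw [ha, hac, hc, hb, hbd, hd] at h02
    have : (a * d - b * c - 1) * (a * d - b * c + 1) = 0 := by linear_combination h02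
    rcases mul_eq_zero.1 this with h3 | h3
    · exact ⟨b, d, hb, hbd, hd, by linear_combination h3⟩
    · exact ⟨-b, -d, by rw [hb]; ring, by rw [hbd]; ring, by rw [hd]; ring, by linear_combination -h3⟩
  rw [ha, hac, hc] at h01
  rw [hb, hbd, hd] at h12
  obtain ⟨ε, hε⟩ : ∃ ε, ε = -c * d * T 0 1 + (a * d + b * c) * T 1 1 - a * b * T 2 1 := ⟨_, rfl⟩
  have e0 : T 0 1 = ε * (2 * a * b) := by
    rw [hε]; linear_combination a ^ 2 * h12 + b ^ 2 * h01 - T 0 1 * (a * d - b * c + 1) * hdet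
  have e1 : T 1 1 = ε * (a * d + b * c) := by
    rw [hε]; linear_combination a * c * h12 + b * d * h01 - T 1 1 * (a * d - b * c + 1) * hdet
  have e2 : T 2 1 = ε * (2 * c * d) := by
    rw [hε]; linear_combination c ^ 2 * h12 + d ^ 2 * h01 - T 2 1 * (a * d - b * c + 1) * hdet
  have e3 : (ε - 1) * (ε + 1) = 0 := by
    rw [e0, e1, e2] at h11
    refine mul_left_cancel₀ h2 ?_
    linear_combination -h11 - 2 * ε ^ 2 * (a * d - b * c + 1) * hdet
  rcases mul_eq_zero.1 e3 with h3 | h3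
  · refine ⟨⟨!![a, b; c, d], by rw [det_fin_two_of, hdet]⟩, Or.inl ?_⟩
    rw [sub_eq_zero.1 h3] at e0 e1 e2
    ext i j; fin_cases i <;> fin_cases j <;> simp [R3, *]
  · obtain ⟨i, hi⟩ := IsAlgClosed.exists_eq_mul_self (-1 : k)
    refine ⟨⟨!![a * i, -(b * i); c * i, -(d * i)], by
      rw [det_fin_two_of]; linear_combination hdet + (a * d - b * c) * hi⟩, Or.inr ?_⟩
    rw [eq_neg_of_add_eq_zero_left h3] at e0 e1 e2
    have hi' : i ^ 2 = -1 := by rw [hi, sq]
    ext i j; fin_cases i <;> fin_cases j <;> simp [R3, ha, hac, hc, hb, hbd, hd, e0, e1, e2] <;>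
      ring_nf <;> simp [hi', sub_eq_add_neg]

variable {G : Type*} [Group G] {p : ℕ} {x : G}

theorem exists_hom_three [IsAlgClosed k] (h2 : (2 : k) ≠ 0) (T : G →* Matrix (Fin 3) (Fin 3) k)
    (h : ∀ g v w, b3 (T g *ᵥ v) (T g *ᵥ w) = b3 v w) (hp : Odd p) (hx : x ^ p = 1)
    (gen : ∀ K : Subgroup G, K.Normal → x ∈ K → K = ⊤) :
    ∃ θ : G →* PSL(2, k), ∀ g, θ g = 1 → T g = 1 := by
  have hi : ∀ g s, T g = R3 s → T g⁻¹ = R3 s⁻¹ := fun g s hs => by
    rw [← mul_one (T g⁻¹), ← R3_one, ← mul_inv_cancel s, R3_mul, ← hs, ← mul_assoc, ← map_mul,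
      inv_mul_cancel, map_one, one_mul]
  have hi' : ∀ g s, T g = -R3 s → T g⁻¹ = -R3 s⁻¹ := fun g s hs => by
    rw [← mul_one (T g⁻¹), ← R3_one, ← mul_inv_cancel s, R3_mul, ← neg_mul_neg (R3 s), ← hs,
      ← mul_assoc, ← map_mul, inv_mul_cancel, map_one, one_mul]
  let K : Subgroup G :=
    { carrier := {g | ∃ s, T g = R3 s}
      one_mem' := ⟨1, by rw [map_one, R3_one]⟩
      mul_mem' := by
        rintro a b ⟨s, hs⟩ ⟨t, ht⟩
        exact ⟨s * t, by rw [map_mul, hs, ht, R3_mul]⟩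
      inv_mem' := by
        rintro a ⟨s, hs⟩
        exact ⟨_, hi a s hs⟩ }
  have hK : K = ⊤ := by
    refine gen K ⟨?_⟩ ?_
    · rintro a ⟨s, hs⟩ g
      obtain ⟨t, ht | ht⟩ := exists_R3 h2 (h g)
      · exact ⟨t * s * t⁻¹, by rw [map_mul, map_mul, hi g t ht, ht, hs, R3_mul, R3_mul]⟩
      · exact ⟨t * s * t⁻¹, by rw [map_mul, map_mul, hi' g t ht, ht, hs, R3_mul, R3_mul]; simp⟩
    · have h3 : x * x ∈ K := by
        obtain ⟨t, ht | ht⟩ := exists_R3 h2 (h x) <;>
          exact ⟨t * t, by rw [map_mul, ht, R3_mul]; try simp⟩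
      obtain ⟨m, hm⟩ := hp
      have := pow_mem h3 (m + 1)
      rwa [← sq, ← pow_mul, show 2 * (m + 1) = p + 1 by omega, pow_succ, hx, one_mul] at this
  choose s hs using fun g => (hK.ge (mem_top g) : ∃ s, T g = R3 s)
  refine ⟨MonoidHom.mk' (fun g => (s g : PSL(2, k))) fun a b => ?_, fun g hg => ?_⟩
  · rw [← QuotientGroup.mk_mul, QuotientGroup.eq, ← R3_eq_one, R3_mul, R3_mul, ← hi _ _ (hs _),
      ← hs, ← hs, ← map_mul, ← map_mul, inv_mul_cancel, map_one]
  · rw [hs, R3_eq_one]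
    exact (QuotientGroup.eq_one_iff _).1 hg

theorem exists_hom_two [hp : Fact p.Prime] [CharP k p] (T : G →* Matrix (Fin 2) (Fin 2) k)
    (hx : x ^ p = 1) (gen : ∀ K : Subgroup G, K.Normal → x ∈ K → K = ⊤) :
    ∃ θ : G →* PSL(2, k), ∀ g, θ g = 1 → ∃ c : k, T g = c • 1 := by
  have h1 : ∀ g, (T g).det = 1 := fun g => by
    have := gen ((detMonoidHom.comp T).toHomUnits).ker inferInstance (by
      rw [MonoidHom.mem_ker, Units.ext_iff]
      have h2 : ((T x).det - 1) ^ p = 0 := by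
        rw [sub_pow_char, ← det_pow, ← map_pow, hx, map_one, det_one, one_pow, sub_self]
      exact sub_eq_zero.1 (pow_eq_zero_iff hp.out.ne_zero |>.1 h2))
    exact congrArg Units.val (MonoidHom.mem_ker.1 (this.ge (mem_top g)))
  refine ⟨(QuotientGroup.mk' _).comp (MonoidHom.mk' (fun g => (⟨T g, h1 g⟩ : SL(2, k)))
    fun a b => Subtype.ext (map_mul T a b)), fun g hg => ?_⟩
  obtain ⟨r, -, hr⟩ := Matrix.SpecialLinearGroup.mem_center_iff.1
    ((QuotientGroup.eq_one_iff (G := SL(2, k)) ⟨T g, h1 g⟩).1 hg)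
  exact ⟨r, by rw [smul_one_eq_diagonal]; exact hr.symm⟩

theorem exists_basis_b3 (h2 : (2 : k) ≠ 0) {M : Type*} [AddCommGroup M] [Module k M]
    [FiniteDimensional k M] (hM : Module.finrank k M = 3) (β : M →ₗ[k] M →ₗ[k] k)
    (hs : ∀ a b, β a b = β b a) (hn : ∀ a, (∀ b, β a b = 0) → a = 0) {e : M} (he : e ≠ 0)
    (h0 : β e e = 0) : ∃ (E : Module.Basis (Fin 3) k M) (c : k), c ≠ 0 ∧
      ∀ a b, β a b = c * b3 (E.repr a) (E.repr b) := by
  obtain ⟨m, hm⟩ : ∃ m, β e m = 1 := by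
    by_contra h1
    refine he (hn e fun b => by_contra fun h3 => h1 ⟨(β e b)⁻¹ • b, ?_⟩)
    rw [map_smul, smul_eq_mul, inv_mul_cancel₀ h3]
  obtain ⟨f, h1, h3⟩ : ∃ f, β e f = 1 ∧ β f f = 0 := by
    refine ⟨m - (β m m / 2) • e, by simp [hm, h0], ?_⟩
    simp only [map_sub, map_smul, LinearMap.sub_apply, LinearMap.smul_apply, hm, h0, hs m e,
      smul_eq_mul]
    field_simp; ring
  obtain ⟨t, h4, h5⟩ : ∃ t, t ≠ 0 ∧ t ∈ LinearMap.ker ((β e).prod (β f)) := by
    have := LinearMap.ker_ne_bot_of_finrank_lt (f := (β e).prod (β f)) (by simp [hM])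
    obtain ⟨t, h4, h5⟩ := (Submodule.ne_bot_iff _).1 this
    exact ⟨t, h5, h4⟩
  have h6 : β f t = 0 := congrArg Prod.snd h5
  replace h5 : β e t = 0 := congrArg Prod.fst h5
  have li : ∀ c : k, c ≠ 0 → LinearIndependent k ![e, t, c • f] := fun c hc => by
    rw [Fintype.linearIndependent_iff]
    intro g hg
    simp only [Fin.sum_univ_three, cons_val_zero, cons_val_one, cons_val_two, head_cons, tail_cons,
      Matrix.cons_val] at hg
    have h7 := congrArg (β e) hg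
    have h8 := congrArg (β f) hg
    simp [h0, h1, h3, h5, h6, hs f e, hc] at h7 h8
    simp [h7, h8, h4] at hg
    intro i; fin_cases i <;> assumption
  have h7 : β t t ≠ 0 := fun h7 => h4 (hn t fun b => by
    have : β t = 0 := (basisOfLinearIndependentOfCardEqFinrank (li 1 one_ne_zero)
      (by simp [hM])).ext fun i => by fin_cases i <;> simp [h7, hs t, h5, h6]
    simp [this])
  have h8 : -β t t / 2 ≠ 0 := div_ne_zero (neg_ne_zero.2 h7) h2
  refine ⟨basisOfLinearIndependentOfCardEqFinrank (li _ h8) (by simp [hM]), _, h8, fun a b => ?_⟩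
  generalize hE : basisOfLinearIndependentOfCardEqFinrank (li _ h8) (by simp [hM]) = E
  have h9 : ∀ i, E i = ![e, t, (-β t t / 2) • f] i := fun i => by simp [← hE]
  conv_lhs => rw [← E.sum_repr a, ← E.sum_repr b]
  simp [Fin.sum_univ_three, h9, b3, h0, h1, h3, h5, h6, hs t e, hs t f, hs f e]
  field_simp; ring

end SO3

section Mod

variable {k L G : Type*} [Field k] [IsAlgClosed k] [AddCommGroup L] [Module k L]
  [FiniteDimensional k L] [Group G] [Finite G] {p : ℕ} [hp : Fact p.Prime] [CharP k p] {x y : G}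
  {ρ : Representation k G L}

/-- The elements preserving a submodule. -/
def stb {A : Type*} [AddCommGroup A] [Module k A] (τ : Representation k G A) (S : Submodule k A) :
    Subgroup G where
  carrier := {g | ∀ s ∈ S, τ g s ∈ S}
  one_mem' := by simp
  mul_mem' {g h} hg hh s hs := by rw [map_mul]; exact hg _ (hh s hs)
  inv_mem' {g} hg s hs := by
    have h1 : ∀ n : ℕ, τ (g ^ n) s ∈ S := fun n => by
      induction n with
      | zero => simpa using hs
      | succ n ih => rw [pow_succ', map_mul]; exact hg _ ih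
    obtain ⟨n, hn⟩ := mem_powers_iff_mem_zpowers.2 (inv_mem (mem_zpowers g))
    exact hn ▸ h1 n

/-- The trace form. -/
noncomputable def tf (k L : Type*) [Field k] [AddCommGroup L] [Module k L] :
    Module.End k L →ₗ[k] Module.End k L →ₗ[k] k :=
  (LinearMap.mul k (Module.End k L)).compr₂ (LinearMap.trace k L)

theorem tf_apply (a b : Module.End k L) : tf k L a b = LinearMap.trace k L (a * b) := rfl

theorem tf_comm (a b : Module.End k L) : tf k L a b = tf k L b a := LinearMap.trace_mul_comm _ _ _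

theorem tf_cjr (g : G) (a b : Module.End k L) : tf k L (cjr ρ g a) b = tf k L a (cjr ρ g⁻¹ b) :=
  trace_cjr ρ g a b

theorem cjr_inv_cjr (g : G) (a : Module.End k L) : cjr ρ g⁻¹ (cjr ρ g a) = a := by
  rw [← Module.End.mul_apply, ← map_mul, inv_mul_cancel, map_one]; rfl

theorem tf_br (a b c : Module.End k L) : tf k L (a * b - b * a) c = tf k L a (b * c - c * b) := by
  rw [tf_apply, tf_apply, sub_mul, mul_sub, map_sub, map_sub, mul_assoc, mul_assoc,
    LinearMap.trace_mul_comm k b, mul_assoc]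

theorem SM.not_line (h : SM p x ρ) (h1 : ∀ g, ∃ c : k, cjr ρ g (lg k p (ρ x)) = c • lg k p (ρ x)) :
    False := by
  have h2 : cmm ρ (lg k p (ρ x)) = ⊤ := gen_conj h.gen fun g => by
    obtain ⟨c, hc⟩ := h1 g⁻¹
    refine (cjr_eq_iff ρ).1 ?_
    have h3 := cjr_inv_cjr (ρ := ρ) g⁻¹ (lg k p (ρ x))
    rw [inv_inv] at h3
    rw [map_mul, map_mul, Module.End.mul_apply, Module.End.mul_apply, hc, map_smul,
      (cjr_eq_iff ρ).2 (lg_comm (ρ x)).eq, ← hc, h3]
  obtain ⟨c, hc⟩ := h.schur _ fun g => h2.ge (mem_top g)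
  obtain ⟨n, hn⟩ := nil_lg (k := k) h.three ⟨_, h.nil⟩
  rw [hc, smul_pow, one_pow, smul_eq_zero] at hn
  refine h.lg_ne ?_
  rcases hn with hn | hn
  · rw [hc, eq_zero_of_pow_eq_zero hn, zero_smul]
  · rw [hc, hn, smul_zero]

theorem SM.exists_M (h : SM p x ρ) : ∃ M : Submodule k (Module.End k L),
    (∀ g, ∀ m ∈ M, cjr ρ g m ∈ M) ∧ lg k p (ρ x) ∈ M ∧ tf k L (lg k p (ρ x)) (lg k p (ρ x)) = 0 ∧
    (∀ m ∈ M, cjr ρ x m = m → ∃ c : k, m = c • lg k p (ρ x)) ∧ Module.finrank k M ≤ 3 ∧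
    (Module.finrank k M = 3 → ∃ m ∈ M, tf k L m (lg k p (ρ x)) ≠ 0) := by
  obtain ⟨y, hy, hr, hK⟩ := h.sy.exists_gen
  obtain ⟨a, ha, hya⟩ := h.sy.exists_pow hy
  obtain ⟨t, f, H⟩ := h.exists_tr ha hya hr hK
  have h2 : (2 : k) ≠ 0 := by
    exact_mod_cast cast_ne (k := k) (p := p) two_pos (by have := h.five; omega)
  generalize lg k p (ρ x) = e at *
  have ee : tf k L e e = 0 := by
    have := tf_br t e e
    rw [H.te, sub_self, map_zero, two_smul, map_add, LinearMap.add_apply, ← two_mul] at this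
    exact (mul_eq_zero.1 this).resolve_left h2
  have et : tf k L e t = 0 := by
    have := tf_br t t e
    rw [H.te, sub_self, map_zero, two_smul, map_add, ← two_mul, tf_comm t] at this
    exact (mul_eq_zero.1 this.symm).resolve_left h2
  have ff : tf k L f f = 0 := by
    have := tf_br t f f
    rw [H.tf, sub_self, map_zero, two_smul, map_neg, map_add, LinearMap.neg_apply,
      LinearMap.add_apply, ← two_mul, neg_eq_zero] at this
    exact (mul_eq_zero.1 this).resolve_left h2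
  have ft : tf k L f t = 0 := by
    have := tf_br t t f
    rw [H.tf, sub_self, map_zero, two_smul, map_neg, map_add, ← two_mul, tf_comm t] at this
    exact (mul_eq_zero.1 (neg_eq_zero.1 this.symm)).resolve_left h2
  obtain ⟨κ, ef⟩ : ∃ κ, tf k L e f = κ := ⟨_, rfl⟩
  have tt : tf k L t t = 2 * κ := by
    have := tf_br e f t
    rw [H.ef, ← neg_sub, H.tf, neg_neg, two_smul, map_add, ef, ← two_mul] at this
    exact this
  have hκ : κ ≠ 0 := fun h0 => H.tr (by rw [← tf_apply, tt, h0, mul_zero])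
  obtain ⟨π, hπ⟩ : ∃ π : Module.End k (Module.End k L), ∀ m, π m =
      (tf k L f m / κ) • e + (tf k L t m / (2 * κ)) • t + (tf k L e m / κ) • f :=
    ⟨κ⁻¹ • (tf k L f).smulRight e + (2 * κ)⁻¹ • (tf k L t).smulRight t +
      κ⁻¹ • (tf k L e).smulRight f, fun m => by simp [smul_smul, div_eq_inv_mul]⟩
  obtain ⟨S, hS⟩ : ∃ S, S = Submodule.span k {e, t, f} := ⟨_, rfl⟩
  have he : e ∈ S := hS ▸ Submodule.subset_span (by simp)
  have ht : t ∈ S := hS ▸ Submodule.subset_span (by simp)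
  have hf : f ∈ S := hS ▸ Submodule.subset_span (by simp)
  have ind : ∀ A : Module.End k L →ₗ[k] Module.End k L, A e ∈ S → A t ∈ S →
      A f ∈ S → ∀ s ∈ S, A s ∈ S := fun A h3 h4 h5 s hs => by
    have : S ≤ S.comap A := by
      conv_lhs => rw [hS]
      rw [Submodule.span_le]
      rintro _ (rfl | rfl | rfl) <;> assumption
    exact this hs
  have ext : ∀ A B : Module.End k L →ₗ[k] Module.End k L,
      A e = B e → A t = B t → A f = B f → ∀ s ∈ S, A s = B s := fun A B h3 h4 h5 s hs => by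
    refine LinearMap.eqOn_span (s := {e, t, f}) ?_ (hS ▸ hs)
    rintro _ (rfl | rfl | rfl) <;> assumption
  have h3 : ∀ m, π m ∈ S := fun m => by
    rw [hπ]; exact add_mem (add_mem (S.smul_mem _ he) (S.smul_mem _ ht)) (S.smul_mem _ hf)
  have h4 : ∀ s ∈ S, π s = s := ext π LinearMap.id
    (by simp [hπ, ee, tf_comm f e, tf_comm t e, et, ef, hκ])
    (by simp [hπ, tt, ft, et, hκ, h2]) (by simp [hπ, ff, tf_comm t f, ft, ef, hκ])
  have h5 : ∀ m, ∀ s ∈ S, tf k L (π m) s = tf k L m s := fun m s hs => by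
    refine LinearMap.eqOn_span (s := {e, t, f}) ?_ (hS ▸ hs)
    rintro z (hz | hz | hz) <;> (try rw [Set.mem_singleton_iff] at hz) <;> rw [hz] <;>
      simp [hπ, ee, et, ef, ff, ft, tt, tf_comm m, tf_comm t e, tf_comm f e, tf_comm t f, hκ, h2]
  have h6 : normalizer (zpowers x : Set G) ≤ stb (cjr ρ) S := by
    refine hK _ ?_ ?_ fun v h6 h7 s hs => ?_
    · refine ind _ ?_ ?_ ?_
      · rwa [H.xe]
      · rw [H.xt]; exact sub_mem ht (nsmul_mem he 2)
      · rw [H.xf]; exact sub_mem (add_mem hf ht) he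
    · refine ind _ ?_ ?_ ?_
      · rw [H.ye]; exact S.smul_mem _ he
      · rwa [H.yt]
      · rw [H.yf]; exact S.smul_mem _ hf
    · obtain ⟨c, hc⟩ := h.scal h6 h7
      rwa [(cjr_eq_iff ρ (b := s)).2 (by simp [hc])]
  have h7 : ∀ m, tf k L f m = 0 → tf k L t m = 0 → tf k L e m = 0 → π m = 0 := fun m h7 h8 h9 => by
    simp [hπ, h7, h8, h9]
  obtain ⟨M, h8, h9, h10⟩ := Tu.exists_M (cjr ρ) h.sy (nil_cjr ρ h.sy h.dim.le) π fun g hg => by
    refine LinearMap.ext fun m => ?_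
    have h8 : ∀ s ∈ S, tf k L s (cjr ρ g (π m) - π (cjr ρ g m)) = 0 := fun s hs => by
      rw [tf_comm, map_sub, LinearMap.sub_apply, h5 _ s hs, tf_cjr, tf_cjr,
        h5 _ _ (h6 (inv_mem hg) s hs), sub_self]
    rw [Module.End.mul_apply, Module.End.mul_apply, ← sub_eq_zero,
      ← h4 _ (sub_mem (h6 hg _ (h3 _)) (h3 _))]
    exact h7 _ (h8 f hf) (h8 t ht) (h8 e he)
  obtain ⟨ψ, hψ⟩ : ∃ ψ : M →ₗ[k] Fin 3 → k, ∀ m, ψ m = ![tf k L f m, tf k L t m, tf k L e m] :=
    ⟨LinearMap.pi ![tf k L f, tf k L t, tf k L e] ∘ₗ M.subtype, fun m => by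
      ext i; fin_cases i <;> rfl⟩
  have h11 : Function.Injective ψ := (injective_iff_map_eq_zero ψ).2 fun m hm => by
    rw [hψ] at hm
    exact Subtype.ext (h10 _ m.2 (h7 _ (congrFun hm 0) (congrFun hm 1) (congrFun hm 2)))
  refine ⟨M, h8, h9 e H.xe (h4 e he), ee, fun m hm h12 => ⟨tf k L f m / κ, ?_⟩,
    by simpa using LinearMap.finrank_le_finrank_of_injective h11, fun h12 => ?_⟩
  · have h13 : ∀ s, tf k L (cjr ρ x s) m = tf k L s m := fun s => by
      rw [tf_cjr]; conv_lhs => rw [← h12, cjr_inv_cjr]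
    have h14 := h13 t
    have h15 := h13 f
    simp only [H.xt, H.xf, two_smul, map_sub, map_add, LinearMap.sub_apply,
      LinearMap.add_apply] at h14 h15
    replace h14 : tf k L e m = 0 := mul_left_cancel₀ h2 (by linear_combination -h14)
    have h16 : tf k L t m = 0 := by linear_combination h15 + h14
    rw [← sub_eq_zero]
    refine h10 _ (sub_mem hm (M.smul_mem _ (h9 e H.xe (h4 e he)))) ?_
    rw [map_sub, map_smul, h4 e he, hπ]
    simp [h14, h16]
  · obtain ⟨m, hm⟩ := (LinearMap.injective_iff_surjective_of_finrank_eq_finrank (by simp [h12])).1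
      h11 ![0, 0, 1]
    rw [hψ] at hm
    exact ⟨m, m.2, by rw [tf_comm, show tf k L e m = 1 from congrFun hm 2]; exact one_ne_zero⟩

theorem SM.exists_hom (h : SM p x ρ) :
    ∃ θ : G →* PSL(2, k), θ x ≠ 1 ∧ ∃ g, θ g ∉ zpowers (θ x) := by
  obtain ⟨M, h1, h2, h3, h4, h5, h6⟩ := h.exists_M
  have hl := h.not_line
  have hne := h.lg_ne
  have hxe : cjr ρ x (lg k p (ρ x)) = lg k p (ρ x) := (cjr_eq_iff ρ).2 (lg_comm (ρ x)).eq
  generalize lg k p (ρ x) = e at *
  suffices ∃ θ : G →* PSL(2, k), ∀ g, θ g = 1 → ∃ c : k, ∀ m ∈ M, cjr ρ g m = c • m by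
    obtain ⟨θ, hθ⟩ := this
    refine ⟨θ, fun h7 => hl fun g => ?_, by_contra fun h7 => hl fun g => ?_⟩
    · obtain ⟨c, hc⟩ := hθ x h7
      have h8 : c = 1 := smul_left_injective k hne (by simpa [hxe] using (hc e h2).symm)
      exact h4 _ (h1 g e h2) (by rw [hc _ (h1 g e h2), h8, one_smul])
    · push Not at h7
      obtain ⟨z, hz, h8⟩ : ∃ z ∈ zpowers x, θ z = θ g := by
        obtain ⟨i, hi⟩ := h7 g
        exact ⟨x ^ i, zpow_mem (mem_zpowers x) i, by rw [map_zpow]; exact hi⟩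
      obtain ⟨c, hc⟩ := hθ (g * z⁻¹) (by rw [map_mul, map_inv, h8, mul_inv_cancel])
      have h9 : cjr ρ z⁻¹ e = e := (cjr_eq_iff ρ).2
        (((zpowers_le (H := cmm ρ e)).2 ((cjr_eq_iff ρ).1 hxe) (inv_mem hz) :))
      exact ⟨c, by rw [← hc e h2, map_mul, Module.End.mul_apply, h9]⟩
  let τ := (cjr ρ).subrepresentation M h1
  have h7 : 2 ≤ Module.finrank k M := by
    by_contra h7
    obtain ⟨v, hv⟩ := finrank_le_one_iff.1 (Nat.lt_succ_iff.1 (not_le.1 h7))
    refine hl fun g => ?_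
    obtain ⟨c, hc⟩ := hv ⟨e, h2⟩
    obtain ⟨d, hd⟩ := hv ⟨_, h1 g e h2⟩
    have hc' : c • (v : Module.End k L) = e := congrArg Subtype.val hc
    have hd' : d • (v : Module.End k L) = cjr ρ g e := congrArg Subtype.val hd
    have h8 : c ≠ 0 := by rintro rfl; exact hne (by simpa using hc'.symm)
    exact ⟨d / c, by rw [← hd', ← hc', smul_smul, div_mul_cancel₀ _ h8]⟩
  have key : ∀ {n : ℕ} (E : Module.Basis (Fin n) k M) (g : G) (c : k),
      LinearMap.toMatrixAlgEquiv E (τ g) = c • 1 → ∀ m ∈ M, cjr ρ g m = c • m := by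
    intro n E g c hc m hm
    rw [← map_one (LinearMap.toMatrixAlgEquiv E), ← map_smul, EmbeddingLike.apply_eq_iff_eq] at hc
    exact congrArg Subtype.val (LinearMap.congr_fun hc ⟨m, hm⟩)
  rcases h5.eq_or_lt with h8 | h8
  · have h9 : (2 : k) ≠ 0 := by
      exact_mod_cast cast_ne (k := k) (p := p) two_pos (by have := h.five; omega)
    obtain ⟨m, hm, h10⟩ := h6 h8
    obtain ⟨E, c, hc, hE⟩ := exists_basis_b3 h9 h8 ((tf k L).compl₁₂ M.subtype M.subtype)
      (fun a b => tf_comm _ _) (fun a ha => by_contra fun h0 => by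
        obtain ⟨z, ⟨h11, h12⟩, h13, h14⟩ := exists_fixed (nil_cjr ρ h.sy h.dim.le)
          (K := M ⊓ ⨅ b : M, LinearMap.ker (tf k L b)) (m := a) (fun z hz => ⟨h1 x z hz.1, by
            have h11 := hz.2
            simp only [SetLike.mem_coe, Submodule.mem_iInf, LinearMap.mem_ker] at h11 ⊢
            intro b
            rw [tf_comm, tf_cjr, tf_comm]
            exact h11 ⟨_, h1 _ _ b.2⟩⟩) ⟨a.2, by
            simp only [SetLike.mem_coe, Submodule.mem_iInf, LinearMap.mem_ker]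
            exact fun b => (tf_comm _ _).trans (ha b)⟩ (fun h11 => h0 (Subtype.ext h11))
        obtain ⟨d, rfl⟩ := h4 z h11 h14
        simp only [SetLike.mem_coe, Submodule.mem_iInf, LinearMap.mem_ker] at h12
        have h15 := h12 ⟨m, hm⟩
        rw [map_smul, smul_eq_mul, mul_eq_zero, or_iff_left h10] at h15
        exact h13 (by rw [h15, zero_smul]))
      (e := ⟨e, h2⟩) (fun h0 => hne (congrArg Subtype.val h0)) h3
    obtain ⟨θ, hθ⟩ := exists_hom_three h9 ((LinearMap.toMatrixAlgEquiv E).toMonoidHom.comp τ)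
      (fun g v w => by
        obtain ⟨a, rfl⟩ := E.equivFun.surjective v
        obtain ⟨b, rfl⟩ := E.equivFun.surjective w
        change b3 (LinearMap.toMatrix E E (τ g) *ᵥ E.repr a) (LinearMap.toMatrix E E (τ g) *ᵥ E.repr b) =
          b3 (E.repr a) (E.repr b)
        rw [LinearMap.toMatrix_mulVec_repr, LinearMap.toMatrix_mulVec_repr]
        refine mul_left_cancel₀ hc ?_
        rw [← hE, ← hE]
        change tf k L (cjr ρ g a) (cjr ρ g b) = tf k L a b
        rw [tf_cjr, cjr_inv_cjr])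
      (hp.out.odd_of_ne_two (by have := h.five; omega)) h.sy.pow h.gen
    exact ⟨θ, fun g hg => ⟨1, key E g 1 (by rw [one_smul]; exact hθ g hg)⟩⟩
  · let E := Module.finBasisOfFinrankEq k M (n := 2) (by omega)
    obtain ⟨θ, hθ⟩ := exists_hom_two ((LinearMap.toMatrixAlgEquiv E).toMonoidHom.comp τ)
      h.sy.pow h.gen
    exact ⟨θ, fun g hg => (hθ g hg).imp fun c hc => key E g c hc⟩

end Mod

end H20.Tu
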