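import Cfsg.Agent.H20.Tu4
import Cfsg.Agent.H4.LineCls
import Cfsg.Agent.H4.Dickson
import Cfsg.Agent.H4.Tor2

/-!
A homomorphism into `PSL₂(k)` of a group with a Sylow subgroup of order `p`: counting.
-/

set_option autoImplicit false
set_option linter.unusedSectionVars false

namespace H20.Tu

open Subgroup Finset Matrix MulAction H4
open scoped MatrixGroups LinearAlgebra.Projectivization Pointwise

variable {G : Type*} [Group G] [Finite G] {p : ℕ} [hp : Fact p.Prime] {x : G}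

variable (p) in
/-- The number of conjugates of `x` among its powers. -/
noncomputable def fc (x : G) : ℕ := Nat.card {b : ZMod p // IsConj x (x ^ b.val)}

theorem SY.exists_conj (h : SY p x) {z : G} (hz : z ^ p = 1) : ∃ g, g * z * g⁻¹ ∈ zpowers x := by
  have h1 : IsPGroup p (zpowers z) := by
    rintro ⟨_, j, rfl⟩
    refine ⟨1, Subtype.ext ?_⟩
    change (z ^ j) ^ p ^ 1 = 1
    rw [pow_one, ← zpow_natCast, ← _root_.zpow_mul, mul_comm j, _root_.zpow_mul, zpow_natCast, hz,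
      _root_.one_zpow]
  obtain ⟨Q, hQ⟩ := h1.exists_le_sylow
  obtain ⟨g, hg⟩ := exists_smul_eq G Q h.syl
  refine ⟨g, ?_⟩
  change _ ∈ (h.syl : Subgroup G)
  rw [← hg, Sylow.coe_subgroup_smul]
  exact smul_mem_pointwise_smul _ (MulAut.conj g) _ (hQ (mem_zpowers z))

theorem SY.sub (h : SY p x) {K : Subgroup G} (hx : x ∈ K) : SY p (⟨x, hx⟩ : K) :=
  ⟨by rw [← orderOf_coe]; exact h.ord, fun h1 => h.sq (h1.trans (card_subgroup_dvd_card _))⟩

theorem SY.mem_of_dvd (h : SY p x) {K : Subgroup G} [hK : K.Normal] (hd : p ∣ Nat.card K) :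
    x ∈ K := by
  obtain ⟨z, hz⟩ := exists_prime_orderOf_dvd_card' p hd
  rw [← orderOf_coe] at hz
  obtain ⟨g, hg⟩ := h.exists_conj (z := z) (by rw [← hz, pow_orderOf_eq_one])
  have h1 := h.zpowers_eq hg fun h1 => hp.out.ne_one (by
    rw [← hz, orderOf_eq_one_iff]; simpa using h1)
  exact zpowers_le.2 (hK.conj_mem _ z.2 g) (h1 ▸ mem_zpowers x)

theorem SY.exists_val (h : SY p x) {z : G} (hz : z ∈ zpowers x) : ∃ b : ZMod p, x ^ b.val = z := by
  obtain ⟨j, rfl⟩ := mem_powers_iff_mem_zpowers.2 hz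
  exact ⟨j, by rw [ZMod.val_natCast, ← h.ord, pow_mod_orderOf]⟩

theorem SY.val_inj (h : SY p x) {b c : ZMod p} (hb : x ^ b.val = x ^ c.val) : b = c :=
  ZMod.val_injective p (pow_injOn_Iio_orderOf (by rw [h.ord]; exact b.val_lt)
    (by rw [h.ord]; exact c.val_lt) hb)

theorem SY.ord_map (h : SY p x) {Q : Type*} [Group Q] {θ : G →* Q} (h1 : θ x ≠ 1) :
    orderOf (θ x) = p :=
  orderOf_eq_prime (by rw [← map_pow, h.pow, map_one]) h1

theorem SY.isConj_of_map (h : SY p x) {Q : Type*} [Group Q] {θ : G →* Q} (h1 : θ x ≠ 1) {g : G}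
    {b : ZMod p} (hg : θ (g * x * g⁻¹) = θ x ^ b.val) : IsConj x (x ^ b.val) := by
  have hx : x ∈ (zpowers (θ x)).comap θ := mem_zpowers _
  have hx' : g * x * g⁻¹ ∈ (zpowers (θ x)).comap θ := by
    rw [mem_comap, hg]; exact npow_mem_zpowers _ _
  obtain ⟨c, hc⟩ := (h.sub hx).exists_conj (z := ⟨_, hx'⟩)
    (Subtype.ext (by simp [conj_pow, h.pow]))
  obtain ⟨j, hj⟩ := (h.sub hx).exists_val hc
  have hj' : x ^ j.val = c * (g * x * g⁻¹) * (c : G)⁻¹ := congrArg Subtype.val hj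
  obtain ⟨i, hi⟩ := c.2
  have h2 : θ x ^ j.val = θ x ^ b.val := by
    beta_reduce at hi
    rw [← map_pow, hj', map_mul, map_mul, hg, map_inv, ← hi]; group
  have h3 : j = b := ZMod.val_injective p (pow_injOn_Iio_orderOf
    (by rw [h.ord_map h1]; exact j.val_lt) (by rw [h.ord_map h1]; exact b.val_lt) h2)
  exact isConj_iff.2 ⟨c * g, by rw [← h3, hj']; group⟩

theorem fc_mono {K : Subgroup G} (hx : x ∈ K) : fc p (⟨x, hx⟩ : K) ≤ fc p x :=
  Nat.card_le_card_of_injective (fun b => ⟨b.1, K.subtype.map_isConj b.2⟩)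
    fun _ _ h => Subtype.ext (Subtype.ext_iff.1 h :)

theorem card_center_le (F : Type*) [Field F] :
    Finite (center SL(2, F)) ∧ Nat.card (center SL(2, F)) ≤ 2 := by
  have e := (Matrix.SpecialLinearGroup.center_equiv_rootsOfUnity' (R := F) (0 : Fin 2)).toEquiv
  exact ⟨Finite.of_equiv _ e.symm, (Nat.card_congr e).trans_le (card_rootsOfUnity F _)⟩

section PSL

variable {k : Type*} [Field k] [IsAlgClosed k] [CharP k p] {θ : G →* PSL(2, k)}

theorem mem_U_of_comm {Q X : Type*} [Group Q] [MulAction Q X] (L : LineAct p Q X) {x₀ : X} {u c : Q}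
    (hu : u ∈ L.U x₀) (h1 : u ≠ 1) (h : u * c = c * u) : c ∈ L.U x₀ := by
  by_contra h2
  have h3 := L.fix_of_commute hu h1 h
  obtain ⟨y, h4, h5⟩ := L.second x₀ c h3 h2
  exact h4 (L.uniq x₀ u hu h1 y (L.fix_second_of_commute (d := c) (fun h6 => h2 (h6 ▸ one_mem _)) h4 h3 h5
    (L.U_le x₀ hu) h.symm))

theorem exists_unip {z : PSL(2, k)} {x₀ : ℙ k (Fin 2 → k)} (hz : z ∈ (pslLineAct p).U x₀)
    (h1 : z ^ 2 ≠ 1) : ∃ (u : SL(2, k)) (v : Fin 2 → k) (hv : v ≠ 0), Projectivization.mk k v hv = x₀ ∧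
      (u : PSL(2, k)) = z ^ 2 ∧ u • v = v ∧ u ≠ 1 := by
  obtain ⟨s, rfl⟩ := QuotientGroup.mk_surjective z
  induction x₀ using Projectivization.ind with | _ v hv =>
  obtain ⟨c, hc⟩ := (psl_fix_iff hv).1 hz.1
  refine ⟨s ^ 2, v, hv, rfl, rfl, ?_, fun h2 => h1 (by rw [← QuotientGroup.mk_pow, h2]; rfl)⟩
  rw [eig_pow hc, (psl_isP_iff hv hc).1 hz.2, one_smul]

theorem psl_main (h : SY p x) (h5 : 5 ≤ p) (gen : ∀ K : Subgroup G, K.Normal → x ∈ K → K = ⊤)
    (h1 : θ x ≠ 1) (h2 : ∃ g, θ g ∉ zpowers (θ x)) :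
    p - 1 ≤ 2 * fc p x ∧ (∀ z ∈ center G, θ z = 1) ∧
      (2 * fc p x ≤ p - 1 → Nonempty (θ.range ≃* PSL(2, ZMod p))) := by
  classical
  have : Finite θ.range := Finite.of_surjective _ θ.rangeRestrict_surjective
  obtain ⟨u, hu⟩ : ∃ u : θ.range, u = θ.rangeRestrict x := ⟨_, rfl⟩
  have hu1 : u ≠ 1 := fun h0 => h1 (congrArg Subtype.val (hu.symm.trans h0))
  have h' : SY p u := ⟨hu ▸ h.ord_map (hu ▸ hu1), fun h0 => h.sq (h0.trans (card_range_dvd θ))⟩
  let L := (pslLineAct p (K := k)).restrict θ.range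
  obtain ⟨x₀, h3⟩ := L.le_U_of_isPGroup h'.isP (by rwa [Ne, zpowers_eq_bot])
  have h4 := h'.eq_of_le (L.isPGroup_U x₀) h3
  have hux : u ∈ L.U x₀ := h3 (mem_zpowers u)
  have h6 : ∀ g : G, θ.rangeRestrict g • x₀ = x₀ →
      ∃ b : ZMod p, u ^ b.val = θ.rangeRestrict g * u * (θ.rangeRestrict g)⁻¹ := fun g hg =>
    h'.exists_val (conj_mem_of_norm (h4 ▸ L.stabilizer_le_normalizer x₀ hg))
  obtain ⟨g, hg⟩ : ∃ g : G, θ.rangeRestrict g • x₀ ≠ x₀ := by
    by_contra h7
    push Not at h7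
    obtain ⟨g, hg⟩ := h2
    refine hg ((gen_conj gen (K := (zpowers (θ x)).comap θ) fun g => ?_).ge (mem_top g))
    obtain ⟨b, hb⟩ := h6 g (h7 g)
    rw [hu, ← map_inv, ← map_mul, ← map_mul] at hb
    exact mem_zpowers_iff.2 ⟨b.val, by rw [zpow_natCast]; exact congrArg Subtype.val hb⟩
  have h7 : L.U x₀ ≠ ⊥ := fun h0 => hu1 (mem_bot.1 (h0 ▸ hux))
  have h8 : Nat.card (L.U x₀) = p := by rw [h4, h'.card]
  have h9 := (L.card_orb_eq_or' hg h7 (L.U_smul_ne_bot h7 _) (by omega)).resolve_right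
    (fun h0 => by omega)
  have h10 := card_orb_top_mul (G := θ.range) x₀
  have h11 : Nat.card (stabilizer θ.range x₀) ≤ fc p x * p := by
    have h11 : ∀ s : stabilizer θ.range x₀, ∃ b : {b : ZMod p // IsConj x (x ^ b.val)},
        u ^ b.1.val = s * u * (s : θ.range)⁻¹ := by
      rintro ⟨s, hs⟩
      obtain ⟨g, rfl⟩ := θ.rangeRestrict_surjective s
      obtain ⟨b, hb⟩ := h6 g hs
      refine ⟨⟨b, h.isConj_of_map h1 (g := g) ?_⟩, hb⟩
      rw [hu, ← map_inv, ← map_mul, ← map_mul] at hb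
      simpa using (congrArg Subtype.val hb).symm
    choose Φ hΦ using h11
    have h12 : ∀ s, (Function.invFun Φ (Φ s)).1⁻¹ * s.1 ∈ L.U x₀ := fun s => by
      refine mem_U_of_comm L hux hu1 ?_
      have h12 := hΦ (Function.invFun Φ (Φ s))
      rw [Function.apply_invFun_apply (f := Φ), hΦ] at h12
      generalize (Function.invFun Φ (Φ s)).1 = r at h12
      calc _ = r⁻¹ * (r * u * r⁻¹) * s := by group
        _ = _ := by rw [← h12]; group
    refine (Nat.card_le_card_of_injective (fun s => (Φ s, (⟨_, h12 s⟩ : L.U x₀)))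
      fun s t hst => ?_).trans (by rw [Nat.card_prod, h8]; rfl)
    obtain ⟨h13, h14⟩ := Prod.ext_iff.1 hst
    dsimp only at h13
    have h15 := congrArg Subtype.val h14
    simp only [h13, mul_right_inj] at h15
    exact Subtype.ext h15
  have hv : θ.rangeRestrict g * u * (θ.rangeRestrict g)⁻¹ ∈ L.U (θ.rangeRestrict g • x₀) :=
    L.conj_mem_U hux _
  have hsq : u ^ 2 ≠ 1 := fun h0 => by
    have := Nat.le_of_dvd two_pos (h'.ord ▸ orderOf_dvd_of_pow_eq_one h0); omega
  obtain ⟨a, v, hv0, h12, h13, h14, h15⟩ := exists_unip (z := (u : PSL(2, k))) hux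
    fun h0 => hsq (Subtype.ext h0)
  obtain ⟨b, w, hw0, h16, h17, h18, h19⟩ := exists_unip (mem_subgroupOf.1 hv) fun h0 => hsq (by
    have : (θ.rangeRestrict g * u * (θ.rangeRestrict g)⁻¹) ^ 2 = 1 := Subtype.ext h0
    simpa [conj_pow] using this)
  have := (card_center_le k).1
  have : Finite (θ.range.comap (QuotientGroup.mk' (center SL(2, k)))) :=
    Finite.of_equiv _ (QuotientGroup.preimageMkEquivSubgroupProdSet _ (θ.range : Set PSL(2, k))).symm
  obtain ⟨φ, h20, h21⟩ := dickson (p := p) (by omega)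
    (θ.range.comap (QuotientGroup.mk' (center SL(2, k)))) (u := a) (w := b)
    (by rw [mem_comap, QuotientGroup.mk'_apply, h13]; exact pow_mem u.2 2)
    (by rw [mem_comap, QuotientGroup.mk'_apply, h17]; exact pow_mem (Subtype.prop _) 2)
    (fun h0 => hg (by rw [← h16, ← h12]; exact ((mk_eq_mk_iff_det2 hv0 hw0).2 h0).symm))
    h14 h18 h15 h19
  obtain ⟨ψ, hψ⟩ : ∃ ψ, ψ = (QuotientGroup.mk' (center SL(2, k))).comp φ := ⟨_, rfl⟩
  have h22 : ψ.range ≤ θ.range := by
    rintro _ ⟨s, rfl⟩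
    rw [hψ]; exact h21 ⟨s, rfl⟩
  have h23 : ψ.ker ≤ center _ := fun s hs => Subgroup.mem_center_iff.2 fun t => h20 (by
    rw [hψ] at hs
    rw [map_mul, map_mul]
    exact Subgroup.mem_center_iff.1 ((QuotientGroup.eq_one_iff _).1 hs) _)
  have h24 := card_le_of_le h22
  have h25 := card_le_of_le h23
  have h26 := (card_center_le (ZMod p)).2
  have h27 : Nat.card ψ.ker * Nat.card ψ.range = p * ((p - 1) * (p + 1)) := by
    rw [← index_ker, card_mul_index, card_sl2, ZMod.card]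
  rw [h9, h8] at h10
  have h28 : Nat.card θ.range ≤ (p + 1) * (fc p x * p) := h10 ▸ Nat.mul_le_mul_left _ h11
  have h29 : 0 < p * (p + 1) := by positivity
  refine ⟨Nat.le_of_mul_le_mul_left ?_ h29, fun z hz => by_contra fun h0 => hg ?_, fun h30 => ?_⟩
  · calc _ = Nat.card ψ.ker * Nat.card ψ.range := by rw [h27]; ring
      _ ≤ 2 * ((p + 1) * (fc p x * p)) := Nat.mul_le_mul (h25.trans h26) (h24.trans h28)
      _ = _ := by ring
  · have h30 : ∀ s, s * θ.rangeRestrict z = θ.rangeRestrict z * s := fun s => by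
      obtain ⟨s, rfl⟩ := θ.rangeRestrict_surjective s
      rw [← map_mul, ← map_mul, Subgroup.mem_center_iff.1 hz]
    refine L.uniq x₀ _ (mem_U_of_comm L hux hu1 (h30 u)) (fun h31 => h0 (congrArg Subtype.val h31)) _
      (L.fix_of_commute hv (by simpa using hu1) (h30 _))
  have h31 : 2 * ((p + 1) * (fc p x * p)) ≤ p * ((p - 1) * (p + 1)) := by
    calc _ = p * (p + 1) * (2 * fc p x) := by ring
      _ ≤ p * (p + 1) * (p - 1) := Nat.mul_le_mul_left _ h30
      _ = _ := by ring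
  have h32 : ψ.range = θ.range := eq_of_le_of_card_ge h22 (by nlinarith)
  have h33 : ψ.ker = center _ := eq_of_le_of_card_ge h23 (h26.trans (by
    have := Nat.card_pos (α := ψ.range)
    rw [h32] at h27 this
    nlinarith))
  exact ⟨(MulEquiv.subgroupCongr h32.symm).trans ((QuotientGroup.quotientKerEquivRange ψ).symm.trans
    (QuotientGroup.quotientMulEquivOfEq h33))⟩

end PSL

theorem fc_le (h : SY p x) {n : ℕ} (ρ : Representation ℂ G (Fin n → ℂ)) (h1 : ρ x ≠ 1) :
    fc p x ≤ n ∧ (n ≤ fc p x → ∀ c d, c * x = x * c → d * x = x * d → ρ (c * d) = ρ (d * c)) := by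
  classical
  obtain ⟨v, ζ, hv, h2⟩ := exists_eigen_ne (Y := ρ x) (m := p) (by rw [← map_pow, h.pow, map_one])
    (Nat.cast_ne_zero.2 hp.out.ne_zero) (sub_ne_zero.2 h1)
  have hj : ∀ j : ℕ, ρ (x ^ j) v = ζ ^ j • v := fun j => by
    induction j with
    | zero => simp
    | succ j ih => rw [pow_succ', map_mul, Module.End.mul_apply, ih, map_smul, hv, smul_smul, pow_succ]
  have hv0 : v ≠ 0 := by rintro rfl; simp at h2
  have h3 : IsPrimitiveRoot ζ p := by
    have h3 : ζ ^ p = 1 := smul_left_injective ℂ hv0 (by simpa [h.pow] using (hj p).symm)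
    have h4 : ζ ≠ 1 := by rintro rfl; simp [hv] at h2
    exact orderOf_eq_prime h3 h4 ▸ IsPrimitiveRoot.orderOf ζ
  have h4 : ∀ b : {b : ZMod p // IsConj x (x ^ b.val)}, ∃ w, Module.End.HasEigenvector (ρ x)
      (ζ ^ b.1.val) w := fun b => by
    obtain ⟨g, hg⟩ := isConj_iff.1 b.2
    refine ⟨ρ g⁻¹ v, Module.End.mem_eigenspace_iff.2 ?_, fun h0 => hv0 ?_⟩
    · rw [← map_smul, ← hj, ← hg, ← Module.End.mul_apply, ← Module.End.mul_apply, ← map_mul, ← map_mul]
      simp [mul_assoc]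
    · rw [← Module.End.one_apply (R := ℂ) v, ← rho_mul_inv ρ g, Module.End.mul_apply, h0, map_zero]
  choose w hw using h4
  have h5 : Function.Injective fun b : {b : ZMod p // IsConj x (x ^ b.val)} => ζ ^ b.1.val :=
    fun b c hbc => Subtype.ext (ZMod.val_injective p (h3.pow_inj b.1.val_lt c.1.val_lt hbc))
  have h6 := Module.End.eigenvectors_linearIndependent' (ρ x) _ h5 w hw
  have h7 := h6.fintype_card_le_finrank
  rw [← Nat.card_eq_fintype_card, Module.finrank_fin_fun] at h7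
  refine ⟨h7, fun h8 => ?_⟩
  let B := Module.Basis.mk h6 (h6.span_eq_top_of_card_eq_finrank' (by
    rw [← Nat.card_eq_fintype_card, Module.finrank_fin_fun]; exact le_antisymm h7 h8)).ge
  have hB : ∀ b, B b = w b := fun b => Module.Basis.mk_apply _ _ _
  have hrep : ∀ m b, B.repr (ρ x m) b = ζ ^ b.1.val * B.repr m b := by
    intro m j
    have : B.coord j ∘ₗ ρ x = (ζ ^ j.1.val) • B.coord j := B.ext fun i => by
      rw [LinearMap.comp_apply, hB, (hw i).apply_eq_smul, ← hB, map_smul, LinearMap.smul_apply,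
        Module.Basis.coord_apply, Module.Basis.repr_self, Finsupp.single_apply]
      split_ifs with hij
      · rw [hij]
      · simp
    exact LinearMap.congr_fun this m
  have h9 : ∀ c, c * x = x * c → ∀ b, ∃ a : ℂ, ρ c (w b) = a • w b := fun c hc b => by
    refine ⟨B.repr (ρ c (w b)) b, B.ext_elem fun j => ?_⟩
    have h9 := hrep (ρ c (w b)) j
    rw [← Module.End.mul_apply, ← map_mul, ← hc, map_mul, Module.End.mul_apply, (hw b).apply_eq_smul,
      map_smul, map_smul, Finsupp.smul_apply, smul_eq_mul] at h9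
    rw [map_smul, ← hB b, B.repr_self, Finsupp.smul_apply, Finsupp.single_apply, hB]
    split_ifs with hij
    · simp [hij]
    · rw [smul_zero]
      by_contra h0
      exact hij (h5 (mul_right_cancel₀ h0 h9))
  intro c d hc hd
  refine B.ext fun b => ?_
  obtain ⟨a, ha⟩ := h9 c hc b
  obtain ⟨a', ha'⟩ := h9 d hd b
  simp only [hB, map_mul, Module.End.mul_apply, ha, ha', map_smul, smul_smul, mul_comm]

end H20.Tu
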