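import Cfsg.Agent.H20.Tu5
import Cfsg.Agent.H20.Wed2
import Cfsg.Agent.H19.BrChar

/-!
Faithful characters of degree at most `(p - 1) / 2` of groups with a Sylow subgroup of order `p`.
-/

set_option autoImplicit false
set_option linter.unusedSectionVars false

namespace H20.Tu

open MonoidAlgebra Subgroup Cfsg Finset
open H19 (kk OG red ev)
open scoped MatrixGroups

variable {G : Type*} [Group G] [Finite G] {p : ℕ} [hp : Fact p.Prime] {x : G}
  {O : ValuationSubring ℂ} [CharP (kk O) p] {χ : G → ℂ} {n : ℕ}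

/-- The simple modules. -/
noncomputable def rp (W : Wed (kk O) (kk O)[G]) (i : Fin W.n) :
    Representation (kk O) G (Fin (W.d i + 1) → kk O) :=
  (Matrix.toLinAlgEquiv' (R := kk O)).toMonoidHom.comp ((Pi.evalMonoidHom _ i).comp
    (W.π.toMonoidHom.comp (MonoidAlgebra.of (kk O) G)))

theorem rp_apply (W : Wed (kk O) (kk O)[G]) (i : Fin W.n) (g : G) :
    rp W i g = Matrix.toLinAlgEquiv' (W.π (single g 1) i) := rfl

theorem rp_schur (W : Wed (kk O) (kk O)[G]) (i : Fin W.n) (a : Module.End (kk O) _)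
    (h : ∀ g, rp W i g * a = a * rp W i g) : ∃ c : kk O, a = c • 1 := by
  obtain ⟨a, rfl⟩ := Matrix.toLinAlgEquiv'.surjective a
  have h1 : ∀ b, W.π b i * a = a * W.π b i := fun b => by
    induction b using MonoidAlgebra.induction_on with
    | of g =>
      have := h g
      rw [rp_apply, ← map_mul, ← map_mul] at this
      exact Matrix.toLinAlgEquiv'.injective this
    | add b c hb hc => simp [add_mul, mul_add, hb, hc]
    | smul r b hb => simp [hb]
  obtain ⟨c, rfl⟩ := (Matrix.mem_range_scalar_iff_commute_single' (M := a)).2 fun j l => by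
    obtain ⟨b, hb⟩ := W.surj (Pi.single i (Matrix.single j l 1))
    have := h1 b
    rwa [hb, Pi.single_eq_same] at this
  exact ⟨c, by rw [Matrix.scalar_apply, ← Matrix.smul_one_eq_diagonal, map_smul, map_one]⟩

theorem dim_le (W : Wed (kk O) (kk O)[G]) (hχ : IsCharacter G χ) (hn : χ 1 = n) {i : Fin W.n}
    (h : W.dn p χ i ≠ 0) : W.d i + 1 ≤ n := by
  have h1 := W.deg_eq (p := p) hχ
  rw [hn] at h1
  have h2 : n = ∑ i, (W.d i + 1) * W.dn p χ i := by exact_mod_cast h1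
  rw [h2]
  exact (Nat.le_mul_of_pos_right _ (Nat.pos_of_ne_zero h)).trans
    (single_le_sum (f := fun i => (W.d i + 1) * W.dn p χ i) (fun _ _ => Nat.zero_le _) (mem_univ i))

theorem eq_one_of_reg (W : Wed (kk O) (kk O)[G]) (hχ : IsCharacter G χ)
    (hf : ∀ g, χ g = χ 1 → g = 1) {g : G} (hg : ¬ p ∣ orderOf g)
    (h : ∀ i, W.dn p χ i ≠ 0 → rp W i g = 1) : g = 1 := by
  have h0 : (orderOf g : ℂ) ≠ 0 := Nat.cast_ne_zero.2 (orderOf_pos g).ne'
  obtain ⟨S, hS⟩ : ∃ S : ℂ[G], S = ∑ j ∈ range (orderOf g), single (g ^ j) 1 := ⟨_, rfl⟩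
  have h1 : single g 1 * S = S := by
    have := sum_range_succ' (fun j => (single (g ^ j) 1 : ℂ[G])) (orderOf g)
    rw [sum_range_succ, pow_orderOf_eq_one, pow_zero, add_left_inj] at this
    rw [hS, Finset.mul_sum]
    simp only [single_mul_single, ← pow_succ', mul_one, this]
  have h2 : ∀ j : ℕ, single (g ^ j) 1 * S = S := fun j => by
    induction j with
    | zero => rw [pow_zero, ← one_def, one_mul]
    | succ j ih => rw [pow_succ, ← mul_one (1 : ℂ), ← single_mul_single, mul_assoc, h1, ih]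
  have h3 : IsIdempotentElem ((orderOf g : ℂ)⁻¹ • S) := by
    have : S * S = (orderOf g : ℂ) • S := by
      conv_lhs => enter [1]; rw [hS]
      simp [Finset.sum_mul, h2, Nat.cast_smul_eq_nsmul]
    rw [IsIdempotentElem, smul_mul_assoc, mul_smul_comm, this, smul_smul _ (orderOf g : ℂ),
      inv_mul_cancel₀ h0, one_smul]
  have h4 : S ∈ OG O G := hS ▸ sum_mem fun j _ => H19.single_mem_OG _ (one_mem O)
  have h5 := H19.inv_natCast_mem (O := O) p hg
  have h6 := W.ev_idem (p := p) hχ (sub_mem (one_mem _) (H19.smul_mem_OG h5 h4)) h3.one_sub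
  rw [sum_eq_zero] at h6
  · obtain ⟨m, ρ, rfl⟩ := hχ
    rw [H19.ev_character] at h6
    have h7 := LinearMap.IsIdempotentElem.eq_zero_of_trace_eq_zero (h3.one_sub.map ρ.asAlgebraHom) h6
    rw [map_sub, map_one, sub_eq_zero] at h7
    refine hf g ?_
    have h8 : ρ g = 1 := by
      rw [← mul_one (ρ g), h7, ← ρ.asAlgebraHom_single_one, ← map_mul, mul_smul_comm, h1]
    simp [Representation.character, h8]
  · intro i _
    by_cases h7 : W.dn p χ i = 0
    · simp [h7]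
    have h8 : ∀ j : ℕ, W.π (single (g ^ j) 1) i = 1 := fun j =>
      Matrix.toLinAlgEquiv'.injective (by rw [← rp_apply, map_pow, h i h7, one_pow, map_one])
    rw [W.r_eq_zero_iff.2, Nat.cast_zero, zero_mul]
    rw [H19.red_sub (one_mem _) (H19.smul_mem_OG h5 h4), H19.red_smul h5 h4, H19.red_one, hS,
      H19.red_sum _ fun j _ => H19.single_mem_OG _ (one_mem O)]
    simp only [H19.red_single, H19.res_one, map_sub, map_one, map_smul, map_sum, Pi.sub_apply,
      Pi.smul_apply, Finset.sum_apply, h8, sum_const, card_range, Pi.one_apply,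
      ← Nat.cast_smul_eq_nsmul (kk O), smul_smul]
    rw [← H19.res_natCast, ← H19.res_mul h5 (natCast_mem O _), inv_mul_cancel₀ h0, H19.res_one,
      one_smul, sub_self]

theorem SY.eq_one (h : SY p x) (hnn : ¬ (zpowers x).Normal) (W : Wed (kk O) (kk O)[G])
    (hχ : IsCharacter G χ) (hf : ∀ g, χ g = χ 1 → g = 1) {g : G}
    (hg : ∀ i, W.dn p χ i ≠ 0 → rp W i g = 1) : g = 1 := by
  obtain ⟨K, hK⟩ : ∃ K : Subgroup G, K = ⨅ i : {i // W.dn p χ i ≠ 0}, (rp W i).toHomUnits.ker :=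
    ⟨_, rfl⟩
  have h1 : ∀ g, g ∈ K ↔ ∀ i, W.dn p χ i ≠ 0 → rp W i g = 1 := fun g => by
    simp [hK, mem_iInf, Units.ext_iff]
  have : K.Normal := hK ▸ normal_iInf_normal fun _ => inferInstance
  have h2 : IsPGroup p K := fun z => ⟨1, Subtype.ext (eq_one_of_reg W hχ hf
    (by simpa using h.not_dvd_pow z) ((h1 _).1 (z ^ p ^ 1).2))⟩
  by_contra h3
  have h4 : p ∣ Nat.card K := (h2.card_eq_or_dvd).resolve_left fun h4 =>
    h3 (mem_bot.1 (card_eq_one.1 h4 ▸ (h1 g).2 hg))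
  exact hnn (h.eq_of_le h2 (zpowers_le.2 (h.mem_of_dvd h4)) ▸ this)

theorem SY.comm_conj (h : SY p x) (hnn : ¬ (zpowers x).Normal) (hχ : IsCharacter G χ)
    (hf : ∀ g, χ g = χ 1 → g = 1) (hn : χ 1 = n) (hd : 2 * n ≤ p) {v : G} (hv : v * x = x * v)
    (hr : ¬ p ∣ orderOf v) (g : G) : v * (g * x * g⁻¹) = g * x * g⁻¹ * v := by
  obtain ⟨O, hO⟩ := H19.exists_val p
  obtain ⟨W⟩ := nonempty_wed (kk O) (kk O)[G]
  rw [← mul_inv_eq_one]
  refine h.eq_one hnn W hχ hf fun i hi => ?_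
  rw [map_mul, Tu.comm_conj _ h _ hv hr, rho_mul_inv]
  have := dim_le W hχ hn hi
  rw [Module.finrank_fin_fun]; omega

theorem SY.main_gen (h : SY p x) (h5 : 5 ≤ p) (hnn : ¬ (zpowers x).Normal) (hχ : IsCharacter G χ)
    (hf : ∀ g, χ g = χ 1 → g = 1) (hn : χ 1 = n) (hd : 2 * n < p)
    (gen : ∀ K : Subgroup G, K.Normal → x ∈ K → K = ⊤) :
    ∃ (Q : Type) (_ : Group Q) (θ : G →* Q), θ x ≠ 1 ∧ p - 1 ≤ 2 * fc p x ∧
      (∀ z ∈ center G, θ z = 1) ∧ (2 * fc p x ≤ p - 1 → Nonempty (θ.range ≃* PSL(2, ZMod p))) := by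
  obtain ⟨O, hO⟩ := H19.exists_val p
  obtain ⟨W⟩ := nonempty_wed (kk O) (kk O)[G]
  obtain ⟨i, hi, h1⟩ : ∃ i, W.dn p χ i ≠ 0 ∧ rp W i x ≠ 1 := by
    by_contra h1
    push Not at h1
    exact h.ne_one (h.eq_one hnn W hχ hf h1)
  have := dim_le W hχ hn hi
  obtain ⟨θ, h2, h3⟩ := SM.exists_hom (ρ := rp W i)
    ⟨h, h5, by rw [Module.finrank_fin_fun]; omega, gen, rp_schur W i, h1⟩
  exact ⟨_, _, θ, h2, psl_main h h5 gen h2 h3⟩

theorem chr_res (hχ : IsCharacter G χ) (K : Subgroup G) : IsCharacter K fun g => χ g := by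
  obtain ⟨n, ρ, rfl⟩ := hχ
  exact ⟨n, ρ.comp K.subtype, rfl⟩

theorem mem_ncl (x : G) : x ∈ normalClosure ({x} : Set G) := subset_normalClosure rfl

theorem SY.exists_conj_ncl (h : SY p x) (g : G) :
    ∃ c ∈ normalClosure ({x} : Set G), c * (g * x * g⁻¹) * c⁻¹ ∈ zpowers x := by
  obtain ⟨c, hc⟩ := (h.sub (mem_ncl x)).exists_conj
    (z := ⟨g * x * g⁻¹, normalClosure_normal.conj_mem _ (mem_ncl x) g⟩)
    (Subtype.ext (by simp [conj_pow, h.pow]))
  obtain ⟨j, hj⟩ := hc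
  exact ⟨c, c.2, j, congrArg Subtype.val hj⟩

theorem SY.gen_ncl (h : SY p x) (K : Subgroup (normalClosure ({x} : Set G))) (hK : K.Normal)
    (hx : ⟨x, mem_ncl x⟩ ∈ K) : K = ⊤ := by
  have h1 : ∀ g, g * x * g⁻¹ ∈ K.map (Subgroup.subtype _) := fun g => by
    obtain ⟨c, hc, h1⟩ := h.exists_conj_ncl g
    obtain ⟨z, hz, h2⟩ := zpowers_le.2 (mem_map_of_mem (Subgroup.subtype _) hx) h1
    refine ⟨_, hK.conj_mem _ hz (⟨c, hc⟩⁻¹), ?_⟩
    simp only [coe_subtype, Subgroup.coe_mul, Subgroup.coe_inv, inv_inv] at h2 ⊢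
    rw [h2]; group
  have h2 : normalClosure ({x} : Set G) ≤ (K.map (Subgroup.subtype _)).normalCore :=
    normalClosure_le_normal (by rintro _ rfl; exact h1)
  refine eq_top_iff.2 fun z _ => ?_
  obtain ⟨z', hz, h3⟩ := normalCore_le _ (h2 z.2)
  exact Subtype.ext h3 ▸ hz

theorem SY.not_normal_ncl (h : SY p x) (hnn : ¬ (zpowers x).Normal) :
    ¬ (zpowers (⟨x, mem_ncl x⟩ : normalClosure ({x} : Set G))).Normal := fun h1 => by
  have h2 := h.gen_ncl _ h1 (mem_zpowers _)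
  have h3 : normalClosure ({x} : Set G) = zpowers x := le_antisymm (fun z hz => by
    obtain ⟨j, hj⟩ := h2.ge (mem_top (⟨z, hz⟩ : normalClosure ({x} : Set G)))
    exact ⟨j, congrArg Subtype.val hj⟩) (zpowers_le.2 (mem_ncl x))
  exact hnn (h3 ▸ normalClosure_normal)

theorem SY.main_ncl (h : SY p x) (h5 : 5 ≤ p) (hnn : ¬ (zpowers x).Normal) (hχ : IsCharacter G χ)
    (hf : ∀ g, χ g = χ 1 → g = 1) (hn : χ 1 = n) (hd : 2 * n < p) :
    ∃ (Q : Type) (_ : Group Q) (θ : normalClosure ({x} : Set G) →* Q), θ ⟨x, mem_ncl x⟩ ≠ 1 ∧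
      p - 1 ≤ 2 * fc p (⟨x, mem_ncl x⟩ : normalClosure ({x} : Set G)) ∧
      (∀ z ∈ center _, θ z = 1) ∧ (2 * fc p (⟨x, mem_ncl x⟩ : normalClosure ({x} : Set G)) ≤ p - 1 →
        Nonempty (θ.range ≃* PSL(2, ZMod p))) :=
  (h.sub _).main_gen h5 (h.not_normal_ncl hnn) (chr_res hχ _) (fun g hg => Subtype.ext (hf g hg))
    hn hd h.gen_ncl

theorem SY.le_fc (h : SY p x) (h5 : 5 ≤ p) (hnn : ¬ (zpowers x).Normal) (hχ : IsCharacter G χ)
    (hf : ∀ g, χ g = χ 1 → g = 1) (hn : χ 1 = n) (hd : 2 * n < p) : p - 1 ≤ 2 * fc p x := by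
  obtain ⟨Q, _, θ, -, h1, -⟩ := h.main_ncl h5 hnn hχ hf hn hd
  exact h1.trans (Nat.mul_le_mul_left 2 (fc_mono _))

theorem SY.fc_le (h : SY p x) (hχ : IsCharacter G χ) (hf : ∀ g, χ g = χ 1 → g = 1) (hn : χ 1 = n) :
    fc p x ≤ n ∧ (n ≤ fc p x → ∀ c d, c * x = x * c → d * x = x * d → c * d = d * c) := by
  obtain ⟨m, ρ, rfl⟩ := hχ
  have h1 : ∀ g, ρ g = 1 → g = 1 := fun g hg => hf g (by simp [Representation.character, hg])
  obtain rfl : m = n := by simpa using hn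
  obtain ⟨h2, h3⟩ := Tu.fc_le h ρ fun h0 => h.ne_one (h1 x h0)
  refine ⟨h2, fun h4 c d hc hd => mul_inv_eq_one.1 (h1 _ ?_)⟩
  rw [map_mul, h3 h4 c d hc hd, rho_mul_inv]

theorem SY.mem_ker_comm (h : SY p x) (h5 : 5 ≤ p) (hχ : IsCharacter G χ)
    (hf : ∀ g, χ g = χ 1 → g = 1) (hn : χ 1 = n) (hd : 2 * n < p) {Q : Type*} [Group Q]
    {θ : G →* Q} (h1 : θ x ≠ 1) {c : G} (hc : θ c = 1) : c * x = x * c := by
  have hx : x ∈ (zpowers (θ x)).comap θ := mem_zpowers _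
  have h2 : ∀ (g : (zpowers (θ x)).comap θ) (b : ZMod p), g * x * (g : G)⁻¹ = x ^ b.val → b = 1 := by
    rintro ⟨g, i, hi⟩ b hb
    have h3 := congrArg θ hb
    beta_reduce at hi
    rw [map_mul, map_mul, map_inv, ← hi, map_pow] at h3
    refine ZMod.val_injective p (pow_injOn_Iio_orderOf
      (by rw [h.ord_map h1]; exact b.val_lt) (by rw [h.ord_map h1]; exact ZMod.val_lt _) ?_)
    beta_reduce
    rw [← h3, ZMod.val_one]; group
  have h3 : (zpowers (⟨x, hx⟩ : (zpowers (θ x)).comap θ)).Normal := by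
    by_contra h3
    have h4 := (h.sub hx).le_fc h5 h3 (chr_res hχ _) (fun g hg => Subtype.ext (hf g hg)) hn hd
    have h6 : fc p (⟨x, hx⟩ : (zpowers (θ x)).comap θ) ≤ 1 := by
      refine Finite.card_le_one_iff_subsingleton.2 ⟨fun a b => Subtype.ext ?_⟩
      obtain ⟨g, hg⟩ := isConj_iff.1 a.2
      obtain ⟨g', hg'⟩ := isConj_iff.1 b.2
      rw [h2 g _ (congrArg Subtype.val hg), h2 g' _ (congrArg Subtype.val hg')]
    omega
  obtain ⟨b, hb⟩ := (h.sub hx).exists_val (h3.conj_mem _ (mem_zpowers _)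
    ⟨c, by rw [mem_comap, hc]; exact one_mem _⟩)
  have h4 := (congrArg Subtype.val hb).symm
  have h6 := h2 _ b h4
  rw [h6, ZMod.val_one, pow_one] at h4
  exact mul_inv_eq_iff_eq_mul.1 h4

theorem SY.psl (h : SY p x) (h5 : 5 ≤ p) (hnn : ¬ (zpowers x).Normal) (hχ : IsCharacter G χ)
    (hf : ∀ g, χ g = χ 1 → g = 1) (hn : χ 1 = n) (hd : 2 * n + 1 = p) :
    Nonempty ((G ⧸ center G) ≃* PSL(2, ZMod p)) := by
  obtain ⟨Q, _, θ, h1, h2, h3, h4⟩ := h.main_ncl h5 hnn hχ hf hn (by omega)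
  obtain ⟨h6, h7⟩ := h.fc_le hχ hf hn
  have h8 := fc_mono (p := p) (mem_ncl x)
  obtain ⟨e⟩ := h4 (by omega)
  replace h7 := h7 (by omega)
  have h9 : ∀ v, v * x = x * v → ¬ p ∣ orderOf v → ∀ c ∈ normalClosure ({x} : Set G),
      c * v = v * c := fun v hv hr c hc => by
    have : normalClosure ({x} : Set G) ≤ (centralizer {v}).normalCore :=
      normalClosure_le_normal (by
        rintro _ rfl g
        exact mem_centralizer_singleton_iff.2 (h.comm_conj hnn hχ hf hn (by omega) hv hr g).symm)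
    exact mem_centralizer_singleton_iff.1 (normalCore_le _ (this hc))
  have h10 : ∀ K : Subgroup G, normalClosure ({x} : Set G) ≤ K →
      (∀ v, v * x = x * v → ¬ p ∣ orderOf v → v ∈ K) → K = ⊤ := fun K hK hV => by
    refine eq_top_iff.2 fun g _ => ?_
    obtain ⟨c, hc, h10⟩ := h.exists_conj_ncl g
    obtain ⟨b, hb⟩ := h.exists_val h10
    have h11 : Function.Bijective fun b : {b : ZMod p // IsConj (⟨x, mem_ncl x⟩ :
        normalClosure ({x} : Set G)) ((⟨x, mem_ncl x⟩ : normalClosure ({x} : Set G)) ^ b.val)} =>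
        (⟨b.1, (Subgroup.subtype _).map_isConj b.2⟩ : {b : ZMod p // IsConj x (x ^ b.val)}) :=
      (Nat.bijective_iff_injective_and_card _).2 ⟨fun _ _ h => Subtype.ext (Subtype.ext_iff.1 h :),
        le_antisymm h8 (by change fc p x ≤ fc p _; omega)⟩
    obtain ⟨⟨b', h12⟩, h13⟩ := h11.2 ⟨b, isConj_iff.2 ⟨c * g, by rw [hb]; group⟩⟩
    obtain rfl : b' = b := congrArg Subtype.val h13
    obtain ⟨d, hd'⟩ := isConj_iff.1 h12
    have h14 : d * x * (d : G)⁻¹ = x ^ b'.val := congrArg Subtype.val hd'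
    have h15 : Commute ((d : G)⁻¹ * c * g) x := by
      rw [hb] at h14
      calc _ = (d : G)⁻¹ * (c * (g * x * g⁻¹) * c⁻¹) * c * g := by group
        _ = _ := by rw [← h14]; group
    have h16 := h.mem_of_pow (hK (mem_ncl x)) (mem_norm_of_conj (g := (d : G)⁻¹ * c * g)
      (by rw [h15.eq, mul_inv_cancel_right]; exact mem_zpowers x))
      (hV _ (h15.pow_left p) (h.not_dvd_pow _))
    exact (K.mul_mem_cancel_left (mul_mem (inv_mem (hK d.2)) (hK hc))).1 h16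
  have h11 : ∀ v, v * x = x * v → ¬ p ∣ orderOf v → v ∈ center G := fun v hv hr =>
    Subgroup.mem_center_iff.2 fun g => mem_centralizer_singleton_iff.1
      ((h10 (centralizer {v}) (fun c hc => mem_centralizer_singleton_iff.2 (h9 v hv hr c hc))
        fun w hw _ => mem_centralizer_singleton_iff.2 (h7 w v hw hv)).ge (mem_top g))
  obtain ⟨ι, hι⟩ : ∃ ι, ι = (QuotientGroup.mk' (center G)).comp
    (normalClosure ({x} : Set G)).subtype := ⟨_, rfl⟩
  have h12 : Function.Surjective ι := fun q => by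
    obtain ⟨g, rfl⟩ := QuotientGroup.mk_surjective q
    refine (h10 (ι.range.comap (QuotientGroup.mk' _)) (fun c hc => ⟨⟨c, hc⟩, by rw [hι]; rfl⟩)
      fun v hv hr => ?_).ge (mem_top g)
    rw [mem_comap, QuotientGroup.mk'_apply, (QuotientGroup.eq_one_iff v).2 (h11 v hv hr)]
    exact one_mem _
  have h13 : ι.ker = θ.ker := by
    ext c
    rw [hι, MonoidHom.mem_ker, MonoidHom.mem_ker, MonoidHom.comp_apply, QuotientGroup.mk'_apply,
      QuotientGroup.eq_one_iff]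
    refine ⟨fun hc => h3 c (Subgroup.mem_center_iff.2 fun g =>
      Subtype.ext (Subgroup.mem_center_iff.1 hc g)), fun hc => h11 c ?_ fun h13 => h1 ?_⟩
    · exact congrArg Subtype.val ((h.sub (mem_ncl x)).mem_ker_comm h5 (chr_res hχ _)
        (fun g hg => Subtype.ext (hf g hg)) hn (by omega) h1 hc)
    · rw [orderOf_coe] at h13
      exact (h.sub (mem_ncl x)).mem_of_dvd (K := θ.ker) (h13.trans (orderOf_dvd_natCard _ hc))
  exact ⟨(QuotientGroup.quotientKerEquivOfSurjective ι h12).symm.trans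
    ((QuotientGroup.quotientMulEquivOfEq h13).trans ((QuotientGroup.quotientKerEquivRange θ).trans e))⟩

theorem exists_sy (hdiv : p ∣ Nat.card G) (hsq : ¬ p ^ 2 ∣ Nat.card G)
    (hnn : ∀ H : Subgroup G, H.Normal → Nat.card H ≠ p) : ∃ x : G, SY p x ∧ ¬ (zpowers x).Normal := by
  obtain ⟨x, hx⟩ := exists_prime_orderOf_dvd_card' p hdiv
  exact ⟨x, ⟨hx, hsq⟩, fun h => hnn _ h (by rw [Nat.card_zpowers, hx])⟩

theorem SY.two_le (h : SY p x) (hnn : ¬ (zpowers x).Normal) (hχ : IsCharacter G χ)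
    (hf : ∀ g, χ g = χ 1 → g = 1) (hn : χ 1 = n) : 2 ≤ n := by
  by_contra h1
  obtain ⟨m, ρ, rfl⟩ := hχ
  obtain rfl : m = n := by simpa using hn
  refine hnn ⟨fun z hz g => ?_⟩
  have h2 : ρ (g * z * g⁻¹ * z⁻¹) = 1 := by
    have h2 : ∀ a : Module.End ℂ (Fin m → ℂ), ∃ c : ℂ, a = c • 1 := fun a => by
      obtain ⟨v, hv⟩ := finrank_le_one_iff.1 (show Module.finrank ℂ (Fin m → ℂ) ≤ 1 by simp; omega)
      obtain ⟨c, hc⟩ := hv (a v)
      refine ⟨c, LinearMap.ext fun w => ?_⟩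
      obtain ⟨d, rfl⟩ := hv w
      simp [← hc, smul_comm c d]
    obtain ⟨c, hc⟩ := h2 (ρ g)
    have h3 : ρ g * ρ z = ρ z * ρ g := by simp [hc]
    rw [map_mul, map_mul, map_mul, h3, mul_assoc (ρ z), rho_mul_inv, mul_one, rho_mul_inv]
  rwa [mul_inv_eq_one.1 (hf (g * z * g⁻¹ * z⁻¹) (by simp only [Representation.character, h2, map_one]))]

end H20.Tu
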